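import Cfsg.Agent.H6.TwoA
import Cfsg.Agent.H12.SBridge

/-! The finite special unitary groups are generated by two elements. -/

set_option autoImplicit false

namespace Cfsg.Agent.H6.Two

open Cfsg.Agent.H12 Subgroup Module

theorem subring_inv {F : Type*} [Field F] [Finite F] {S : Subring F} {a : F} (h : a ∈ S) : a⁻¹ ∈ S := by
  by_cases a0 : a = 0
  · simpa [a0] using S.zero_mem
  have : a * a ^ (Nat.card Fˣ - 1) = 1 := by
    rw [← pow_succ', Nat.sub_add_cancel Nat.card_pos]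
    exact congrArg Units.val (pow_card_eq_one' (x := Units.mk0 a a0))
  exact eq_inv_of_mul_eq_one_right this ▸ pow_mem h _

theorem subring_top {F : Type*} [Field F] [Finite F] {S : Subring F} {ζ : Fˣ} (hζ : ∀ u, u ∈ zpowers ζ) (h : (ζ : F) ∈ S) :
    S = ⊤ := eq_top_iff.2 fun a _ => by
  by_cases a0 : a = 0
  · exact a0 ▸ S.zero_mem
  obtain ⟨m, hm⟩ := mem_powers_iff_mem_zpowers.2 (hζ (Units.mk0 a a0))
  rw [show a = ζ ^ m by simpa using congrArg Units.val hm.symm]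
  exact pow_mem h m

theorem subring_cube {F : Type*} [Field F] [Finite F] {S : Subring F} {ζ : Fˣ} (hζ : ∀ u, u ∈ zpowers ζ) (h : (ζ : F) ^ 3 ∈ S)
    (h1 : (ζ : F) ^ 3 ≠ 1) : S = ⊤ := eq_top_iff.2 fun x _ => by
  have c : ∀ a : F, a ^ 3 ∈ S := fun a => by
    by_cases a0 : a = 0
    · simpa [a0] using S.zero_mem
    obtain ⟨m, hm⟩ := mem_powers_iff_mem_zpowers.2 (hζ (Units.mk0 a a0))
    rw [show a = ζ ^ m by simpa using congrArg Units.val hm.symm, pow_right_comm]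
    exact pow_mem h m
  by_cases h3 : (3 : F) = 0
  · haveI : CharP F 3 := (CharP.charP_iff_prime_eq_zero Nat.prime_three).2 (by exact_mod_cast h3)
    haveI := Fact.mk Nat.prime_three
    obtain ⟨y, rfl⟩ := surjective_frobenius F 3 x
    exact c y
  have d : ∀ a : F, a ^ 2 + a ∈ S := fun a => by
    convert mul_mem (subring_inv (natCast_mem S 3)) (sub_mem (sub_mem (c (a + 1)) (c a)) S.one_mem) using 1
    push_cast; field_simp; ring
  have z : (ζ : F) ^ 3 * (1 - ζ ^ 3) ≠ 0 := mul_ne_zero (by simp) (sub_ne_zero.2 h1.symm)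
  convert mul_mem (subring_inv (mul_mem h (sub_mem S.one_mem h))) (sub_mem (d (ζ ^ 3 * x)) (mul_mem (pow_mem h 2) (d x))) using 1
  rw [eq_inv_mul_iff_mul_eq₀ z]; ring

variable {F V : Type*} [Field F] [AddCommGroup V] [Module F V] {σ : F →+* F} {B : V →ₛₗ[σ] V →ₗ[F] F} {M : Subgroup (UG B)}

/-- all Eichler transformations with first vector `y` and second vector in `W` lie in `M` -/
def RM (M : Subgroup (UG B)) (y : V) (W : Submodule F V) : Prop := ∀ u ∈ W, ∀ c, Adm B y u c → rho B y u c ∈ M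

theorem RM.conj (D : SD B) {y : V} {W W' : Submodule F V} (h : RM M y W) {g : UG B} (hg : g ∈ M) (hW : ∀ u ∈ W', (g⁻¹).1 u ∈ W) :
    RM M (g.1 y) W' := fun u hu c hc => by
  have := cj hg (h _ (hW u hu) c ((adm_conj g).1 (by rwa [UG_apply_inv])))
  rwa [conj_rho D, UG_apply_inv] at this

theorem RM.smul (D : SD B) {y : V} {W : Submodule F V} (h : RM M y W) {a : F} (ha : a ≠ 0) : RM M (a • y) W := fun u hu c hc => by
  have h1 : Adm B y u c := ⟨by simpa [ha, D.σ_eq_zero] using hc.ee, by simpa [D.σ_eq_zero, ha] using hc.eu, hc.cc⟩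
  rw [rho_smul D h1]
  exact h _ (W.smul_mem _ hu) _ (by simpa [D.invol, mul_comm] using h1.smul_right D (σ a))

theorem le_of_rm [FiniteDimensional F V] [Finite F] (D : SD B) {e f : V} (h : SP B e f) (he : RM M e ⊤) (hf : RM M f ⊤) :
    SUG B ≤ M := by
  have r2 : ∀ e f, SP B e f → RM M e ⊤ → RM M f ⊤ → ∀ y, B y y = 0 → B e y ≠ 0 → RM M y ⊤ := fun e f h he hf y hy h0 => by
    obtain ⟨u, c, ha, e1⟩ := exists_rho_map D (x := B e y • f) h.ee (y := y) (by simp [h.ff, hy]) (by simp [h.ef])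
      (by simpa [h.ef])
    exact e1 ▸ (hf.smul D h0).conj D (he u trivial c ha) fun _ _ => trivial
  have he' : RM M (-e) ⊤ := by simpa using he.smul D (a := -1) (by simp)
  rw [← D.EG_eq_SUG D.ns, EG, closure_le]
  rintro _ ⟨y, a, c, rfl⟩
  by_cases ha : Adm B y a c
  swap
  · rw [rho_of_not ha]; exact one_mem _
  by_cases h1 : B e y = 0
  swap
  · exact r2 e f h he hf y ha.ee h1 a trivial c ha
  by_cases h2 : B f y = 0
  swap
  · exact r2 f _ (h.symm D) hf he' y ha.ee h2 a trivial c ha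
  by_cases h3 : y = 0
  · have : rho B y a c = 1 := UG_ext fun x => by rw [rho_apply D ha]; simp [h3]
    rw [this]; exact one_mem _
  obtain ⟨b, hb⟩ := (h.sd D).exists_ne (x := ⟨y, mem_sperp_pair.2 ⟨h1, h2⟩⟩) (by simpa using h3)
  obtain ⟨d, hd⟩ := exists_adm D h.ee (spp_left b)
  have := (r2 f _ (h.symm D) hf he' ((rho B e b d).1 y) (by rw [UG_map, ha.ee]) (by
    rw [rho_apply D hd]; simpa [h1, h2, h.fe D] using D.ne0 hb)).conj D (inv_mem (he b trivial d hd)) (W' := ⊤) fun _ _ => trivial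
  rw [UG_inv_apply_apply] at this
  exact this a trivial c ha

/-- `g` is an Eichler transformation with vectors `e`, `t v` -/
def Ei (B : V →ₛₗ[σ] V →ₗ[F] F) (e v : V) (t : F) (g : UG B) : Prop := ∃ c, Adm B e (t • v) c ∧ g = rho B e (t • v) c

theorem Ei.mul (D : SD B) {e v : V} {t t' : F} {g g' : UG B} (h : Ei B e v t g) (h' : Ei B e v t' g') :
    Ei B e v (t + t') (g * g') := by
  obtain ⟨c, h, rfl⟩ := h
  obtain ⟨c', h', rfl⟩ := h'
  exact ⟨_, by rw [add_smul]; exact h.add D h', by rw [add_smul, rho_mul D h h']⟩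

theorem Ei.inv (D : SD B) {e v : V} {t : F} {g : UG B} (h : Ei B e v t g) : Ei B e v (-t) g⁻¹ := by
  obtain ⟨c, h, rfl⟩ := h
  exact ⟨_, by rw [neg_smul]; exact h.neg D, by rw [neg_smul, rho_inv D h]⟩

theorem Ei.conj (D : SD B) {e v : V} {t a b : F} {g k : UG B} (h : Ei B e v t g) (h1 : k.1 e = a • e) (h2 : k.1 v = b • v) :
    Ei B e v (σ a * b * t) (k * g * k⁻¹) := by
  obtain ⟨c, h, rfl⟩ := h
  have h3 : Adm B e ((b * t) • v) c := by
    have := ((adm_conj k).2 h).cc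
    rw [map_smul, h2, smul_smul, mul_comm] at this
    exact ⟨h.ee, by have := h.eu; simp at this ⊢; tauto, this⟩
  refine ⟨c * (a * σ a), by simpa [D.invol, mul_comm, smul_smul, mul_assoc, mul_left_comm] using h3.smul_right D (σ a), ?_⟩
  rw [conj_rho D, h1, map_smul, h2, smul_smul, mul_comm t, rho_smul D h3, smul_smul, mul_assoc]

theorem su_core [FiniteDimensional F V] [Finite F] (D : SD B) (hσ : σ ≠ RingHom.id F) {e f : V} (h : SP B e f) {r : ℕ}
    {v : Fin (r + 1) → V} (hv : ∀ i, v i ∈ spp B e f) (h0 : B (v 0) (v 0) ≠ 0)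
    (hs : ∀ u ∈ spp B e f, u ∈ Submodule.span F (Set.range v)) {ρ k : UG B} (hρ : ρ ∈ SUG B) (hk : k ∈ SUG B)
    (ρ1 : ρ.1 e = e) (ρ2 : ρ.1 f = f) (ρ3 : ∀ i, ∃ c : F, c ≠ 0 ∧ ρ.1 (v i) = c • v (finRotate _ i)) {a : F} (ha : a ≠ 0) {μ : Fin (r + 1) → F}
    (k1 : k.1 e = a • e) (k2 : k.1 f = (σ a)⁻¹ • f) (k3 : ∀ i, k.1 (v i) = μ i • v i) (n1 : σ a * μ 0 ≠ 1)
    (n2 : a⁻¹ * μ (Fin.last r) ≠ 1) (n3 : ∀ S : Subring F, σ a * μ 0 ∈ S → a⁻¹ * μ (Fin.last r) ∈ S → S = ⊤) : Gen2 (SUG B) := by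
  have ev : ∀ i, B e (v i) = 0 := fun i => spp_left ⟨_, hv i⟩
  have fv : ∀ i, B f (v i) = 0 := fun i => spp_right ⟨_, hv i⟩
  set n := tv B e 1 * tv B f 1 * tv B e 1 with hn
  have n4 : n.1 e = -f := by simp [hn, tv_apply D h.ee, tv_apply D h.ff, h.ee, h.ef, h.fe D]
  have n5 : n.1 f = e := by simp [hn, tv_apply D h.ee, tv_apply D h.ff, h.ee, h.ff, h.ef, h.fe D]
  have n6 : ∀ i, n.1 (v i) = v i := fun i => by simp [hn, tv_apply D h.ee, tv_apply D h.ff, ev, fv]
  obtain ⟨c, hc⟩ := exists_adm D h.ee (ev 0)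
  set x := rho B e (v 0) c
  have ex : Ei B e (v 0) 1 x := ⟨c, by simpa, by simp [x]⟩
  set k' := n * ρ * k * (n * ρ)⁻¹ with hk'
  have a1 : k'.1 e = (σ a)⁻¹ • e := by
    rw [hk', UG_mul_apply, UG_mul_apply, UG_inv_apply_eq (x := f) (by simp [ρ2, n5])]; simp [k2, ρ2, n5]
  have a2 : k'.1 f = a • f := by
    rw [hk', UG_mul_apply, UG_mul_apply, UG_inv_apply_eq (x := -e) (by simp [ρ1, n4])]; simp [k1, ρ1, n4]
  have a3 : ∀ i, k'.1 (v (finRotate _ i)) = μ i • v (finRotate _ i) := fun i => by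
    obtain ⟨d, d0, hd⟩ := ρ3 i
    rw [hk', UG_mul_apply, UG_mul_apply, UG_inv_apply_eq (x := d⁻¹ • v i) (by simp [hd, n6, d0])]
    simp [k3, hd, n6, smul_smul, d0, mul_right_comm _ (μ i)]
  have a4 : k * k' = k' * k := h.UG_ext D (by simp [k1, a1, smul_smul, mul_comm]) (by simp [k2, a2, smul_smul, mul_comm]) fun w => by
    refine Submodule.span_induction (p := fun u _ => (k * k').1 u = (k' * k).1 u) ?_ (by simp) (fun _ _ _ _ a b => by
      simp only [map_add, a, b]) (fun _ _ _ a => by simp only [map_smul, a]) (hs _ w.2)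
    rintro _ ⟨i, rfl⟩
    obtain ⟨i, rfl⟩ := (finRotate _).surjective i
    simp only [UG_mul_apply, a3, k3, map_smul, smul_smul, mul_comm]
  have a5 : k'.1 (v 0) = μ (Fin.last r) • v 0 := by simpa using a3 (Fin.last r)
  refine gen2_of (b := x * (n * ρ)) hk (mul_mem (rho_mem_SUG D _ _ _) (mul_mem (mul_mem (mul_mem (tv_mem_SUG D _ _)
    (tv_mem_SUG D _ _)) (tv_mem_SUG D _ _)) hρ)) fun M m1 m2 => ?_
  have m3 : x * k' * x⁻¹ ∈ M := by convert cj m2 m1 using 1; rw [hk']; group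
  let P : F → Prop := fun t => ∃ g ∈ M, Ei B e (v 0) t g
  let S : Subring F :=
    { carrier := {s | ∀ t, P t → P (s * t)}
      mul_mem' := fun ha hb t ht => by rw [mul_assoc]; exact ha _ (hb t ht)
      one_mem' := fun t ht => by rwa [one_mul]
      add_mem' := fun ha hb t ht => by
        obtain ⟨g, g1, g2⟩ := ha t ht
        obtain ⟨g', g1', g2'⟩ := hb t ht
        exact ⟨_, mul_mem g1 g1', by rw [add_mul]; exact g2.mul D g2'⟩
      zero_mem' := fun t ⟨g, g1, g2⟩ => ⟨_, mul_mem g1 (inv_mem g1), by simpa using g2.mul D (g2.inv D)⟩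
      neg_mem' := fun ha t ht => by
        obtain ⟨g, g1, g2⟩ := ha t ht
        exact ⟨_, inv_mem g1, by rw [neg_mul]; exact g2.inv D⟩ }
  have hS : S = ⊤ := n3 S (fun t ⟨g, g1, g2⟩ => ⟨_, cj m1 g1, g2.conj D k1 (k3 0)⟩) fun t ⟨g, g1, g2⟩ =>
    ⟨_, cj m3 g1, by
      convert (ex.mul D (((ex.inv D).mul D g2).mul D ex |>.conj D a1 a5)).mul D (ex.inv D) using 1
      · simp [D.invol]
      · group⟩
  have p0 : P ((σ a * μ 0 - 1) * (1 - a⁻¹ * μ (Fin.last r))) := ⟨_, mul_mem (cj m1 m3) (inv_mem m3), by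
    convert ((ex.conj D k1 (k3 0)).mul D ((((ex.inv D).conj D k1 (k3 0)).mul D ex).conj D a1 a5)).mul D (ex.inv D) using 1
    · simp [D.invol]; ring
    · calc _ = k * x * k⁻¹ * (k * k') * x⁻¹ * k⁻¹ * x * k'⁻¹ * x⁻¹ := by group
        _ = _ := by rw [a4]; group⟩
  have p1 : ∀ t, P t := fun t => by
    have := (hS.ge (Subring.mem_top (t / ((σ a * μ 0 - 1) * (1 - a⁻¹ * μ (Fin.last r))))) :) _ p0
    rwa [div_mul_cancel₀ _ (mul_ne_zero (sub_ne_zero.2 n1) (sub_ne_zero.2 n2.symm))] at this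
  have t1 : ∀ c, tv B e c ∈ M := fun c => by
    by_cases hc : σ c = c
    swap
    · rw [tv_of_not (by simp [hc])]; exact one_mem _
    obtain ⟨d, rfl⟩ := H13.exists_add_conj_eq hσ D.invol hc
    obtain ⟨_, g1, c1, g2, rfl⟩ := p1 1
    obtain ⟨_, g3, c2, g4, rfl⟩ := p1 (d / B (v 0) (v 0))
    have := commutator_rho D g2 g4
    simp only [map_smul, LinearMap.map_smulₛₗ, LinearMap.smul_apply, map_one, one_smul, smul_eq_mul, div_mul_cancel₀ _ h0] at this
    exact this ▸ mul_mem (cj (by simpa using g1) g3) (inv_mem g3)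
  have r0 : RM M e (F ∙ v 0) := fun u hu c hc => by
    obtain ⟨t, rfl⟩ := Submodule.mem_span_singleton.1 hu
    obtain ⟨_, g1, c1, g2, rfl⟩ := p1 t
    rw [rho_eq_tv_mul_rho D g2 hc]
    exact mul_mem (t1 _) g1
  have m4 : n * ρ ∈ M := (M.mul_mem_cancel_left (r0 _ (Submodule.mem_span_singleton_self _) c hc)).1 m2
  have m5 : n ∈ M := by
    have := cj m4 (t1 1)
    rw [conj_tv D, UG_mul_apply, ρ1, n4, ← neg_one_smul F f, tv_smul D h.ff (map_one σ)] at this
    exact mul_mem (mul_mem (t1 _) (by simpa using this)) (t1 _)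
  have m6 : ρ ∈ M := (M.mul_mem_cancel_left m5).1 m4
  have r1 : ∀ i, RM M e (F ∙ v i) := Fin.induction r0 fun i ih => by
    obtain ⟨d, d0, hd⟩ := ρ3 i.castSucc
    refine ρ1 ▸ ih.conj D m6 fun u hu => ?_
    obtain ⟨t, rfl⟩ := Submodule.mem_span_singleton.1 hu
    rw [UG_inv_apply_eq (x := (t / d) • v i.castSucc) (by simp [hd, smul_smul, d0])]
    exact Submodule.smul_mem _ _ (Submodule.mem_span_singleton_self _)
  have r2 : ∀ u ∈ Submodule.span F (Set.range v), B e u = 0 ∧ ∀ t : F, ∀ c, Adm B e (t • u) c → rho B e (t • u) c ∈ M := fun u hu => by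
    induction hu using Submodule.span_induction with
    | mem u hu =>
      obtain ⟨i, rfl⟩ := hu
      exact ⟨ev i, fun t => r1 i _ (Submodule.smul_mem _ _ (Submodule.mem_span_singleton_self _))⟩
    | zero => exact ⟨by simp, fun t c _ => by rw [smul_zero]; exact t1 c⟩
    | add u u' _ _ b b' =>
      refine ⟨by simp [b.1, b'.1], fun t c hc => ?_⟩
      obtain ⟨d, hd⟩ := exists_adm D h.ee (u := t • u) (by simp [b.1])
      obtain ⟨d', hd'⟩ := exists_adm D h.ee (u := t • u') (by simp [b'.1])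
      rw [smul_add] at hc ⊢
      rw [rho_eq_tv_mul_rho D (hd.add D hd') hc, ← rho_mul D hd hd']
      exact mul_mem (t1 _) (mul_mem (b.2 t d hd) (b'.2 t d' hd'))
    | smul s u _ b => exact ⟨by simp [b.1], fun t => by rw [smul_smul]; exact b.2 _⟩
  have r3 : RM M e ⊤ := fun u _ c hc => by
    obtain ⟨s, w, rfl⟩ := h.exists_eq_of_perp D hc.eu
    obtain ⟨d, hd⟩ := exists_adm D h.ee (spp_left w)
    rw [rho_eq_tv_mul_rho D (hd.add_smul D s) hc, rho_add_smul D hd, rho_eq_tv_mul_rho D hd ⟨hd.ee, hd.eu, by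
      rw [← hd.cc]; simp [D.invol]; ring⟩]
    exact mul_mem (t1 _) (mul_mem (t1 _) (by simpa using (r2 _ (hs _ w.2)).2 1 d (by simpa)))
  exact le_of_rm D h r3 (by simpa [n4] using (r3.conj D m5 (W' := ⊤) fun _ _ => trivial).smul D (a := -1) (by simp))

theorem su_two [Fintype F] {q : ℕ} (hF : Fintype.card F = q ^ 2) (n : ℕ) (hn : 3 ≤ n) (h32 : n = 3 → q ≠ 2) :
    Gen2 (SUG (uB hF n)) := by
  obtain ⟨r, rfl⟩ := Nat.exists_eq_add_of_le' hn
  have D := sd_uB hF (r + 3)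
  have hσ := frobq_ne_id hF
  obtain ⟨e, e0, he⟩ := D.exists_iso D.ns (by simp)
  obtain ⟨f, h⟩ := D.exists_SP he e0
  obtain ⟨ε, hε⟩ := (h.sd D).exists_equiv_std hσ (skw_ne hF) (frobq_skw hF) (n := r + 1) (by
    have := h.finrank_spp D; simp at this; omega)
  let b := (Pi.basisFun F (Fin (r + 1))).map ε.symm
  have g : ∀ i j, uB hF (r + 3) (b i) (b j) = if i = j then skw hF else 0 := fun i j => by
    rw [← res_apply, ← hε]; simp [b, stdB_apply, Pi.single_apply, eq_comm]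
  have qr : ∀ i (a : N1 (frobq hF)), ∃ k : UG (uB hF (r + 3)), udet _ k = a ∧ k.1 e = e ∧ k.1 f = f ∧
      ∀ j, k.1 (b j) = (if j = i then ((a : Fˣ) : F) else 1) • (b j : Fin (r + 3) → F) := fun i a => by
    obtain ⟨k, k1, k2, k3⟩ := D.exists_quasiRefl (w := b i) (by simp [g, skw_ne]) a
    refine ⟨k, k1, k3 _ (D.spp_left' _), k3 _ (D.spp_right' _), fun j => ?_⟩
    split_ifs with c
    · rw [c, k2]
    · rw [one_smul, k3 _ (by simp [g, Ne.symm c])]
  obtain ⟨g', hg'⟩ := (h.sd D).witt b.linearIndependent (b.linearIndependent.comp _ (finRotate _).injective)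
    fun i j => by simp [res_apply, g]
  obtain ⟨ρ1, ρ2⟩ := (h.mem_range_ext D).1 ⟨g', rfl⟩
  obtain ⟨k0, a1, a2, a3, a4⟩ := qr 0 (⟨_, D.udet_mem_N1 (extUG D (h.isCompl D) g')⟩⁻¹)
  obtain ⟨ζ, hζ⟩ := IsCyclic.exists_generator (α := Fˣ)
  have z0 := D.σ_ne_zero ζ.ne_zero
  let a : N1 (frobq hF) := ⟨ζ * (Units.mk0 _ z0)⁻¹, show _ = _ by simp [D.invol]; field_simp⟩
  obtain ⟨k1, b1, b2, b3, b4⟩ := qr 0 a
  obtain ⟨k2, c1, c2, c3, c4⟩ := qr (Fin.last r) (a⁻¹ ^ 2)
  have q2 := two_le_of_card_eq_sq hF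
  have ord : ∀ i j : ℕ, i < j → j + 1 < i + q ^ 2 → (ζ : F) ^ j ≠ ζ ^ i := fun i j h1 h2 e => by
    have := pow_injOn_Iio_orderOf (x := ζ) 
    rw [orderOf_eq_card_of_forall_mem_zpowers hζ, Nat.card_units, Nat.card_eq_fintype_card, hF] at this
    have := @this (j - i) (by simp; omega) 0 (by simp; omega) (Units.ext (by simp [pow_sub₀ _ ζ.ne_zero h1.le, e]))
    omega
  refine su_core D hσ h (v := fun i => b i) (fun i => (b i).2) (by simp [g, skw_ne]) (fun u hu => ?_)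
    (ρ := k0 * extUG D (h.isCompl D) g') (k := h.torus D ζ * k1 * k2) (by rw [SUG, MonoidHom.mem_ker, map_mul, a1]; simp)
    (by
      rw [SUG, MonoidHom.mem_ker, map_mul, map_mul, b1, c1]
      exact Units.ext (by simp [h.det_torus, a]; field_simp))
    (by simp [ρ1, a2]) (by simp [ρ2, a3]) (fun i => ⟨_, ?_, by rw [UG_mul_apply, extUG_apply_mem, hg', Function.comp, a4]⟩)
    ζ.ne_zero (μ := fun i => (if i = 0 then ((a : Fˣ) : F) else 1) * if i = Fin.last r then (((a⁻¹ ^ 2 :) : Fˣ) : F) else 1)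
    (by simp [b2, c2, h.torus_e]) (by simp [b3, c3, h.torus_f])
    (fun i => by rw [UG_mul_apply, UG_mul_apply, c4, map_smul, b4, map_smul, map_smul, h.torus_w, smul_smul, mul_comm]) ?_ ?_ fun S h1 h2 => ?_
  · have := Submodule.apply_mem_span_image_of_mem_span (spp _ e f).subtype (b.mem_span ⟨u, hu⟩)
    rwa [← Set.range_comp] at this
  · split_ifs <;> simp
  all_goals rcases r with _ | r
  · have := ord 1 (2 * q) (by omega) (by have := h32 rfl; nlinarith [show 3 ≤ q by omega])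
    simp [a, frobq_apply]
    intro e; apply this; field_simp at e; rw [mul_comm, pow_mul, e, pow_one]
  · have := ord 0 1 (by omega) (by nlinarith)
    simpa [a, (Fin.last_pos).ne, z0, mul_comm, mul_left_comm] using this
  · have := ord 2 q (by have := h32 rfl; omega) (by nlinarith)
    simp [a, frobq_apply]
    intro e; apply this; field_simp at e; rw [e]
  · have := ord 3 (2 * q) (by omega) (by nlinarith)
    simp [a, frobq_apply, (Fin.last_pos).ne']
    intro e; apply this; field_simp at e; rw [mul_comm, pow_mul, e]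
  · refine subring_cube hζ ?_ (by simpa using ord 0 3 (by omega) (by have := h32 rfl; nlinarith [show 3 ≤ q by omega]))
    convert mul_mem h1 (pow_mem (subring_inv h2) 2) using 1
    simp [a]; field_simp
  · exact subring_top hζ (by simpa [a, (Fin.last_pos).ne, z0, mul_comm, mul_left_comm] using h1)

end Cfsg.Agent.H6.Two
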