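import Cfsg.Agent.H28.ED

/-! Cyclic vectors, pole placement and factorisations of cyclic maps with prescribed classes. -/

set_option autoImplicit false

namespace Cfsg.Agent.H6.Com

open Polynomial Module Cfsg.Agent.H28

universe u
variable {F : Type u} [Field F] {V W : Type*} [AddCommGroup V] [Module F V] [AddCommGroup W] [Module F W]

/-- a cyclic vector -/
def Cyc (a : End F V) (v : V) : Prop := ∀ S : Submodule F V, v ∈ S → (∀ x ∈ S, a x ∈ S) → S = ⊤

theorem aeval_mem {a : End F V} {S : Submodule F V} (hS : ∀ x ∈ S, a x ∈ S) (r : F[X]) {x : V} (hx : x ∈ S) : aeval a r x ∈ S := by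
  induction r using Polynomial.induction_on with
  | C c => simpa using S.smul_mem c hx
  | add p q hp hq => simpa using S.add_mem hp hq
  | monomial n c h => rw [pow_succ', mul_left_comm, map_mul, aeval_X]; exact hS _ h

theorem aeval_sub_mem {a b : End F V} {S : Submodule F V} (hS : ∀ x ∈ S, a x ∈ S) (h : ∀ x, a x - b x ∈ S) (r : F[X]) (x : V) :
    aeval a r x - aeval b r x ∈ S := by
  induction r using Polynomial.induction_on with
  | C c => simp
  | add p q hp hq => simpa [add_sub_add_comm] using S.add_mem hp hq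
  | monomial n c ih =>
    rw [pow_succ', mul_left_comm, map_mul (aeval a), map_mul (aeval b), aeval_X, aeval_X]
    have := S.add_mem (hS _ ih) (h (aeval b (C c * X ^ n) x))
    rwa [map_sub, sub_add_sub_cancel] at this

theorem inv_mem [FiniteDimensional F V] {c : End F V} (hc : LinearMap.det c ≠ 0) {S : Submodule F V} (hS : ∀ x ∈ S, c x ∈ S) {x : V}
    (hx : c x ∈ S) : x ∈ S := by
  have i : Function.Injective c := LinearMap.ker_eq_bot.1 (by_contra fun h => hc (LinearMap.det_eq_zero_iff_ker_ne_bot.2 h))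
  obtain ⟨y, hy⟩ := (LinearMap.injective_iff_surjective (f := c.restrict hS)).1
    (fun _ _ h => Subtype.ext (i (congrArg Subtype.val h))) ⟨_, hx⟩
  exact i (congrArg Subtype.val hy) ▸ y.2

theorem exists_inv [FiniteDimensional F V] {c : End F V} (hc : LinearMap.det c ≠ 0) : ∃ d : End F V, d * c = 1 ∧ c * d = 1 :=
  have ⟨u, h⟩ := (LinearMap.isUnit_iff_isUnit_det c).2 hc.isUnit
  ⟨u.inv, h ▸ u.inv_val, h ▸ u.val_inv⟩

theorem Cyc.inv [FiniteDimensional F V] {g d : End F V} {v : V} (h : Cyc g v) (e : d * g = 1) : Cyc d v := fun S hv hS =>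
  h S hv fun x hx => inv_mem (left_ne_zero_of_mul_eq_one (b := LinearMap.det g) (by rw [← map_mul, e, map_one])) hS
    (by rwa [← End.mul_apply, e])

theorem Cyc.of_sub {a b : End F V} {v : V} (h : Cyc a v) (e : ∀ S : Submodule F V, v ∈ S → ∀ x ∈ S, b x ∈ S → a x ∈ S) : Cyc b v :=
  fun S hv hS => h S hv fun x hx => e S hv x hx (hS x hx)

/-- similarity classes -/
abbrev Cl (F : Type u) [Field F] := Multiset (PP F)

open Classical in
/-- the class of a companion matrix -/
noncomputable def cy (p : F[X]) : Cl F := if h : p.Monic then have := finite_adjoinRoot h.ne_zero; ed (cyc p) else 0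

theorem cy_eq {p : F[X]} (h : p.Monic) [FiniteDimensional F (AdjoinRoot p)] : cy p = ed (cyc p) := dif_pos h

theorem cy_poly (x : PP F) : cy x.poly = {x} := (cy_eq x.poly_monic).trans (ed_cyc x)

theorem exists_map {a : End F V} {v : V} (hv : Cyc a v) {p : F[X]} (hp : p.Monic) (h0 : aeval a p v = 0) :
    ∃ φ : AdjoinRoot p →ₗ[F] V, Function.Surjective φ ∧ ∀ x, φ (cyc p x) = a (φ x) := by
  let φ : AdjoinRoot p →ₗ[F] V := LinearMap.applyₗ v ∘ₗ (aeval a).toLinearMap ∘ₗ AdjoinRoot.modByMonicHom hp
  have h1 : ∀ q, φ (AdjoinRoot.mk p q) = aeval a q v := fun q => by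
    simp [φ, modByMonic_eq_sub_mul_div q p, mul_comm p, h0]
  have h2 : ∀ x, φ (cyc p x) = a (φ x) := fun x => by
    obtain ⟨q, rfl⟩ := AdjoinRoot.mk_surjective x
    rw [cyc_apply, ← AdjoinRoot.mk_X, ← map_mul, h1, h1, map_mul, aeval_X, End.mul_apply]
  exact ⟨φ, LinearMap.range_eq_top.1 (hv _ ⟨_, (h1 1).trans (by simp)⟩ (by rintro _ ⟨x, rfl⟩; exact ⟨_, h2 x⟩)), h2⟩

theorem ed_eq_cy [FiniteDimensional F V] {a : End F V} {v : V} (hv : Cyc a v) {p : F[X]} (hp : p.Monic) (h0 : aeval a p v = 0)
    (hd : p.natDegree = finrank F V) : ed a = cy p := by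
  have := finite_adjoinRoot hp.ne_zero
  obtain ⟨φ, h3, h2⟩ := exists_map hv hp h0
  rw [cy_eq hp]
  exact (Sim.ed_eq ⟨.ofBijective φ ⟨(LinearMap.injective_iff_surjective_of_finrank_eq_finrank
    ((finrank_adjoinRoot p).trans hd)).2 h3, h3⟩, h2⟩).symm

theorem cyc_one (p : F[X]) : Cyc (cyc p) 1 := fun S h hS => eq_top_iff.2 fun x _ => by
  obtain ⟨q, rfl⟩ := AdjoinRoot.mk_surjective x
  simpa [aeval_cyc_apply] using aeval_mem hS q h

/-- determinant of a class -/
noncomputable def dt (x : Cl F) : F := LinearMap.det (model x)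

/-- dimension of a class -/
noncomputable def dm (x : Cl F) : ℕ := (x.map fun x => x.k * x.f.natDegree).sum

/-- the signed constant term -/
noncomputable def nm (p : F[X]) : F := (-1) ^ p.natDegree * p.coeff 0

theorem dt_ed [FiniteDimensional F V] (a : End F V) : dt (ed a) = LinearMap.det a := (sim_model_ed a).det_eq.symm

theorem dm_ed [FiniteDimensional F V] (a : End F V) : dm (ed a) = finrank F V := (finrank_eq_sum_ed a).symm

theorem dt_add (x y : Cl F) : dt (x + y) = dt x * dt y := by
  rw [← ed_model x, ← ed_model y, ← ed_prodMap, dt_ed, dt_ed, dt_ed, LinearMap.det_prodMap]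

theorem dm_add (x y : Cl F) : dm (x + y) = dm x + dm y := by simp [dm]

theorem dt_zero : dt (0 : Cl F) = 1 := LinearMap.det_eq_one_of_subsingleton _

theorem dt_nsmul (n : ℕ) (x : Cl F) : dt (n • x) = dt x ^ n := by
  induction n with
  | zero => simp [dt_zero]
  | succ n ih => rw [succ_nsmul, dt_add, ih, pow_succ]

theorem dt_cy {p : F[X]} (h : p.Monic) : dt (cy p) = nm p := by
  have := finite_adjoinRoot h.ne_zero
  rw [cy_eq h, dt_ed, LinearMap.det_eq_sign_charpoly_coeff, charpoly_cyc h, finrank_adjoinRoot, nm]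

theorem dm_cy {p : F[X]} (h : p.Monic) : dm (cy p) = p.natDegree := by
  have := finite_adjoinRoot h.ne_zero
  rw [cy_eq h, dm_ed, finrank_adjoinRoot]

theorem nm_mul {p q : F[X]} (hp : p.Monic) (hq : q.Monic) : nm (p * q) = nm p * nm q := by
  rw [nm, nm, nm, hp.natDegree_mul hq, mul_coeff_zero]; ring

theorem nm_lin (a : F) : nm (X - C a) = a := by simp [nm]

theorem cy_mul {p q : F[X]} (hp : p.Monic) (hq : q.Monic) (h : IsCoprime p q) : cy (p * q) = cy p + cy q := by
  have := finite_adjoinRoot hp.ne_zero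
  have := finite_adjoinRoot hq.ne_zero
  rw [cy_eq hp, cy_eq hq, ← ed_prodMap]
  refine (ed_eq_cy (v := (1, 1)) (fun S h1 hS => eq_top_iff.2 ?_) (hp.mul hq) ?_ ?_).symm
  · rintro ⟨x, y⟩ -
    obtain ⟨r, rfl⟩ := AdjoinRoot.mk_surjective x
    obtain ⟨s, rfl⟩ := AdjoinRoot.mk_surjective y
    obtain ⟨a, b, e⟩ := h
    convert aeval_mem hS (r * (b * q) + s * (a * p)) h1 using 1
    rw [aeval_prodMap, LinearMap.prodMap_apply, aeval_cyc_apply, aeval_cyc_apply, mul_one, mul_one]
    congr 1 <;> rw [AdjoinRoot.mk_eq_mk]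
    exacts [⟨(r - s) * a, by linear_combination -r * e⟩, ⟨(s - r) * b, by linear_combination -s * e⟩]
  · simp [aeval_prodMap, aeval_cyc_apply, - map_mul, Prod.ext_iff, AdjoinRoot.mk_eq_zero]
  · rw [finrank_prod, finrank_adjoinRoot, finrank_adjoinRoot, hp.natDegree_mul hq]

/-- the class of a scalar in dimension one -/
noncomputable def sc (a : F) : Cl F := cy (X - C a)

theorem dt_sc (a : F) : dt (sc a) = a := (dt_cy (monic_X_sub_C a)).trans (nm_lin a)

theorem cy_lin {a : F} {T : F[X]} (hT : T.Monic) (h : T.eval a ≠ 0) : cy ((X - C a) * T) = sc a + cy T :=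
  cy_mul (monic_X_sub_C a) hT ((irreducible_X_sub_C a).coprime_iff_not_dvd.2 fun e => h (dvd_iff_isRoot.1 e))

theorem ed_smul [FiniteDimensional F V] (a : F) : ed (a • (1 : End F V)) = finrank F V • sc a := by
  let x : PP F := ⟨X - C a, 1, monic_X_sub_C a, irreducible_X_sub_C a, one_pos⟩
  have h1 : sc a = {x} := by rw [← cy_poly]; simp [sc, x, PP.poly]
  have h2 : ∀ y ∈ ed (a • (1 : End F V)), y = x := fun y hy => by
    have := (aeval_eq_zero_iff_ed _ (X - C a)).1 (by simp [Algebra.algebraMap_eq_smul_one]) y hy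
    have b1 := natDegree_le_of_dvd this (X_sub_C_ne_zero a)
    rw [y.natDegree_poly, natDegree_X_sub_C] at b1
    have b2 := y.pos
    have b3 := y.natDegree_f_pos
    exact PP.ext (eq_of_monic_of_associated y.monic x.monic (y.irred.associated_of_dvd x.irred (y.f_dvd_poly.trans this)))
      (show y.k = 1 by nlinarith)
  have h3 := Multiset.eq_replicate_card.2 h2
  rw [← dm_ed (a • (1 : End F V)), h3, h1, Multiset.nsmul_singleton]
  simp [dm, x]

theorem horner (b : End F V) (p : F[X]) (w : V) (j : ℕ) :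
    aeval b (divX^[j] p) w = b (aeval b (divX^[j + 1] p) w) + p.coeff j • w := by
  have : ∀ j i, (divX^[j] p).coeff i = p.coeff (i + j) := fun j => by
    induction j with
    | zero => simp
    | succ j ih => intro i; rw [Function.iterate_succ_apply', coeff_divX, ih]; congr 1; ring
  conv_lhs => rw [← X_mul_divX_add (divX^[j] p), this]
  simp [Function.iterate_succ_apply']

theorem horner_top {p : F[X]} (hp : p.Monic) : divX^[p.natDegree] p = 1 := by
  have : ∀ j i, (divX^[j] p).coeff i = p.coeff (i + j) := fun j => by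
    induction j with
    | zero => simp
    | succ j ih => intro i; rw [Function.iterate_succ_apply', coeff_divX, ih]; congr 1; ring
  ext i
  rw [this, coeff_one]
  split_ifs with h
  · simp [h, hp]
  · exact coeff_eq_zero_of_natDegree_lt (by omega)

theorem pole [FiniteDimensional F V] {b : End F V} {w : V} (hw : Cyc b w) {h : F[X]} (hm : h.Monic) (hd : h.natDegree = finrank F V) :
    ∃ φ : Dual F V, Cyc (b + φ.smulRight w) w ∧ aeval (b + φ.smulRight w) h w = 0 := by
  have key : ∃ φ : Dual F V, aeval (b + φ.smulRight w) h w = 0 := by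
    rcases Nat.eq_zero_or_pos (finrank F V) with h0 | h0
    · have := finrank_zero_iff.1 h0
      exact ⟨0, Subsingleton.elim _ _⟩
    let u : ℕ → V := fun j => aeval b (divX^[j] b.charpoly) w
    have un : u (finrank F V) = w := by
      simp only [u]; rw [← b.charpoly_natDegree, horner_top b.charpoly_monic]; simp
    have h1 : w ∈ Submodule.span F (Set.range fun j : Fin (finrank F V) => u (j + 1)) :=
      Submodule.subset_span ⟨⟨finrank F V - 1, by omega⟩, by simp only []; rw [Nat.sub_add_cancel h0, un]⟩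
    let B := basisOfTopLeSpanOfCardEqFinrank (fun j : Fin (finrank F V) => u (j + 1)) (hw _ h1 fun x hx => by
      induction hx using Submodule.span_induction with
      | mem x hx =>
        obtain ⟨j, rfl⟩ := hx
        rw [show b (u (j + 1)) = u j - b.charpoly.coeff j • w from eq_sub_of_add_eq (horner _ _ _ _).symm]
        refine sub_mem ?_ (Submodule.smul_mem _ _ h1)
        obtain ⟨_ | j, hj⟩ := j
        · simp [u, b.aeval_self_charpoly]
        · exact Submodule.subset_span ⟨⟨j, by omega⟩, rfl⟩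
      | zero => simp
      | add x y _ _ a b => simpa using add_mem a b
      | smul c x _ a => simpa using Submodule.smul_mem _ c a).ge (by simp)
    let φ := B.constr F fun j => b.charpoly.coeff j - h.coeff j
    have h2 : ∀ j ≤ finrank F V, aeval (b + φ.smulRight w) (divX^[j] h) w = u j := fun j hj => by
      induction hj using Nat.decreasingInduction with
      | self => rw [un, ← hd, horner_top hm]; simp
      | of_succ j hj ih =>
        have : φ (u (j + 1)) = b.charpoly.coeff j - h.coeff j := by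
          simpa [B, - Basis.constr_apply_fintype] using B.constr_basis F (fun j => b.charpoly.coeff j - h.coeff j) ⟨j, hj⟩
        rw [horner, ih, LinearMap.add_apply, LinearMap.smulRight_apply, this, sub_smul, add_assoc, sub_add_cancel]
        exact (horner _ _ _ _).symm
    exact ⟨φ, (h2 0 (Nat.zero_le _)).trans (by simp [u, b.aeval_self_charpoly])⟩
  obtain ⟨φ, h⟩ := key
  exact ⟨φ, hw.of_sub fun S hv x _ hx => (S.add_mem_iff_left (S.smul_mem _ hv)).1 hx, h⟩

theorem R1op [FiniteDimensional F V] {g : End F V} (hg : LinearMap.det g ≠ 0) {v : V} (hv : Cyc g v) {α : F} {T h : F[X]} (hT : T.Monic)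
    (hh : h.Monic) (dT : T.natDegree + 1 = finrank F V) (dh : h.natDegree = finrank F V) (h1 : T.eval α ≠ 0) (h2 : nm h ≠ 0)
    (h3 : α * nm T = nm h * LinearMap.det g) : ∃ c : End F V, ed (c * g) = sc α + cy T ∧ ed c = cy h := by
  have hm := (monic_X_sub_C α).mul hT
  have hd : ((X - C α) * T).natDegree = finrank F V := by rw [(monic_X_sub_C α).natDegree_mul hT, natDegree_X_sub_C, add_comm, dT]
  have h4 : α * nm T ≠ 0 := h3 ▸ mul_ne_zero h2 hg
  have hα := left_ne_zero_of_mul h4
  obtain ⟨κ, a1, a2⟩ := pole (b := g + α • 1) (hv.of_sub fun S _ x hx e => (S.add_mem_iff_left (S.smul_mem α hx)).1 e) hm hd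
  set a := g + α • 1 + κ.smulRight v with ha
  have a3 : LinearMap.det a = α * nm T := by
    rw [← dt_ed, ed_eq_cy a1 hm a2 hd, dt_cy hm, nm_mul (monic_X_sub_C α) hT, nm_lin]
  set e := aeval a T v with he
  have a4 : a e = α • e := by simpa [sub_eq_zero, Algebra.algebraMap_eq_smul_one] using a2
  have a5 : g e = -κ e • v := by
    rw [neg_smul, eq_neg_iff_add_eq_zero, ← add_left_inj (α • e), zero_add, add_right_comm]; exact a4
  have a6 : κ e ≠ 0 := fun h0 => by
    have := finite_adjoinRoot hT.ne_zero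
    obtain ⟨φ, h, -⟩ := exists_map a1 hT (inv_mem (S := ⊥) hg (by simp) (by simp [← he, a5, h0]))
    have := LinearMap.finrank_le_finrank_of_surjective h
    rw [finrank_adjoinRoot] at this
    omega
  obtain ⟨d, d1, d2⟩ := exists_inv hg
  have hd0 : LinearMap.det d ≠ 0 := left_ne_zero_of_mul_eq_one (b := LinearMap.det g) (by rw [← map_mul, d1, map_one])
  have a7 : Cyc (a * d) e := fun S b1 b2 => by
    have b3 : g e ∈ S := inv_mem (by rw [map_mul, a3]; exact mul_ne_zero h4 hd0) b2 (by
      rw [← End.mul_apply, mul_assoc, d1, mul_one, a4]; exact S.smul_mem _ b1)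
    rw [a5, S.smul_mem_iff (neg_ne_zero.2 a6)] at b3
    refine hv.inv d1 S b3 fun x hx => ?_
    have := b2 x hx
    rwa [End.mul_apply, ha, LinearMap.add_apply, LinearMap.smulRight_apply, S.add_mem_iff_left (S.smul_mem _ b3), LinearMap.add_apply, ← End.mul_apply, d2,
      End.one_apply, S.add_mem_iff_right hx, LinearMap.smul_apply, S.smul_mem_iff hα] at this
  obtain ⟨φ, b1, b2⟩ := pole a7 hh dh
  refine ⟨_, ?_, ed_eq_cy b1 hh b2 dh⟩
  have b3 : ∀ x, ((a * d + φ.smulRight e) * g) x = a x + φ (g x) • e := fun x => by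
    rw [add_mul, mul_assoc, d1, mul_one]; rfl
  have b4 : φ (g e) = 0 := by
    have : (a * d + φ.smulRight e) * g = a * LinearMap.transvection (φ ∘ₗ g) (α⁻¹ • e) := LinearMap.ext fun x => by
      simp [b3, LinearMap.transvection.apply, a4, smul_smul, hα]
    have := congrArg LinearMap.det this
    rw [map_mul, map_mul, ← dt_ed, ed_eq_cy b1 hh b2 dh, dt_cy hh, ← h3, a3, LinearMap.transvection.det] at this
    simpa [hα, right_ne_zero_of_mul h4] using this
  generalize (a * d + φ.smulRight e) * g = a' at b3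
  have b5 : a' e = α • e := by rw [b3, b4, zero_smul, add_zero, a4]
  obtain ⟨y, hy⟩ := Submodule.mem_span_singleton.1 (aeval_sub_mem (a := a') (b := a) (S := Submodule.span F {e}) (fun x hx => by
    obtain ⟨t, rfl⟩ := Submodule.mem_span_singleton.1 hx
    rw [map_smul, b5, smul_smul]; exact Submodule.smul_mem _ _ (Submodule.mem_span_singleton_self e))
    (fun x => by rw [b3, add_sub_cancel_left]; exact Submodule.smul_mem _ _ (Submodule.mem_span_singleton_self e)) T v)
  have b6 : aeval a' T (v + (-y / T.eval α) • e) = e := by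
    rw [map_add, map_smul, End.aeval_apply_of_mem_apply_eq_smul b5, smul_smul, div_mul_cancel₀ _ h1, ← sub_add_cancel (aeval a' T v) e,
      ← hy]
    module
  rw [← cy_lin hT h1]
  refine ed_eq_cy (v := v + (-y / T.eval α) • e) (fun S c1 c2 => ?_) hm (by simp [b6, b5, Algebra.algebraMap_eq_smul_one]) hd
  have c3 : e ∈ S := b6 ▸ aeval_mem c2 T c1
  exact a1 S ((S.add_mem_iff_left (S.smul_mem _ c3)).1 c1) fun x hx => (S.add_mem_iff_left (S.smul_mem _ c3)).1 (b3 x ▸ c2 x hx)

end Cfsg.Agent.H6.Com
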