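import Cfsg.Agent.H6.ComA

/-! Chains of factorisations of similarity classes. -/

set_option autoImplicit false

namespace Cfsg.Agent.H6.Com

open Polynomial Module Cfsg.Agent.H28

universe u
variable {F : Type u} [Field F]

/-- `y = z * x` on the level of classes -/
def R (x y z : Cl F) : Prop := ∃ (V : Type u) (_ : AddCommGroup V) (_ : Module F V) (_ : FiniteDimensional F V) (g c : End F V),
  ed g = x ∧ ed (c * g) = y ∧ ed c = z

/-- the class `x` contains a commutator of maps of determinants `δ` and `1` -/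
def P (δ : F) (x : Cl F) : Prop := ∃ (V : Type u) (_ : AddCommGroup V) (_ : Module F V) (_ : FiniteDimensional F V) (g c y : End F V),
  ed g = x ∧ LinearMap.det c = δ ∧ LinearMap.det y = 1 ∧ c * g * y = y * c

/-- the centraliser has all determinants -/
def S (y : Cl F) : Prop := ∀ d : F, d ≠ 0 → ∃ (V : Type u) (_ : AddCommGroup V) (_ : Module F V) (_ : FiniteDimensional F V)
  (a z : End F V), ed a = y ∧ LinearMap.det z = d ∧ a * z = z * a

theorem R.add {x y z x' y' z' : Cl F} (h : R x y z) (h' : R x' y' z') : R (x + x') (y + y') (z + z') := by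
  obtain ⟨V, _, _, _, g, c, rfl, rfl, rfl⟩ := h
  obtain ⟨W, _, _, _, g', c', rfl, rfl, rfl⟩ := h'
  exact ⟨V × W, _, _, inferInstance, g.prodMap g', c.prodMap c', ed_prodMap _ _, ed_prodMap (c * g) (c' * g'), ed_prodMap _ _⟩

theorem P.add {δ δ' : F} {x x' : Cl F} (h : P δ x) (h' : P δ' x') : P (δ * δ') (x + x') := by
  obtain ⟨V, _, _, _, g, c, y, rfl, rfl, h1, h2⟩ := h
  obtain ⟨W, _, _, _, g', c', y', rfl, rfl, h1', h2'⟩ := h'
  refine ⟨V × W, _, _, inferInstance, g.prodMap g', c.prodMap c', y.prodMap y', ed_prodMap _ _, LinearMap.det_prodMap _ _, ?_, ?_⟩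
  · rw [LinearMap.det_prodMap, h1, h1', mul_one]
  · simp only [LinearMap.prodMap_mul, h2, h2']

theorem P.add_one {x x' : Cl F} (h : P 1 x) (h' : P 1 x') : P 1 (x + x') := one_mul (1 : F) ▸ h.add h'

theorem S.add {y : Cl F} (h : S y) (y' : Cl F) : S (y + y') := fun d hd => by
  obtain ⟨V, _, _, _, a, z, rfl, rfl, h⟩ := h d hd
  refine ⟨V × _, _, _, inferInstance, a.prodMap (model y'), z.prodMap 1, by rw [ed_prodMap, ed_model], ?_, ?_⟩
  · rw [LinearMap.det_prodMap, map_one, mul_one]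
  · simp only [LinearMap.prodMap_mul, h, mul_one, one_mul]

theorem ed_sc (a : F) : ed (a • (1 : End F F)) = sc a := by rw [ed_smul, finrank_self, one_nsmul]

theorem S_sc (a : F) : S (sc a) := fun d _ =>
  ⟨F, _, _, inferInstance, a • 1, d • 1, ed_sc a, by simp, by simp [smul_smul, mul_comm]⟩

theorem P_zero : P 1 (0 : Cl F) := ⟨_, _, _, inferInstance, model 0, 1, 1, ed_model 0, by simp, by simp, Subsingleton.elim _ _⟩

theorem R_zero : R (0 : Cl F) 0 0 := ⟨_, _, _, inferInstance, model 0, model 0, ed_model 0,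
  (congrArg ed (Subsingleton.elim _ _)).trans (ed_model 0), ed_model 0⟩

theorem P.nsmul {x : Cl F} (h : P 1 x) (n : ℕ) : P 1 (n • x) := by
  induction n with
  | zero => exact P_zero
  | succ n ih => exact succ_nsmul x n ▸ ih.add_one h

theorem eq_zero_of_dm {x : Cl F} (h : dm x = 0) : x = 0 := Multiset.eq_zero_of_forall_notMem fun b hb => by
  have := Multiset.sum_eq_zero_iff.1 h _ (Multiset.mem_map_of_mem _ hb)
  have := b.natDegree_poly_pos
  rw [b.natDegree_poly] at this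
  omega

theorem P_of_R {x y : Cl F} (h : R x y y) (hS : y = 0 ∨ S y) : P (dt y) x := by
  obtain ⟨V, _, _, _, g, c, rfl, h1, rfl⟩ := h
  rcases hS with h | hS
  · rw [h, dt_zero, eq_zero_of_dm (x := ed g) (by rw [dm_ed, ← dm_ed c, h]; rfl)]
    exact P_zero
  obtain ⟨e, he⟩ := sim_iff_ed.2 h1.symm
  obtain ⟨W, _, _, _, a, z, h2, h3, h4⟩ := hS _ (inv_ne_zero e.isUnit_det'.ne_zero)
  obtain ⟨f, rfl⟩ := (sim_iff_ed.2 h2).eq_conj
  refine ⟨V, _, _, inferInstance, g, _, e.toLinearMap * f.conj z, rfl, (dt_ed _).symm, ?_, ?_⟩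
  · rw [map_mul, ← (sim_conj z f).det_eq, h3, mul_inv_cancel₀ e.isUnit_det'.ne_zero]
  · have : f.conj a * g * e.toLinearMap = e.toLinearMap * f.conj a := LinearMap.ext fun v => (he v).symm
    rw [← mul_assoc, this, mul_assoc, mul_assoc]
    congr 1
    simpa only [End.mul_eq_comp, LinearEquiv.conj_comp] using congrArg f.conj h4

/-- a link of a chain -/
def Q (x A B : Cl F) (δ : F) : Prop := ∃ y z, R x y z ∧ y + B = z + A ∧ dt y = δ ∧ (y = 0 ∨ S y)

theorem Q.add {x x' A B D : Cl F} {δ δ' : F} (h : Q x A B δ) (h' : Q x' D A δ') : Q (x + x') D B (δ * δ') := by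
  obtain ⟨y, z, h1, h2, rfl, h3⟩ := h
  obtain ⟨y', z', h1', h2', rfl, h3'⟩ := h'
  refine ⟨_, _, h1.add h1', ?_, dt_add _ _, ?_⟩
  · rw [add_right_comm, h2, add_assoc, add_comm A, h2', add_assoc]
  · rcases h3 with rfl | h3
    · rwa [zero_add]
    · exact .inr (h3.add _)

theorem Q.P {x A : Cl F} {δ : F} (h : Q x A A δ) : P δ x := by
  obtain ⟨y, z, h1, h2, rfl, h3⟩ := h
  exact P_of_R (add_right_cancel h2 ▸ h1) h3

theorem Q_zero (A : Cl F) : Q 0 A A 1 := ⟨0, 0, R_zero, rfl, dt_zero, .inl rfl⟩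

theorem R.Q {x y : Cl F} (h : R x y y) (hS : S y) (A : Cl F) : Q x A A (dt y) := ⟨y, y, h, rfl, rfl, .inr hS⟩

theorem Q.chain {x : Cl F} (A : ℕ → Cl F) (δ : ℕ → F) (h : ∀ i, Q x (A (i + 1)) (A i) (δ i)) (k : ℕ) :
    Q (k • x) (A k) (A 0) (∏ i ∈ Finset.range k, δ i) := by
  induction k with
  | zero => exact Q_zero _
  | succ k ih => rw [succ_nsmul, Finset.prod_range_succ]; exact ih.add (h k)

/-- classes that can be put in a chain -/
def Ch (x : Cl F) : Prop := dt x ≠ 0 ∧ ∀ β : F, β ≠ 0 → ∃ δ ≠ 0, Q x (sc (dt x * β)) (sc β) δ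

/-- classes that can be put in a chain with any determinant -/
def Flex (x : Cl F) : Prop := dt x ≠ 0 ∧ ∀ β : F, β ≠ 0 → ∀ δ ≠ 0, Q x (sc (dt x * β)) (sc β) δ

theorem Flex.ch {x : Cl F} (h : Flex x) : Ch x := ⟨h.1, fun β hβ => ⟨1, one_ne_zero, h.2 β hβ 1 one_ne_zero⟩⟩

theorem Ch_zero : Ch (0 : Cl F) := ⟨by simp [dt_zero], fun β _ => ⟨1, one_ne_zero, by simpa [dt_zero] using Q_zero _⟩⟩

theorem Ch.add {x y : Cl F} (h : Ch x) (h' : Ch y) : Ch (x + y) := ⟨by simp [dt_add, h.1, h'.1], fun β hβ => by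
  obtain ⟨δ, a1, a2⟩ := h.2 β hβ
  obtain ⟨δ', b1, b2⟩ := h'.2 _ (mul_ne_zero h.1 hβ)
  exact ⟨_, mul_ne_zero a1 b1, by rw [dt_add, mul_comm (dt x), mul_assoc]; exact a2.add b2⟩⟩

theorem Flex.add {x y : Cl F} (h : Flex x) (h' : Ch y) : Flex (x + y) := ⟨by simp [dt_add, h.1, h'.1], fun β hβ δ hδ => by
  obtain ⟨δ', b1, b2⟩ := h'.2 _ (mul_ne_zero h.1 hβ)
  have := (h.2 β hβ _ (div_ne_zero hδ b1)).add b2
  rwa [div_mul_cancel₀ _ b1, ← mul_assoc, mul_comm _ (dt x), ← dt_add] at this⟩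

theorem Flex.P {x : Cl F} (h : Flex x) (h1 : dt x = 1) {δ : F} (hδ : δ ≠ 0) : P δ x :=
  Q.P (by simpa [h1] using h.2 1 one_ne_zero δ hδ)

theorem Ch.P {x : Cl F} (h : Ch x) (h1 : dt x = 1) : ∃ δ ≠ 0, P δ x :=
  have ⟨δ, a, b⟩ := h.2 1 one_ne_zero
  ⟨δ, a, Q.P (by simpa [h1] using b)⟩

theorem P_of_ch {x y : Cl F} (h : ∀ δ : F, δ ≠ 0 → P δ x) (h' : Ch y) (h1 : dt y = 1) : P 1 (x + y) :=
  have ⟨δ, a, b⟩ := h'.P h1
  inv_mul_cancel₀ a ▸ (h _ (inv_ne_zero a)).add b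

theorem R1 {p T h : F[X]} {α : F} (hp : p.Monic) (hT : T.Monic) (hh : h.Monic) (dT : T.natDegree + 1 = p.natDegree)
    (dh : h.natDegree = p.natDegree) (h0 : nm p ≠ 0) (h1 : T.eval α ≠ 0) (h2 : nm h ≠ 0) (h3 : α * nm T = nm h * nm p) :
    R (cy p) (sc α + cy T) (cy h) := by
  have := finite_adjoinRoot hp.ne_zero
  have d : LinearMap.det (cyc p) = nm p := by rw [← dt_ed, ← cy_eq hp, dt_cy hp]
  obtain ⟨c, a, b⟩ := R1op (d ▸ h0) (cyc_one p) hT hh (dT.trans (finrank_adjoinRoot p).symm) (dh.trans (finrank_adjoinRoot p).symm)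
    h1 h2 (d ▸ h3)
  exact ⟨_, _, _, this, _, c, (cy_eq hp).symm, a, b⟩

theorem R1s {p T h : F[X]} {α : F} (hp : p.Monic) (hT : T.Monic) (hh : h.Monic) (dT : T.natDegree + 1 = p.natDegree)
    (dh : h.natDegree = p.natDegree) (h0 : nm p ≠ 0) (h1 : T.eval α ≠ 0) (h2 : nm h ≠ 0) (h3 : α * nm T * nm p = nm h) :
    R (cy p) (cy h) (sc α + cy T) := by
  have := finite_adjoinRoot hp.ne_zero
  have d : LinearMap.det (cyc p) = nm p := by rw [← dt_ed, ← cy_eq hp, dt_cy hp]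
  obtain ⟨g, g1, g2⟩ := exists_inv (d ▸ h0)
  have e : nm p * LinearMap.det g = 1 := by rw [← d, ← map_mul, g2, map_one]
  obtain ⟨c, a, b⟩ := R1op (right_ne_zero_of_mul_eq_one e) ((cyc_one p).inv g1) hT hh (dT.trans (finrank_adjoinRoot p).symm)
    (dh.trans (finrank_adjoinRoot p).symm) h1 h2 (by rw [← h3, mul_assoc, e, mul_one])
  exact ⟨_, _, _, this, _, c * g, (cy_eq hp).symm, by rwa [mul_assoc, g1, mul_one], a⟩

theorem Q_cy {p T : F[X]} {β : F} (hp : p.Monic) (hT : T.Monic) (dT : T.natDegree + 1 = p.natDegree) (h0 : nm p ≠ 0) (hβ : β ≠ 0)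
    (h1 : nm T ≠ 0) (h2 : T.eval (nm p * β) ≠ 0) (h3 : T.eval β ≠ 0) : Q (cy p) (sc (nm p * β)) (sc β) (nm p * β * nm T) := by
  have e := nm_mul (monic_X_sub_C β) hT
  refine ⟨_, _, R1 hp hT ((monic_X_sub_C β).mul hT) dT ?_ h0 h2 ?_ ?_, ?_, ?_, .inr ((S_sc _).add _)⟩
  · rw [(monic_X_sub_C β).natDegree_mul hT, natDegree_X_sub_C, add_comm, dT]
  · rw [e, nm_lin]; exact mul_ne_zero hβ h1
  · rw [e, nm_lin]; ring
  · rw [cy_lin hT h3]; abel
  · rw [dt_add, dt_sc, dt_cy hT]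

theorem exists_T {m : ℕ} (hm : 2 ≤ m) (t : F) {α β : F} (ha : α ≠ 0) (hb : β ≠ 0) :
    ∃ T : F[X], T.Monic ∧ T.natDegree = m ∧ nm T = t ∧ T.eval α ≠ 0 ∧ T.eval β ≠ 0 := by
  obtain ⟨c, hc⟩ : ∃ c, α ^ m + c * α + (-1) ^ m * t ≠ 0 ∧ β ^ m + c * β + (-1) ^ m * t ≠ 0 := by
    by_contra H
    simp only [not_exists, not_and_or, not_not] at H
    by_cases e : α = β
    · subst e
      generalize α ^ m = u at H
      rcases H 0 with a | a <;> rcases H 1 with b | b <;> grind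
    generalize α ^ m = u at H
    generalize β ^ m = v at H
    rcases H 0 with a | a <;> rcases H α with b | b <;> rcases H β with c | c <;> grind
  have d : (X ^ m + C c * X + C ((-1) ^ m * t) : F[X]).natDegree = m := by compute_degree! <;> first | omega | (split_ifs <;> first | omega | simp)
  refine ⟨X ^ m + C c * X + C ((-1) ^ m * t), ?_, d, ?_, by simpa using hc.1, by simpa using hc.2⟩
  · rw [Monic, leadingCoeff, d]
    simp [coeff_X, coeff_C, - map_mul, show m ≠ 0 by omega, show 1 ≠ m by omega]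
  · rw [nm, d]
    simp [coeff_X_pow, - map_mul, show 0 ≠ m by omega, ← mul_assoc, ← mul_pow]

theorem Flex_cy {p : F[X]} (hp : p.Monic) (h0 : nm p ≠ 0) (hd : 3 ≤ p.natDegree) : Flex (cy p) :=
  ⟨by rwa [dt_cy hp], fun β hβ δ hδ => by
    have h := mul_ne_zero h0 hβ
    obtain ⟨T, a1, a2, a3, a4, a5⟩ := exists_T (m := p.natDegree - 1) (by omega) (δ / (nm p * β)) h hβ
    have := Q_cy hp a1 (by omega) h0 hβ (a3 ▸ div_ne_zero hδ h) a4 a5
    rwa [a3, mul_div_cancel₀ _ h, ← dt_cy hp] at this⟩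

theorem Q_sc {μ β : F} (h : μ ≠ 0) (hβ : β ≠ 0) : Q (sc μ) (sc (μ * β)) (sc β) (μ * β) := by
  simpa [nm_lin, nm, ← sc.eq_1] using Q_cy (T := 1) (monic_X_sub_C μ) monic_one (by simp) (by rwa [nm_lin]) hβ (by simp [nm]) (by simp) (by simp)

theorem Q_two {p : F[X]} {β ν : F} (hp : p.Monic) (hd : p.natDegree = 2) (h0 : nm p ≠ 0) (hβ : β ≠ 0) (h1 : ν ≠ 0) (h2 : nm p * β ≠ ν)
    (h3 : β ≠ ν) : Q (cy p) (sc (nm p * β)) (sc β) (nm p * β * ν) := by
  simpa [nm_lin] using Q_cy hp (monic_X_sub_C ν) (by simp [hd]) h0 hβ (by rwa [nm_lin]) (by simpa [sub_eq_zero]) (by simpa [sub_eq_zero])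

theorem Ch_sc {μ : F} (h : μ ≠ 0) : Ch (sc μ) :=
  ⟨by rwa [dt_sc], fun β hβ => ⟨_, mul_ne_zero h hβ, by rw [dt_sc]; exact Q_sc h hβ⟩⟩

theorem P_sc_one {δ : F} (h : δ ≠ 0) : P δ (sc (1 : F)) := Q.P (by simpa using Q_sc one_ne_zero h)

end Cfsg.Agent.H6.Com
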