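import Cfsg.Agent.H6.ComB

/-! Small matrices, scalars, and fields with at least four elements. -/

set_option autoImplicit false

namespace Cfsg.Agent.H6.Com

open Polynomial Module Cfsg.Agent.H28 Matrix

universe u
variable {F : Type u} [Field F]

/-- monic quadratic -/
noncomputable def q2 (τ δ : F) : F[X] := X ^ 2 - C τ * X + C δ

theorem q2_deg (τ δ : F) : (q2 τ δ).natDegree = 2 := by unfold q2; compute_degree!

theorem q2_monic (τ δ : F) : (q2 τ δ).Monic := by unfold q2; monicity!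

theorem nm_q2 (τ δ : F) : nm (q2 τ δ) = δ := by rw [nm, q2_deg]; simp [q2]

theorem eq_q2 {p : F[X]} (hp : p.Monic) (hd : p.natDegree = 2) : p = q2 (-p.coeff 1) (nm p) := by
  have := hp.as_sum
  rw [hd] at this
  rw [nm, hd]
  exact this.trans (by simp [q2, Finset.sum_range_succ]; ring)

theorem eq_sc {p : F[X]} (hp : p.Monic) (hd : p.natDegree = 1) : cy p = sc (nm p) := by
  obtain ⟨a, rfl⟩ : ∃ a, p = X + C a := ⟨_, hp.eq_X_add_C hd⟩
  rw [← sub_neg_eq_add, ← C_neg, nm_lin, sc]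

section
variable {ι κ : Type} [Fintype ι] [DecidableEq ι] [Fintype κ] [DecidableEq κ]

/-- class of a matrix -/
noncomputable def em (m : Matrix ι ι F) : Cl F := ed (toLin' m)

theorem R_em (g c : Matrix ι ι F) : R (em g) (em (c * g)) (em c) :=
  ⟨_, _, _, inferInstance, toLin' g, toLin' c, rfl, by rw [em, toLin'_mul]; rfl, rfl⟩

theorem P_em {g c y : Matrix ι ι F} (h : y.det = 1) (e : c * g * y = y * c) : P c.det (em g) :=
  ⟨_, _, _, inferInstance, toLin' g, toLin' c, toLin' y, rfl, LinearMap.det_toLin' c, (LinearMap.det_toLin' y).trans h, by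
    simpa only [toLin'_mul, ← End.mul_eq_comp] using congrArg toLin' e⟩

theorem em_blocks (a : Matrix ι ι F) (b : Matrix κ κ F) : em (fromBlocks a 0 0 b) = em a + em b := by
  rw [em, em, em, ← ed_prodMap]
  exact Sim.ed_eq ⟨LinearEquiv.sumArrowLequivProdArrow ι κ F F, fun v => by
    ext i <;> simp [fromBlocks_mulVec, Function.comp_def] <;> rfl⟩

end

theorem em_two (a b d : F) {c : F} (h : c ≠ 0) : em !![a, b; c, d] = cy (q2 (a + d) (a * d - b * c)) := by
  refine ed_eq_cy (v := ![1, 0]) (fun S h1 h2 => eq_top_iff.2 fun x _ => ?_) (q2_monic _ _) ?_ (by simp [q2_deg])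
  · convert S.add_mem (S.smul_mem (x 0 - x 1 / c * a) h1) (S.smul_mem (x 1 / c) (h2 _ h1)) using 1
    ext i; fin_cases i <;> simp [h]
  · ext i; fin_cases i <;> simp [q2, sq, Algebra.algebraMap_eq_smul_one, vecHead, vecTail] <;> ring

theorem em_sc (a : F) : em !![a, 0; 0, a] = 2 • sc a := by
  rw [em, show toLin' !![a, 0; 0, a] = a • 1 from LinearMap.ext fun v => by ext i; fin_cases i <;> simp [vecHead, vecTail], ed_smul]
  simp

theorem R_two {a b c d a' b' c' d' : F} {x y z : Cl F} (h1 : em !![a, b; c, d] = x)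
    (h2 : em !![a' * a + b' * c, a' * b + b' * d; c' * a + d' * c, c' * b + d' * d] = y) (h3 : em !![a', b'; c', d'] = z) : R x y z := by
  rw [← h1, ← h2, ← h3, ← mul_fin_two]; exact R_em _ _

theorem em_m2 (τ δ : F) : em !![0, -δ; 1, τ] = cy (q2 τ δ) := by simpa using em_two 0 (-δ) τ one_ne_zero

theorem R_BB (τ : F) : R (2 • cy (q2 τ 1)) (2 • sc 1 + cy (q2 τ 1)) (2 • sc 1 + cy (q2 τ 1)) := by
  have h1 : R _ (cy (q2 τ 1)) _ := R_two (em_m2 τ 1) (by simpa using em_m2 τ 1) (em_sc 1)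
  have h2 : R _ (2 • sc 1) (cy (q2 τ 1)) := R_two (a' := τ) (b' := 1) (c' := -1) (d' := 0) (em_m2 τ 1) (by simpa using em_sc 1)
    (by simpa using em_two τ 1 0 (neg_ne_zero.2 one_ne_zero))
  simpa only [two_nsmul (cy _), add_comm (cy _)] using h1.add h2

theorem R_uni {τ : F} (h : τ ≠ 2) : R (cy (q2 τ 1)) (cy (q2 2 1)) (cy (q2 2 1)) :=
  R_two (a' := 1) (b' := 0) (c' := τ - 2) (d' := 1) (em_m2 τ 1) (by simpa using em_m2 (2 : F) 1)
    (by simpa [one_add_one_eq_two] using em_two 1 0 1 (sub_ne_zero.2 h))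

theorem R_uni' (h : (2 : F) ≠ 0) (τ : F) : R (cy (q2 τ 1)) (cy (q2 2 1)) (cy (q2 2 1)) := by
  rcases eq_or_ne τ 2 with rfl | e
  · exact R_two (em_m2 2 1) ((em_two _ _ _ (by simpa using h)).trans (by congr 2 <;> norm_num)) (em_m2 2 1)
  · exact R_uni e

theorem S_two (y : Cl F) : S (2 • sc 1 + y) := by rw [two_nsmul, add_assoc]; exact (S_sc 1).add _

theorem dt_q2 (τ δ : F) : dt (cy (q2 τ δ)) = δ := (dt_cy (q2_monic _ _)).trans (nm_q2 _ _)

theorem P_BB (τ : F) : P (1 : F) (2 • cy (q2 τ 1)) := by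
  simpa [dt_add, dt_nsmul, dt_sc, dt_q2] using P_of_R (R_BB τ) (.inr (S_two _))

theorem P_BBB (h : (2 : F) ≠ 0) (τ : F) : P (1 : F) (3 • cy (q2 τ 1)) := by
  simpa [dt_add, dt_nsmul, dt_sc, dt_q2, ← succ_nsmul] using P_of_R ((R_BB τ).add (R_uni' h τ)) (.inr ((S_two _).add _))

theorem S_W [Fintype F] (h : (2 : F) ≠ 0) {k : F} (hk : k ≠ 0) : S (cy (q2 0 k)) := fun d _ => by
  obtain ⟨u, v, e⟩ := FiniteField.exists_root_sum_quadratic (f := X ^ 2) (g := C k * X ^ 2 - C d) (degree_X_pow 2)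
    (by compute_degree!) (FiniteField.odd_card_of_char_ne_two fun e => h (by exact_mod_cast e ▸ ringChar.Nat.cast_ringChar))
  refine ⟨_, _, _, inferInstance, _, toLin' !![u, -k * v; v, u], em_m2 0 k, ?_, ?_⟩
  · simp only [LinearMap.det_toLin', det_fin_two_of]
    simp at e
    linear_combination e
  · simp only [End.mul_eq_comp, ← toLin'_mul, mul_fin_two]
    congr 2 <;> simp [mul_comm]

theorem Q_W [Fintype F] (h : (2 : F) ≠ 0) {μ k : F} (hμ : μ ≠ 0) (hk : k ≠ 0) :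
    Q (2 • sc μ) (cy (q2 0 (μ ^ 2 * k))) (cy (q2 0 k)) (μ ^ 2 * k) :=
  ⟨_, _, R_two (em_sc μ) ((em_two _ _ _ (by simpa using hμ)).trans (by congr 2 <;> ring)) (em_m2 0 k), add_comm _ _, dt_q2 _ _,
    .inr (S_W h (by simp [hμ, hk]))⟩

theorem P_scalar [Fintype F] {μ : F} (hμ : μ ≠ 0) {n : ℕ} (h : μ ^ n = 1) : P 1 (n • sc μ) := by
  have h1 := Q.chain (x := sc μ) (fun i => sc (μ ^ i)) (fun i => μ ^ (i + 1)) (fun i => by
    simpa only [pow_succ'] using Q_sc hμ (pow_ne_zero i hμ)) n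
  have h2 : ∀ m, (∑ i ∈ Finset.range m, (i + 1)) * 2 = m * (m + 1) := fun m => by
    rw [Finset.sum_add_distrib, add_mul, Finset.sum_range_id_mul_two]
    cases m <;> simp; ring
  simp only [h, pow_zero, Finset.prod_pow_eq_pow_sum] at h1
  obtain ⟨k, rfl | rfl⟩ := n.even_or_odd'
  swap
  · rw [show ∑ i ∈ Finset.range (2 * k + 1), (i + 1) = (2 * k + 1) * (k + 1) by nlinarith [h2 (2 * k + 1)], pow_mul, h, one_pow] at h1
    exact h1.P
  rw [show ∑ i ∈ Finset.range (2 * k), (i + 1) = 2 * k * k + k by nlinarith [h2 (2 * k)], pow_add, pow_mul, h, one_pow, one_mul] at h1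
  by_cases h3 : μ ^ k = 1
  · exact h3 ▸ h1.P
  have h4 : μ ^ k = -1 := (sq_eq_one_iff.1 (by rw [← pow_mul, mul_comm, h])).resolve_left h3
  have h5 := Q.chain (x := 2 • sc μ) (fun i => cy (q2 0 (-μ ^ (2 * i + 1)))) (fun i => -μ ^ (2 * (i + 1) + 1)) (fun i => by
    convert Q_W (fun e => h3 (by linear_combination h4 - e)) hμ (neg_ne_zero.2 (pow_ne_zero (2 * i + 1) hμ)) using 4 <;> ring) k
  have h6 : ∏ i ∈ Finset.range k, -μ ^ (2 * (i + 1) + 1) = 1 := by
    rw [Finset.prod_neg, Finset.prod_pow_eq_pow_sum, Finset.sum_add_distrib, ← Finset.mul_sum, mul_comm 2, h2]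
    simp [pow_add, pow_mul, h4, ← mul_pow]
  rw [h6] at h5
  simp only [pow_succ, h, mul_zero, pow_zero, ← mul_nsmul] at h5
  exact h5.P

end Cfsg.Agent.H6.Com
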