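import Cfsg.Agent.H6.ComC

/-! Commutators in special linear groups over fields with at least four elements. -/

set_option autoImplicit false

namespace Cfsg.Agent.H6.Com

open Polynomial Module Cfsg.Agent.H28

universe u
variable {F : Type u} [Field F]

theorem ed_rank_one {V : Type*} [AddCommGroup V] [Module F V] [FiniteDimensional F V] (μ : F) {φ : Dual F V} {w : V} (h : φ w ≠ 0) :
    ed (μ • 1 + φ.smulRight w : End F V) = sc (μ + φ w) + (finrank F V - 1) • sc μ := by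
  have : Sim (LinearMap.prodMap ((μ + φ w) • 1 : End F F) (μ • 1 : End F (LinearMap.ker φ))) (μ • 1 + φ.smulRight w : End F V) := by
    refine ⟨.ofBijective ((LinearMap.toSpanSingleton F V w).coprod (LinearMap.ker φ).subtype)
      ⟨(injective_iff_map_eq_zero _).2 ?_, fun v => ⟨(φ v / φ w, ⟨v - (φ v / φ w) • w, by simp [h]⟩), by simp⟩⟩, ?_⟩
    · rintro ⟨t, x, hx⟩ e
      obtain rfl : t = 0 := by simpa [h, LinearMap.mem_ker.1 hx] using congrArg φ e
      simpa using e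
    · rintro ⟨t, x, hx⟩
      show ((μ + φ w) * t) • w + μ • x = μ • (t • w + x) + φ (t • w + x) • w
      rw [map_add, map_smul, LinearMap.mem_ker.1 hx, smul_eq_mul]
      module
  rw [← this.ed_eq, ← this.finrank_eq, ed_prodMap, ed_sc, ed_smul, finrank_prod, finrank_self, Nat.add_sub_cancel_left]

theorem R2 {μ ν : F} (h1 : μ ≠ 0) (h2 : ν ≠ 0) (h3 : μ ≠ ν) : Flex (sc ν + 2 • sc μ) := by
  have e : dt (sc ν + 2 • sc μ) = ν * μ ^ 2 := by rw [dt_add, dt_nsmul, dt_sc, dt_sc]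
  refine ⟨by simp [e, h1, h2], fun β hβ δ hδ => ?_⟩
  have hα : ν * μ ^ 2 * β ≠ 0 := by simp [*]
  obtain ⟨T, a1, a2, a3, a4, a5⟩ := exists_T le_rfl (δ / (ν * μ ^ 2 * β)) hα hβ
  have hm := fun a : F => (monic_X_sub_C a).mul a1
  have hd : ∀ a : F, ((X - C a) * T).natDegree = 3 := fun a => by rw [(monic_X_sub_C a).natDegree_mul a1, natDegree_X_sub_C, a2]
  have := finite_adjoinRoot (hm β).ne_zero
  have hr := (finrank_adjoinRoot _).trans (hd β)
  have a6 : nm T ≠ 0 := a3 ▸ div_ne_zero hδ hα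
  obtain ⟨φ, b1, b2⟩ := pole (b := μ • cyc ((X - C β) * T)) ((cyc_one _).of_sub fun S _ x _ h => (S.smul_mem_iff h1).1 h)
    (hm (ν * μ ^ 2 * β)) ((hd _).trans hr.symm)
  have b3 := ed_eq_cy b1 (hm _) b2 ((hd _).trans hr.symm)
  have b4 : LinearMap.det (cyc ((X - C β) * T)) = β * nm T := by
    rw [← dt_ed, ← cy_eq (hm β), dt_cy (hm β), nm_mul (monic_X_sub_C β) a1, nm_lin]
  obtain ⟨d, -, d2⟩ := exists_inv (b4 ▸ mul_ne_zero hβ a6)
  have b5 : cyc ((X - C β) * T) * (μ • 1 + φ.smulRight (d 1)) = μ • cyc ((X - C β) * T) + φ.smulRight 1 := LinearMap.ext fun x => by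
    rw [End.mul_apply, LinearMap.add_apply, map_add, LinearMap.smulRight_apply, map_smul, ← End.mul_apply _ d, d2]
    simp
  have b6 : μ + φ (d 1) = ν := by
    have := congrArg LinearMap.det b5
    rw [← dt_ed (_ + _), b3, dt_cy (hm _), nm_mul (monic_X_sub_C _) a1, nm_lin, map_mul, b4,
      show μ • 1 + φ.smulRight (d 1) = μ • LinearMap.transvection φ (μ⁻¹ • d 1) from LinearMap.ext fun x => by
        simp [LinearMap.transvection.apply, smul_smul, mul_left_comm μ, h1], LinearMap.det_smul, LinearMap.transvection.det, hr, map_smul,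
      smul_eq_mul] at this
    field_simp at this
    linear_combination this
  refine ⟨sc (ν * μ ^ 2 * β) + cy T, sc β + cy T, ⟨_, _, _, this, μ • 1 + φ.smulRight (d 1), cyc _, ?_, ?_, ?_⟩, by rw [e]; abel, ?_,
    .inr ((S_sc _).add _)⟩
  · rw [ed_rank_one μ (fun h => h3 (by rw [← b6, h, add_zero])), b6, hr]
  · rw [b5, b3, cy_lin a1 a4]
  · rw [← cy_eq (hm β), cy_lin a1 a5]
  · rw [dt_add, dt_sc, dt_cy a1, a3, mul_div_cancel₀ _ hα]

theorem cop {b c : PP F} (h : b.f ≠ c.f) : IsCoprime b.poly c.poly :=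
  IsCoprime.pow (b.irred.coprime_iff_not_dvd.2 fun e =>
    h (eq_of_monic_of_associated b.monic c.monic (b.irred.associated_of_dvd c.irred e)))

theorem merge {b c : PP F} (h : b.f ≠ c.f) : ({b} + {c} : Cl F) = cy (b.poly * c.poly) := by
  rw [cy_mul b.poly_monic c.poly_monic (cop h), cy_poly, cy_poly]

theorem dt_one (b : PP F) : dt {b} = nm b.poly := by rw [← cy_poly, dt_cy b.poly_monic]

theorem nm_ne {x : Cl F} (h : dt x ≠ 0) {b : PP F} (hb : b ∈ x) : nm b.poly ≠ 0 := by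
  obtain ⟨y, rfl⟩ := Multiset.exists_cons_of_mem hb
  rw [← Multiset.singleton_add, dt_add, dt_one] at h
  exact left_ne_zero_of_mul h

theorem Flex_merge {b c : PP F} (h : b.f ≠ c.f) (hb : nm b.poly ≠ 0) (hc : nm c.poly ≠ 0) (hd : 3 ≤ b.poly.natDegree + c.poly.natDegree) :
    Flex ({b} + {c} : Cl F) := by
  rw [merge h]
  exact Flex_cy (b.poly_monic.mul c.poly_monic) (by simp [nm_mul b.poly_monic c.poly_monic, *])
    (by rwa [b.poly_monic.natDegree_mul c.poly_monic])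

theorem eq_of_f {b c : PP F} (h : b.f = c.f) (hd : b.poly.natDegree = c.poly.natDegree) : b = c := by
  rw [b.natDegree_poly, c.natDegree_poly, h] at hd
  exact PP.ext h (Nat.eq_of_mul_eq_mul_right c.natDegree_f_pos hd)

theorem peel {x : Cl F} {b c : PP F} (hb : b ∈ x) (hc : c ∈ x) (h : b ≠ c) : ∃ y, x = {b} + {c} + y := by
  obtain ⟨y, rfl⟩ := Multiset.exists_cons_of_mem hb
  obtain ⟨z, rfl⟩ := Multiset.exists_cons_of_mem ((Multiset.mem_cons.1 hc).resolve_left h.symm)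
  exact ⟨z, by simp⟩

theorem eq_nsmul {x : Cl F} {b : PP F} (h : ∀ c ∈ x, c = b) : x = x.card • {b} := by
  rw [Multiset.nsmul_singleton]; exact Multiset.eq_replicate_card.2 h

theorem Q_J {μ β ε : F} (h0 : μ ≠ 0) (h1 : μ ^ 2 ≠ 1) (hβ : β ≠ 0) (hε : ε ^ 2 = 1) :
    Q (cy ((X - C μ) ^ 2)) (sc (μ ^ 2 * β)) (sc β) (μ ^ 2 * β * (ε * μ * β)) := by
  have e : nm ((X - C μ) ^ 2) = μ ^ 2 := by rw [sq, nm_mul (monic_X_sub_C μ) (monic_X_sub_C μ), nm_lin, sq]
  exact e ▸ Q_two ((monic_X_sub_C μ).pow 2) (by simp) (by simp [e, h0]) hβ (by grind) (by rw [e]; grind) (by grind)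

theorem Q_sq {μ : F} (h0 : μ ≠ 0) (h1 : μ ^ 2 ≠ 1) (x : Cl F) (h : ∀ b ∈ x, {b} = cy ((X - C μ) ^ 2) ∨ {b} = sc μ) :
    ∃ n δ, dt x = μ ^ n ∧ Q x (sc (μ ^ n)) (sc 1) δ ∧ δ ^ 2 = μ ^ (n * (n + 1)) := by
  induction x using Multiset.induction_on with
  | empty => exact ⟨0, 1, by simp [dt_zero], by simpa using Q_zero _, by simp⟩
  | cons b x ih =>
    obtain ⟨n, δ, a1, a2, a3⟩ := ih fun c hc => h c (Multiset.mem_cons_of_mem hc)
    rw [← Multiset.singleton_add, add_comm, dt_add, a1]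
    rcases h b (Multiset.mem_cons_self _ _) with e | e <;> rw [e]
    · refine ⟨2 + n, _, ?_, pow_add μ 2 n ▸ a2.add (Q_J h0 h1 (pow_ne_zero n h0) (one_pow 2)), by rw [mul_pow, a3]; ring⟩
      rw [dt_cy ((monic_X_sub_C μ).pow 2), sq, nm_mul (monic_X_sub_C μ) (monic_X_sub_C μ), nm_lin]; ring
    · exact ⟨n + 1, _, by rw [dt_sc, pow_succ], pow_succ' μ n ▸ a2.add (Q_sc h0 (pow_ne_zero n h0)), by rw [mul_pow, a3]; ring⟩

theorem P_J {μ : F} (h0 : μ ≠ 0) (h1 : μ ^ 2 ≠ 1) (x : Cl F) (h : ∀ b ∈ x, {b} = cy ((X - C μ) ^ 2) ∨ {b} = sc μ)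
    (h2 : dt x * μ ^ 2 = 1) : P 1 (x + cy ((X - C μ) ^ 2)) := by
  obtain ⟨n, δ, a1, a2, a3⟩ := Q_sq h0 h1 x h
  rw [a1] at h2
  have e : (δ * μ ^ (2 * n + 3)) ^ 2 = 1 := by
    rw [mul_pow, a3, ← (congrArg (· ^ (n + 3)) h2).trans (one_pow _)]; ring
  have := a2.add (Q_J h0 h1 (pow_ne_zero n h0) e)
  rw [mul_comm (μ ^ 2), h2] at this
  convert this.P using 1
  linear_combination -e + δ ^ 2 * μ ^ (3 * n + 4) * h2

variable (h4 : ∀ a b c : F, ∃ d, d ≠ a ∧ d ≠ b ∧ d ≠ c)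
include h4

theorem Ch_all {x : Cl F} (h : dt x ≠ 0) : Ch x := by
  induction x using Multiset.induction_on with
  | empty => exact Ch_zero
  | cons b x ih =>
    have h0 := nm_ne h (Multiset.mem_cons_self b x)
    rw [← Multiset.singleton_add] at h ⊢
    refine .add ?_ (ih (right_ne_zero_of_mul (dt_add _ x ▸ h)))
    rw [← cy_poly]
    obtain e | e | e : b.poly.natDegree = 1 ∨ b.poly.natDegree = 2 ∨ 3 ≤ b.poly.natDegree := by have := b.natDegree_poly_pos; omega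
    · exact eq_sc b.poly_monic e ▸ Ch_sc h0
    · refine ⟨by rwa [dt_cy b.poly_monic], fun β hβ => ?_⟩
      obtain ⟨ν, a1, a2, a3⟩ := h4 0 (nm b.poly * β) β
      exact ⟨nm b.poly * β * ν, by simp [h0, hβ, a1], by rw [dt_cy b.poly_monic]; exact Q_two b.poly_monic e h0 hβ a1 a2.symm a3.symm⟩
    · exact (Flex_cy b.poly_monic h0 e).ch

theorem P_two {p : F[X]} (hp : p.Monic) (hd : p.natDegree = 2) (h : nm p = 1) : P 1 (cy p) := by
  obtain ⟨t, a1, a2, a3⟩ := h4 0 1 (-1)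
  exact Q.P (by simpa [h, a1] using Q_two (ν := t⁻¹) hp hd (by simp [h]) a1 (inv_ne_zero a1) (by rw [h]; grind) (by grind))

theorem P_pure {p : F[X]} (hp : p.Monic) (hd : p.natDegree = 2) (h0 : nm p ≠ 0) (h1 : nm p ≠ 1) {r : ℕ} (h : nm p ^ r = 1) :
    P 1 (r • cy p) := by
  by_cases h2 : nm p = -1
  · obtain ⟨t, a1, a2, a3⟩ := h4 0 1 (-1)
    obtain ⟨k, rfl⟩ := (neg_one_pow_eq_one_iff_even (h2 ▸ h1)).1 (h2 ▸ h)
    have b1 := Q_two hp hd h0 one_ne_zero a1 (by grind) a2.symm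
    have b2 := Q_two (ν := -t⁻¹) hp hd h0 (mul_ne_zero h0 one_ne_zero) (by simpa) (by grind) (by grind)
    rw [← two_mul, mul_nsmul, two_nsmul]
    exact P.nsmul (Q.P (by simpa [h2, a1] using b1.add b2)) k
  have h3 := Q.chain (x := cy p) (fun i => sc (nm p ^ i)) (fun i => nm p ^ (2 * i + 3)) (fun i => by
    have := pow_ne_zero i h0
    convert Q_two (ν := nm p ^ i * nm p ^ 2) hp hd h0 this (by simp [h0]) (by grind) (by grind) using 1
    · rw [pow_succ']
    · ring) r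
  have h5 : ∀ m, ∑ i ∈ Finset.range m, (2 * i + 3) = m * (m + 2) := fun m => by
    induction m with
    | zero => rfl
    | succ m ih => rw [Finset.sum_range_succ, ih]; ring
  simp only [Finset.prod_pow_eq_pow_sum, h5, pow_mul, h, pow_zero, one_pow] at h3
  exact h3.P

theorem main4 [Fintype F] (x : Cl F) (h : dt x = 1) : P 1 x := by
  induction x using Multiset.strongInductionOn with | ih x ih => ?_
  have fl : ∀ y z, x = y + z → Flex y → P 1 x := fun y z e hy => by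
    subst e
    exact (hy.add (Ch_all h4 (right_ne_zero_of_mul (dt_add y z ▸ h ▸ one_ne_zero)))).P h one_ne_zero
  have h0 : ∀ b ∈ x, nm b.poly ≠ 0 := fun b => nm_ne (h ▸ one_ne_zero)
  by_cases h3 : ∃ b ∈ x, 3 ≤ b.poly.natDegree
  · obtain ⟨b, hb, e⟩ := h3
    obtain ⟨y, rfl⟩ := Multiset.exists_cons_of_mem hb
    exact fl _ y (Multiset.singleton_add b y).symm (cy_poly b ▸ Flex_cy b.poly_monic (h0 b hb) e)
  push Not at h3
  by_cases h2 : ∃ b ∈ x, b.poly.natDegree = 2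
  · obtain ⟨b, hb, e⟩ := h2
    by_cases h5 : ∃ c ∈ x, b.f ≠ c.f
    · obtain ⟨c, hc, e'⟩ := h5
      obtain ⟨y, hy⟩ := peel hb hc fun h => e' (congrArg _ h)
      exact fl _ y hy (Flex_merge e' (h0 b hb) (h0 c hc) (by have := c.natDegree_poly_pos; omega))
    push Not at h5
    obtain ⟨y, hy⟩ := Multiset.exists_cons_of_mem hb
    have h6 : dt y * nm b.poly = 1 := by rw [← h, hy, ← Multiset.singleton_add, dt_add, dt_one, mul_comm]
    by_cases h1 : nm b.poly = 1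
    · rw [hy, ← Multiset.singleton_add, ← cy_poly]
      exact (P_two h4 b.poly_monic e h1).add_one (ih y (hy ▸ Multiset.lt_cons_self y b) (by simpa [h1] using h6))
    by_cases h7 : ∀ c ∈ x, c = b
    · rw [eq_nsmul h7, ← cy_poly] at h ⊢
      exact P_pure h4 b.poly_monic e (h0 b hb) h1 (by rwa [dt_nsmul, dt_cy b.poly_monic] at h)
    push Not at h7
    obtain ⟨c, hc, h7⟩ := h7
    have h8 : ∀ d ∈ x, d = b ∨ d = c := fun d hd => or_iff_not_imp_left.2 fun h => eq_of_f ((h5 d hd).symm.trans (h5 c hc)) (by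
      have := mt (eq_of_f (h5 d hd).symm) h
      have := mt (eq_of_f (h5 c hc).symm) h7
      have := h3 d hd
      have := h3 c hc
      have := c.natDegree_poly_pos
      have := d.natDegree_poly_pos
      omega)
    have h9 : c.k * c.f.natDegree = 1 := by
      have := mt (eq_of_f (h5 c hc).symm) h7
      have := h3 c hc
      have := c.natDegree_poly_pos
      rw [← c.natDegree_poly]; omega
    obtain ⟨μ, hμ⟩ : ∃ μ, c.f = X - C μ := ⟨_, (c.monic.eq_X_add_C (Nat.eq_one_of_mul_eq_one_left h9)).trans (by rw [C_neg, sub_neg_eq_add])⟩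
    have a1 : c.poly = X - C μ := by rw [PP.poly, Nat.eq_one_of_mul_eq_one_right h9, pow_one, hμ]
    have a2 : b.poly = (X - C μ) ^ 2 := by
      rw [b.natDegree_poly, h5 c hc, Nat.eq_one_of_mul_eq_one_left h9, mul_one] at e
      rw [PP.poly, e, h5 c hc, hμ]
    have a3 : nm b.poly = μ ^ 2 := by rw [a2, sq, nm_mul (monic_X_sub_C μ) (monic_X_sub_C μ), nm_lin, sq]
    rw [hy, ← Multiset.singleton_add, ← cy_poly, add_comm, a2]
    refine P_J (by simpa [a1, nm_lin] using h0 c hc) (a3 ▸ h1) y (fun d hd => ?_) (a3 ▸ h6)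
    rcases h8 d (hy ▸ Multiset.mem_cons_of_mem hd) with rfl | rfl
    · exact .inl (a2 ▸ (cy_poly d).symm)
    · exact .inr (by rw [← cy_poly, a1, sc])
  push Not at h2
  have h1 : ∀ b ∈ x, b.poly.natDegree = 1 := fun b hb => by
    have := h2 b hb
    have := h3 b hb
    have := b.natDegree_poly_pos
    omega
  have h5 : ∀ b ∈ x, {b} = sc (nm b.poly) := fun b hb => (cy_poly b).symm.trans (eq_sc b.poly_monic (h1 b hb))
  have h6 : ∀ b ∈ x, ∀ c ∈ x, b ≠ c → b.f ≠ c.f := fun b hb c hc e e' => e (eq_of_f e' ((h1 b hb).trans (h1 c hc).symm))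
  rcases x.empty_or_exists_mem with rfl | ⟨b, hb⟩
  · exact P_zero
  by_cases h7 : ∀ c ∈ x, c = b
  · rw [eq_nsmul h7, h5 b hb] at h ⊢
    exact P_scalar (h0 b hb) (by rwa [dt_nsmul, dt_sc] at h)
  push Not at h7
  obtain ⟨c, hc, h7⟩ := h7
  obtain ⟨y, hy⟩ := peel hc hb h7
  have h8 : nm c.poly ≠ nm b.poly := fun e => h7 (Multiset.singleton_inj.1 (by rw [h5 b hb, h5 c hc, e]))
  rcases y.empty_or_exists_mem with rfl | ⟨d, hd⟩
  · rw [hy, add_zero, merge (h6 c hc b hb h7)] at h ⊢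
    exact P_two h4 (c.poly_monic.mul b.poly_monic) (by rw [c.poly_monic.natDegree_mul b.poly_monic, h1 b hb, h1 c hc])
      (dt_cy (c.poly_monic.mul b.poly_monic) ▸ h)
  obtain ⟨z, rfl⟩ := Multiset.exists_cons_of_mem hd
  have hd : d ∈ x := by simp [hy]
  rw [← Multiset.singleton_add, ← add_assoc] at hy
  refine fl _ z hy ?_
  by_cases e1 : d = b
  · rw [e1, add_assoc, ← two_nsmul, h5 b hb, h5 c hc]
    exact R2 (h0 b hb) (h0 c hc) h8.symm
  by_cases e2 : d = c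
  · rw [e2, add_right_comm, ← two_nsmul, add_comm, h5 b hb, h5 c hc]
    exact R2 (h0 c hc) (h0 b hb) h8
  have m := c.poly_monic.mul b.poly_monic
  rw [merge (h6 c hc b hb h7), ← cy_poly, ← cy_mul m d.poly_monic
    (.mul_left (cop (h6 c hc d hd (Ne.symm e2))) (cop (h6 b hb d hd (Ne.symm e1))))]
  refine Flex_cy (m.mul d.poly_monic) ?_ ?_
  · simp [nm_mul m d.poly_monic, nm_mul c.poly_monic b.poly_monic, h0, hb, hc, hd]
  · rw [m.natDegree_mul d.poly_monic, c.poly_monic.natDegree_mul b.poly_monic, h1 b hb, h1 c hc, h1 d hd]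

end Cfsg.Agent.H6.Com
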