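import Cfsg.Agent.H6.ComD

/-! Commutators in special linear groups over the field with three elements. -/

set_option autoImplicit false

namespace Cfsg.Agent.H6.Com

open Polynomial Module Cfsg.Agent.H28 Matrix

universe u
variable {F : Type u} [Field F]

theorem P_map {K ι : Type} [CommRing K] [Fintype ι] [DecidableEq ι] (f : K →+* F) {g : Matrix ι ι K}
    (h : ∃ c y : Matrix ι ι K, c.det = 1 ∧ y.det = 1 ∧ c * g * y = y * c) : P 1 (em (g.map f)) := by
  obtain ⟨c, y, h1, h2, e⟩ := h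
  have := P_em (c := f.mapMatrix c) (g := f.mapMatrix g) (y := f.mapMatrix y) (by rw [← f.map_det, h2, map_one])
    (by simp only [← map_mul, e])
  rwa [← f.map_det, h1, map_one] at this

theorem ex3 (t : ZMod 3) : ∃ c y : Matrix (Fin 2 ⊕ Fin 2) (Fin 2 ⊕ Fin 2) (ZMod 3),
    c.det = 1 ∧ y.det = 1 ∧ c * fromBlocks !![0, 1; 1, t] 0 0 !![0, 1; 1, t] * y = y * c := by
  obtain rfl | rfl | rfl : t = 0 ∨ t = 1 ∨ t = 2 := by revert t; decide
  · exact ⟨fromBlocks !![0, 0; 0, 2] !![0, 1; 0, 0] !![1, 0; 0, 0] !![0, 0; 2, 0],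
      fromBlocks !![1, 0; 0, 0] !![0, 0; 2, 0] !![0, 0; 0, 2] !![0, 1; 0, 0], by decide +kernel⟩
  · exact ⟨fromBlocks !![1, 0; 0, 0] !![0, 0; 1, 0] !![0, 1; 0, 1] !![0, 1; 0, 0],
      fromBlocks !![0, 0; 0, 1] !![0, 1; 0, 0] !![1, 1; 0, 0] !![0, 2; 1, 0], by decide +kernel⟩
  · exact ⟨fromBlocks !![0, 2; 0, 0] !![0, 1; 0, 2] !![0, 0; 2, 0] !![2, 0; 0, 0],
      fromBlocks !![1, 2; 1, 0] !![1, 0; 0, 0] !![0, 1; 0, 0] !![0, 0; 0, 1], by decide +kernel⟩

theorem dt_eq_one {x : Cl F} (h : ∀ b ∈ x, nm b.poly = 1) : dt x = 1 := by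
  induction x using Multiset.induction_on with
  | empty => exact dt_zero
  | cons b x ih => rw [← Multiset.singleton_add, dt_add, dt_one, h b (Multiset.mem_cons_self _ _),
      ih fun c hc => h c (Multiset.mem_cons_of_mem hc), one_mul]

theorem CB (h2 : (2 : F) ≠ 0) {p r T : F[X]} (hp : p.Monic) (hr : r.Monic) (hT : T.Monic) (dp : p.natDegree = 2)
    (dr : T.natDegree + 2 = r.natDegree) (np : nm p = -1) (nr : nm r = -1) (h0 : nm T ≠ 0) (h1 : T.eval 1 ≠ 0) (h1' : T.eval (-1) ≠ 0) :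
    P (-nm T) (cy p + cy r) := by
  have m := (monic_X_sub_C (1 : F)).pow 2
  have m' := monic_X_sub_C (-1 : F)
  have e : nm ((X - C (1 : F)) ^ 2) = 1 := by rw [sq, nm_mul (monic_X_sub_C 1) (monic_X_sub_C 1), nm_lin, mul_one]
  have a := R1 (α := 1) hp m' m (by rw [natDegree_X_sub_C, dp]) (by rw [natDegree_pow, natDegree_X_sub_C, dp]) (by simp [np])
    (by simpa [one_add_one_eq_two]) (by rw [e]; simp) (by rw [e, nm_lin, np])
  have b := R1s (α := 1) hr (m'.mul hT) (m.mul hT) (by rw [m'.natDegree_mul hT, natDegree_X_sub_C]; omega)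
    (by rw [m.natDegree_mul hT, natDegree_pow, natDegree_X_sub_C]; omega) (by simp [nr]) (by simpa [one_add_one_eq_two, h2])
    (by rwa [nm_mul m hT, e, one_mul]) (by rw [nm_mul m hT, nm_mul m' hT, e, nm_lin, nr]; ring)
  rw [cy_lin hT h1', cy_mul m hT (IsCoprime.pow_left ((irreducible_X_sub_C 1).coprime_iff_not_dvd.2 fun e => h1 (dvd_iff_isRoot.1 e)))] at b
  have c := a.add b
  rw [← sc.eq_1, show cy ((X - C 1) ^ 2) + (sc 1 + (sc (-1) + cy T)) = sc 1 + sc (-1) + (cy ((X - C 1) ^ 2) + cy T) by abel] at c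
  simpa only [dt_add, dt_sc, dt_cy m, dt_cy hT, e, one_mul, neg_one_mul] using P_of_R c (.inr (((S_sc 1).add _).add _))

theorem two_ne (h3 : (3 : F) = 0) : (2 : F) ≠ 0 := fun h => one_ne_zero (α := F) (by linear_combination h3 - h)

variable [Fintype F] (h3 : (3 : F) = 0) (hF : ∀ a : F, a = 0 ∨ a = 1 ∨ a = -1)
include h3 hF

theorem P_CC (τ : F) : P (1 : F) (2 • cy (q2 τ (-1))) := by
  have := (CharP.charP_iff_prime_eq_zero (R := F) Nat.prime_three).2 (by exact_mod_cast h3)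
  obtain ⟨t, rfl⟩ : ∃ t, ZMod.castHom (dvd_refl 3) F t = τ := by
    rcases hF τ with rfl | rfl | rfl
    exacts [⟨0, map_zero _⟩, ⟨1, map_one _⟩, ⟨-1, by simp⟩]
  have := P_map (ZMod.castHom (dvd_refl 3) F) (ex3 t)
  rw [fromBlocks_map, Matrix.map_zero _ (map_zero _), em_blocks, ← two_nsmul] at this
  rw [← em_m2]
  convert this using 3
  ext i j; fin_cases i <;> fin_cases j <;> simp

theorem Ch3 {p : F[X]} (hp : p.Monic) (h0 : nm p ≠ 0) (hd : 0 < p.natDegree) (h : p.natDegree = 2 → nm p = 1) : Ch (cy p) := by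
  obtain e | e | e : p.natDegree = 1 ∨ p.natDegree = 2 ∨ 3 ≤ p.natDegree := by omega
  · exact eq_sc hp e ▸ Ch_sc h0
  · exact ⟨by rwa [dt_cy hp], fun β hβ => ⟨nm p * β * -β, by simp [h0, hβ], by
      rw [dt_cy hp]; exact Q_two hp e h0 hβ (neg_ne_zero.2 hβ) (by rw [h e]; grind) (by grind)⟩⟩
  · exact (Flex_cy hp h0 e).ch

theorem pair2 {b c : PP F} (hb : nm b.poly = -1) (hc : nm c.poly = -1) (h : b.poly.natDegree = 2) {δ : F} (hδ : δ ≠ 0) :
    P δ ({b} + {c}) := by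
  have h2 := two_ne h3
  by_cases e : b.f = c.f
  swap
  · exact (Flex_merge e (by simp [hb]) (by simp [hc]) (by have := c.natDegree_poly_pos; omega)).P (by rw [dt_add, dt_one, dt_one, hb, hc]; simp) hδ
  have h1 : c.poly.natDegree = c.k * 2 := by
    rw [c.natDegree_poly, ← e]
    rw [b.natDegree_poly] at h
    rcases (Nat.dvd_prime Nat.prime_two).1 (Dvd.intro_left _ h) with a | a
    · rw [a, mul_one] at h
      rw [PP.poly, h, sq, nm_mul b.monic b.monic] at hb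
      rcases hF (nm b.f) with e | e | e <;> rw [e] at hb
      · simp at hb
      all_goals exact (h2 (by linear_combination hb)).elim
    · rw [a]
  have := c.pos
  rw [← cy_poly, ← cy_poly]
  rcases Nat.lt_or_ge c.k 2 with a | a
  · obtain rfl : b = c := eq_of_f e (by omega)
    rcases hF δ with rfl | rfl | rfl
    · exact (hδ rfl).elim
    · rw [← two_nsmul, eq_q2 b.poly_monic h, hb]; exact P_CC h3 hF _
    · simpa [nm] using CB h2 b.poly_monic b.poly_monic monic_one h (by simp [h]) hb hb (by simp [nm]) (by simp) (by simp)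
  · obtain ⟨T, a1, a2, a3, a4, a5⟩ := exists_T (m := c.poly.natDegree - 2) (by omega) (-δ) one_ne_zero (neg_ne_zero.2 one_ne_zero)
    simpa [a3] using CB h2 b.poly_monic c.poly_monic a1 h (by omega) hb hc (by simpa [a3]) a4 a5

theorem pair {b c : PP F} (hb : nm b.poly = -1) (hc : nm c.poly = -1) (δ : F) (hδ : δ ≠ 0) : P δ ({b} + {c}) := by
  by_cases e : b.poly.natDegree = 2
  · exact pair2 h3 hF hb hc e hδ
  by_cases e' : c.poly.natDegree = 2
  · rw [add_comm]; exact pair2 h3 hF hc hb e' hδ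
  have h : dt ({b} + {c} : Cl F) = 1 := by rw [dt_add, dt_one, dt_one, hb, hc]; simp
  have a := b.natDegree_poly_pos
  have a' := c.natDegree_poly_pos
  rw [← cy_poly, ← cy_poly] at h ⊢
  by_cases d : 3 ≤ b.poly.natDegree
  · exact ((Flex_cy b.poly_monic (by simp [hb]) d).add (Ch3 h3 hF c.poly_monic (by simp [hc]) a' fun h => (e' h).elim)).P h hδ
  by_cases d' : 3 ≤ c.poly.natDegree
  · rw [add_comm] at h ⊢
    exact ((Flex_cy c.poly_monic (by simp [hc]) d').add (Ch3 h3 hF b.poly_monic (by simp [hb]) a fun h => (e h).elim)).P h hδ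
  rw [eq_sc b.poly_monic (by omega), eq_sc c.poly_monic (by omega), hb, hc]
  have n : (-1 : F) ≠ 0 := by simp
  rcases hF δ with rfl | rfl | rfl
  · exact (hδ rfl).elim
  · exact two_nsmul (sc (-1 : F)) ▸ P_scalar n (by simp)
  · exact Q.P (by simpa using (Q_sc n one_ne_zero).add (Q_sc n (mul_ne_zero n one_ne_zero)))

theorem peel3 {x : Cl F} (h : dt x = 1) {b : PP F} (hb : b ∈ x) (e : nm b.poly ≠ 1) :
    ∃ c y, x = {b} + {c} + y ∧ nm b.poly = -1 ∧ nm c.poly = -1 ∧ dt y = 1 := by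
  have h0 : ∀ c ∈ x, nm c.poly ≠ 1 → nm c.poly = -1 := fun c hc e => ((hF _).resolve_left (nm_ne (h ▸ one_ne_zero) hc)).resolve_left e
  obtain ⟨y, rfl⟩ := Multiset.exists_cons_of_mem hb
  obtain ⟨c, hc, e'⟩ : ∃ c ∈ y, nm c.poly ≠ 1 := by
    by_contra! H
    rw [← Multiset.singleton_add, dt_add, dt_one, dt_eq_one H, mul_one] at h
    exact e h
  obtain ⟨z, rfl⟩ := Multiset.exists_cons_of_mem hc
  have a := h0 b hb e
  have a' := h0 c (Multiset.mem_cons_of_mem hc) e'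
  exact ⟨c, z, by simp, a, a', by simpa [← Multiset.singleton_add, dt_add, dt_one, a, a'] using h⟩

theorem G3 (x : Cl F) (h : dt x = 1) : ∃ δ : F, δ ≠ 0 ∧ P δ x := by
  induction x using Multiset.strongInductionOn with | ih x ih => ?_
  rcases x.empty_or_exists_mem with rfl | ⟨b, hb⟩
  · exact ⟨1, one_ne_zero, P_zero⟩
  by_cases e : nm b.poly = 1
  · obtain ⟨y, rfl⟩ := Multiset.exists_cons_of_mem hb
    obtain ⟨δ, a1, a2⟩ := (Ch3 h3 hF b.poly_monic (by simp [e]) b.natDegree_poly_pos fun _ => e).P (by rwa [dt_cy b.poly_monic])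
    obtain ⟨δ', b1, b2⟩ := ih y (Multiset.lt_cons_self y b) (by rwa [← Multiset.singleton_add, dt_add, dt_one, e, one_mul] at h)
    exact ⟨_, mul_ne_zero a1 b1, by simpa [cy_poly] using a2.add b2⟩
  · obtain ⟨c, y, rfl, a1, a2, a3⟩ := peel3 h3 hF h hb e
    obtain ⟨δ, b1, b2⟩ := ih y (lt_add_of_pos_left _ (by simp [pos_iff_ne_zero])) a3
    exact ⟨_, by simpa using b1, (pair h3 hF a1 a2 1 one_ne_zero).add b2⟩

theorem main3 (x : Cl F) (h : dt x = 1) (hd : 3 ≤ dm x) : P 1 x := by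
  have fl : ∀ y z, x = y + z → dt z = 1 → (∀ δ : F, δ ≠ 0 → P δ y) → P 1 x := fun y z e hz hy =>
    have ⟨δ, a, b⟩ := G3 h3 hF z hz
    e ▸ inv_mul_cancel₀ a ▸ (hy _ (inv_ne_zero a)).add b
  by_cases h1 : ∃ b ∈ x, nm b.poly ≠ 1
  · obtain ⟨b, hb, e⟩ := h1
    obtain ⟨c, y, e, a1, a2, a3⟩ := peel3 h3 hF h hb e
    exact fl _ y e a3 (pair h3 hF a1 a2)
  push Not at h1
  by_cases h2 : ∃ b ∈ x, b.poly.natDegree ≠ 2
  · obtain ⟨b, hb, e⟩ := h2
    obtain ⟨y, hy⟩ := Multiset.exists_cons_of_mem hb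
    refine fl {b} y hy (dt_eq_one fun c hc => h1 c (hy ▸ Multiset.mem_cons_of_mem hc)) fun δ hδ => ?_
    rw [← cy_poly]
    rcases eq_or_ne b.poly.natDegree 1 with d | d
    · rw [eq_sc b.poly_monic d, h1 b hb]; exact P_sc_one hδ
    · exact (Flex_cy b.poly_monic (by simp [h1 b hb]) (by have := b.natDegree_poly_pos; omega)).P
        (by rw [dt_cy b.poly_monic, h1 b hb]) hδ
  push Not at h2
  rcases x.empty_or_exists_mem with rfl | ⟨b, hb⟩
  · exact P_zero
  by_cases h4 : ∀ c ∈ x, c = b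
  · rw [eq_nsmul h4, ← cy_poly, eq_q2 b.poly_monic (h2 b hb), h1 b hb] at hd ⊢
    obtain ⟨k, e | e⟩ := x.card.even_or_odd' <;> rw [e] at hd ⊢
    · rw [mul_nsmul]; exact (P_BB _).nsmul k
    obtain _ | k := k
    · simp [dm_cy (q2_monic _ _), q2_deg] at hd
    · rw [show 2 * (k + 1) + 1 = 2 * k + 3 by ring, add_nsmul, mul_nsmul]
      exact ((P_BB _).nsmul k).add_one (P_BBB (two_ne h3) _)
  push Not at h4
  obtain ⟨c, hc, e⟩ := h4
  obtain ⟨y, hy⟩ := peel hc hb e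
  exact fl _ y hy (dt_eq_one fun d hd => h1 d (by simp [hy, hd])) fun δ hδ => (Flex_merge
    (fun a => e (eq_of_f a ((h2 c hc).trans (h2 b hb).symm))) (by simp [h1 c hc]) (by simp [h1 b hb])
    (by rw [h2 c hc, h2 b hb]; omega)).P (by rw [dt_add, dt_one, dt_one, h1 c hc, h1 b hb, one_mul]) hδ

end Cfsg.Agent.H6.Com
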