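import Cfsg.Agent.H6.ComE

/-! Commutators in special linear groups over the field with two elements; the general statement. -/

set_option autoImplicit false

namespace Cfsg.Agent.H6.Com

open Polynomial Module Cfsg.Agent.H28 Matrix

universe u
variable {F : Type u} [Field F]

theorem R_cy {p T : F[X]} (hp : p.Monic) (hT : T.Monic) (dT : T.natDegree + 1 = p.natDegree) (h0 : nm p = 1)
    (h1 : nm T ≠ 0) (h2 : T.eval 1 ≠ 0) : R (cy p) (sc 1 + cy T) (sc 1 + cy T) := by
  have e := nm_mul (monic_X_sub_C 1) hT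
  have := R1 hp hT ((monic_X_sub_C 1).mul hT) dT (by rw [(monic_X_sub_C 1).natDegree_mul hT, natDegree_X_sub_C, add_comm, dT])
    (by simp [h0]) h2 (by rwa [e, nm_lin, one_mul]) (by rw [e, nm_lin, h0, mul_one])
  rwa [cy_lin hT h2] at this

theorem em_J : em !![(1 : F), 0; 1, 1] = cy (q2 2 1) := by simpa [one_add_one_eq_two] using em_two (1 : F) 0 1 one_ne_zero

/-- the unipotent block of size two -/
noncomputable def jb (F : Type u) [Field F] : PP F := ⟨X - C 1, 2, monic_X_sub_C 1, irreducible_X_sub_C 1, two_pos⟩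

theorem jb_poly : (jb F).poly = q2 2 1 := by simp [jb, PP.poly, q2, map_ofNat]; ring

theorem jb_eq : {jb F} = cy (q2 (2 : F) 1) := by rw [← jb_poly, cy_poly]

section
variable (hF : ∀ a : F, a = 0 ∨ a = 1) {V : Type u} [AddCommGroup V] [Module F V] [FiniteDimensional F V]
include hF

theorem det_one {a : End F V} (h : ∀ v, a v = 0 → v = 0) : LinearMap.det a = 1 :=
  (hF _).resolve_left fun e => LinearMap.det_eq_zero_iff_ker_ne_bot.1 e (LinearMap.ker_eq_bot'.2 h)

theorem S_all (y : Cl F) : S y := fun d hd =>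
  ⟨_, _, _, inferInstance, model y, 1, ed_model y, by rw [map_one, (hF d).resolve_left hd], by simp⟩

theorem Jlem {g c y : End F V} {w u w0 : V} {ψ : Dual F V} (hc : ∀ v, c v = 0 → v = 0) (hy : ∀ v, y v = 0 → v = 0)
    (e : ∀ v, c (g (y v)) = y (c v)) (h1 : c w = w) (h2 : ∀ v, ψ (c v) = ψ v) (h3 : ψ w = 1) (h4 : c (g w0) = w0)
    (h5 : c (g u) = w - w0 + u) : P 1 (cy (q2 2 1) + ed g) := by
  let s := fun i : Fin 2 => LinearMap.proj i ∘ₗ LinearMap.fst F (Fin 2 → F) V
  let t := LinearMap.snd F (Fin 2 → F) V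
  refine ⟨(Fin 2 → F) × V, _, _, inferInstance, (toLin' !![1, 0; 1, 1]).prodMap g, (LinearMap.fst F _ _).prod (c ∘ₗ t + (s 0).smulRight w),
    (LinearMap.pi ![s 0, ψ ∘ₗ t]).prod ((ψ ∘ₗ t).smulRight (w0 - y w) - (s 0).smulRight u + (s 1).smulRight (y w) + y ∘ₗ t),
    by rw [ed_prodMap, ← em_J, em], det_one hF ?_, det_one hF ?_, LinearMap.ext ?_⟩
  · rintro ⟨a, v⟩ h
    obtain rfl : a = 0 := congrArg Prod.fst h
    simpa using hc v (by simpa [s, t] using congrArg Prod.snd h)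
  · rintro ⟨a, v⟩ h
    have a0 : a 0 = 0 := congrArg (·.1 0) h
    have a1 : ψ v = 0 := congrArg (·.1 1) h
    have a2 := hy (a 1 • w + v) (by simpa [s, t, a0, a1] using congrArg Prod.snd h)
    have a3 : a 1 = 0 := by simpa [a1, h3] using congrArg ψ a2
    exact Prod.ext (funext (Fin.forall_fin_two.2 ⟨a0, a3⟩)) (by simpa [a3] using a2)
  · rintro ⟨a, v⟩
    refine Prod.ext (funext (Fin.forall_fin_two.2 ⟨?_, ?_⟩)) ?_
    · simp [s, t, vecHead, vecTail]
    · simp [s, t, vecHead, vecTail, h2, h3, add_comm]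
    · simp [s, t, e, h1, h2, h3, h4, h5, vecHead, vecTail]
      module

theorem JR {x : Cl F} {T : F[X]} (hT : T.Monic) (h1 : nm T ≠ 0) (h2 : T.eval 1 ≠ 0) (h : R x (sc 1 + cy T) (sc 1 + cy T)) :
    P 1 (cy (q2 2 1) + x) := by
  obtain ⟨V, _, _, _, g, c, rfl, a1, a2⟩ := h
  have := finite_adjoinRoot hT.ne_zero
  have m := (monic_X_sub_C 1).mul hT
  have := finite_adjoinRoot m.ne_zero
  obtain ⟨y, hy⟩ := sim_iff_ed.2 (a2.trans a1.symm)
  have a3 : aeval (c * g) ((X - C 1) * T) = 0 := by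
    rw [← cy_lin hT h2, cy_eq m] at a1
    exact ((sim_iff_ed.2 a1).aeval_eq_zero_iff _).2 ((aeval_cyc_eq_zero_iff _ _).2 dvd_rfl)
  have a4 : LinearMap.det c ≠ 0 := by rwa [← dt_ed, a2, dt_add, dt_sc, dt_cy hT, one_mul]
  rw [cy_eq hT, ← ed_sc, ← ed_prodMap] at a2
  obtain ⟨e, he⟩ := sim_iff_ed.2 a2.symm
  obtain ⟨B, hB⟩ := X_sub_C_dvd_sub_C_eval (a := 1) (p := T)
  rw [(hF _).resolve_left h2] at hB
  refine Jlem hF (c := c) (y := y) (w := e (1, 0)) (ψ := LinearMap.fst F _ _ ∘ₗ e.symm.toLinearMap) (w0 := aeval (c * g) T (e (1, 0)))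
    (u := -aeval (c * g) B (e (1, 0))) (fun v h => inv_mem (S := ⊥) a4 (by simp) h) (by simp) (fun v => (hy v).symm)
    (by rw [← he]; simp) (fun v => ?_) (by simp) ?_ ?_
  · obtain ⟨v, rfl⟩ := e.surjective v
    simp [← he]
  · simpa [sub_eq_zero] using congrArg (· (e (1, 0))) a3
  · rw [congrArg (aeval (c * g)) (eq_add_of_sub_eq hB)]
    simp
    abel

variable (h2 : (2 : F) = 0)
include h2

theorem P_JJJ : P (1 : F) (3 • cy (q2 2 1)) := by
  have := Jlem hF (V := (Fin 2 → F) × (Fin 2 → F)) (g := (toLin' !![1, 0; 1, 1]).prodMap (toLin' !![1, 0; 1, 1]))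
    (c := LinearMap.prodMap 1 (toLin' !![1, 0; 1, 1])) (y := (LinearEquiv.prodComm F _ _).toLinearMap) (w := (![0, 1], 0)) (u := 0) (w0 := (![0, 1], 0))
    (ψ := LinearMap.proj 1 ∘ₗ LinearMap.fst F _ _) ?_ (by simp) ?_ (by simp) (by simp) (by simp) (by simp [Function.comp_def, vecHead, vecTail]; ext i; fin_cases i <;> rfl) (by simp)
  · rwa [ed_prodMap, ← em.eq_1, em_J, ← two_nsmul, ← succ_nsmul'] at this
  · rintro ⟨a, b⟩ h
    have a0 : b 0 = 0 := by simpa [vecHead] using congrArg (·.2 0) h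
    have a1 : b 1 = 0 := by simpa [vecHead, vecTail, a0] using congrArg (·.2 1) h
    exact Prod.ext (by simpa using congrArg Prod.fst h) (funext (Fin.forall_fin_two.2 ⟨a0, a1⟩))
  · rintro ⟨a, b⟩
    refine Prod.ext rfl (funext (Fin.forall_fin_two.2 ⟨?_, ?_⟩)) <;> simp [vecHead, vecTail]
    linear_combination a 0 * h2

theorem good {b : PP F} (h0 : nm b.poly = 1) (h : b ≠ jb F) : P 1 {b} ∧ P 1 ({jb F} + {b}) := by
  by_cases d : b.poly.natDegree = 2
  · have j : (jb F).poly.natDegree = 2 := by rw [jb_poly, q2_deg]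
    have n : nm (jb F).poly = 1 := by rw [jb_poly, nm_q2]
    refine ⟨?_, (Flex_merge (fun e => h (eq_of_f e.symm (d.trans j.symm))) (by simp [n]) (by simp [h0]) (by omega)).P
      (by rw [dt_add, dt_one, dt_one, n, h0, one_mul]) one_ne_zero⟩
    have e : {b} = cy (q2 (-b.poly.coeff 1) 1) := by rw [← cy_poly, ← h0, ← eq_q2 b.poly_monic d]
    have := P_of_R (R_uni (τ := -b.poly.coeff 1) fun a => h (Multiset.singleton_inj.1 (by rw [e, a, jb_eq]))) (.inr (S_all hF _))
    rwa [dt_q2, ← e] at this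
  obtain ⟨T, a1, a2, a3, a4⟩ : ∃ T : F[X], T.Monic ∧ T.natDegree + 1 = b.poly.natDegree ∧ nm T = 1 ∧ T.eval 1 ≠ 0 := by
    by_cases e : b.poly.natDegree = 1
    · exact ⟨1, monic_one, by simp [e], by simp [nm], by simp⟩
    have := b.natDegree_poly_pos
    obtain ⟨T, a1, a2, a3, a4, -⟩ := exists_T (m := b.poly.natDegree - 1) (by omega) (1 : F) one_ne_zero one_ne_zero
    exact ⟨T, a1, by omega, a3, a4⟩
  have := R_cy b.poly_monic a1 a2 h0 (by simp [a3]) a4
  rw [cy_poly] at this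
  exact ⟨by simpa [dt_add, dt_sc, dt_cy a1, a3] using P_of_R this (.inr (S_all hF _)), jb_eq (F := F) ▸ JR hF a1 (by simp [a3]) a4 this⟩

theorem main2 (x : Cl F) (h : dt x = 1) (hx : x ≠ {jb F}) : P 1 x := by
  induction x using Multiset.strongInductionOn with | ih x ih => ?_
  have h0 : ∀ b ∈ x, nm b.poly = 1 := fun b hb => (hF _).resolve_left (nm_ne (h ▸ one_ne_zero) hb)
  have JJ : P 1 ({jb F} + {jb F} : Cl F) := by rw [jb_eq, ← two_nsmul]; exact P_BB 2
  rcases x.empty_or_exists_mem with rfl | ⟨b, hb⟩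
  · exact P_zero
  by_cases hj : jb F ∈ x
  swap
  · obtain ⟨y, rfl⟩ := Multiset.exists_cons_of_mem hb
    exact (good hF h2 (h0 b hb) fun e => hj (e ▸ hb)).1.add_one (ih y (Multiset.lt_cons_self y b)
      (dt_eq_one fun c hc => h0 c (Multiset.mem_cons_of_mem hc)) fun e => hj (by simp [e]))
  obtain ⟨y, rfl⟩ := Multiset.exists_cons_of_mem hj
  obtain ⟨c, hc⟩ := Multiset.exists_mem_of_ne_zero (s := y) fun e => hx (by simp [e])
  obtain ⟨z, rfl⟩ := Multiset.exists_cons_of_mem hc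
  replace hc := h0 c (Multiset.mem_cons_of_mem hc)
  by_cases hz : z = {jb F}
  · subst hz
    by_cases e : c = jb F
    · simpa [← jb_eq, e, succ_nsmul] using P_JJJ hF h2
    · simpa [Multiset.cons_swap, ← Multiset.singleton_add, add_comm, add_left_comm] using JJ.add_one (good hF h2 hc e).1
  rw [show jb F ::ₘ c ::ₘ z = {jb F} + {c} + z by simp]
  refine P.add_one ?_ (ih z ((Multiset.lt_cons_self _ _).trans (Multiset.lt_cons_self _ _))
    (dt_eq_one fun d hd => h0 d (by simp [hd])) hz)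
  by_cases e : c = jb F
  · exact e ▸ JJ
  · exact (good hF h2 hc e).2

end

theorem main [Fintype F] (x : Cl F) (h : dt x = 1) (hn : 2 ≤ dm x) (hex : dm x = 2 → 4 ≤ Fintype.card F) : P 1 x := by
  classical
  have := Fintype.one_lt_card (α := F)
  have c := FiniteField.cast_card_eq_zero F
  have p := FiniteField.pow_card (K := F)
  obtain e | e | e : Fintype.card F = 2 ∨ Fintype.card F = 3 ∨ 4 ≤ Fintype.card F := by omega
  · rw [e] at c p
    refine main2 (fun a => ?_) (by exact_mod_cast c) x h fun a => ?_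
    · have := p a; grind
    · rw [a, jb_eq, dm_cy (q2_monic _ _), q2_deg] at hex; omega
  · rw [e] at c p
    exact main3 (by exact_mod_cast c) (fun a => by have := p a; grind) x h (by omega)
  · refine main4 (fun a b c => ?_) x h
    by_contra H
    have : (Finset.univ : Finset F) ⊆ {a, b, c} := fun d _ => by simp only [not_exists] at H; have := H d; grind
    have := (Finset.card_le_card this).trans Finset.card_le_three
    rw [Finset.card_univ] at this
    omega

theorem main_mat [Fintype F] {n : ℕ} (hn : 2 ≤ n) (hex : n = 2 → 4 ≤ Fintype.card F) (g : SpecialLinearGroup (Fin n) F) :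
    ∃ a b : SpecialLinearGroup (Fin n) F, g = a * b * a⁻¹ * b⁻¹ := by
  obtain ⟨V, _, _, _, g0, c, y, a1, a2, a3, a4⟩ := main (ed (toLin' g.1)) (by simp [dt_ed]) (by simpa [dm_ed]) (by simpa [dm_ed])
  obtain ⟨e, he⟩ := (sim_iff_ed.2 a1).eq_conj
  let f : ∀ c : End F V, LinearMap.det c = 1 → SpecialLinearGroup (Fin n) F := fun c h =>
    ⟨LinearMap.toMatrix' (e.conj c), by rw [LinearMap.det_toMatrix', ← (sim_conj c e).det_eq, h]⟩
  have : f c a2 * g * f y a3 = f y a3 * f c a2 := Subtype.ext (toLin'.injective (by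
    show toLin' (LinearMap.toMatrix' _ * g.1 * LinearMap.toMatrix' _) = toLin' (LinearMap.toMatrix' _ * LinearMap.toMatrix' _)
    simpa only [toLin'_mul, toLin'_toMatrix', he, End.mul_eq_comp, LinearEquiv.conj_comp]
      using congrArg e.conj a4))
  exact ⟨(f c a2)⁻¹, f y a3, by rw [inv_inv, mul_assoc _ (f y a3), ← this]; group⟩

end Cfsg.Agent.H6.Com
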