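import Cfsg.Agent.H8.Fong2
import Cfsg.Agent.H8.Glaub1
import Cfsg.Agent.H1.SylowIn
import Cfsg.Agent.H9.PSolv

/-! Fully ramified characters (Howlett-Isaacs lemmas). -/

set_option autoImplicit false
set_option linter.unusedSectionVars false

open Cfsg Cfsg.Agent.H4 Cfsg.Agent.H5 Cfsg.Agent.H1
open scoped ComplexConjugate Pointwise

namespace Cfsg.Agent.H6

structure FR {N G : Type*} [Group N] [Group G] (E : NEmb N G) (χ : G → ℂ) (θ : N → ℂ) (e : ℕ) :
    Prop where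
  irr : IsIrrCharacter G χ
  irr' : IsIrrCharacter N θ
  res : ∀ n, χ (E.f n) = e * θ n
  sq : e ^ 2 = E.f.range.index

namespace FR

variable {N G K : Type*} [Group N] [Group G] [Group K] [Fintype N] [Fintype G] [Fintype K]
  {E : NEmb N G} {χ : G → ℂ} {θ : N → ℂ} {e : ℕ} (h : FR E χ θ e)
include h

theorem pos : e ≠ 0 := by
  rintro rfl
  exact E.f.range.index_ne_zero_of_finite (by simpa using h.sq.symm)

theorem vanish (g : G) (hg : g ∉ E.f.range) : χ g = 0 :=
  (E.sq_eq_index_iff h.irr h.irr' h.res).1 h.sq g hg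

theorem inv (g : G) (n : N) : θ (E.act g n) = θ n :=
  E.invariant_of_res_eq_mul h.irr.isClassFunction (Nat.cast_ne_zero.2 h.pos) h.res g n

theorem uniq {ψ : G → ℂ} (hψ : IsIrrCharacter G ψ)
    (h1 : classInner (fun n => ψ (E.f n)) θ ≠ 0) : ψ = χ := by
  have h2 := (E.inner_indHom_ne_zero_iff θ hψ.isClassFunction).2 h1
  rw [E.indHom_eq_smul_of_sq_eq_index h.irr h.irr' h.res h.sq, classInner_smul_left] at h2
  exact (h.irr.eq_of_classInner_ne_zero hψ (right_ne_zero_of_mul h2)).symm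

theorem eq_one_of_cyclic (hc : IsCyclic (G ⧸ E.f.range)) : e = 1 := by
  obtain ⟨η, hη, h1⟩ := E.exists_ext_of_isCyclic h.irr' h.inv hc
  have h2 : η = χ := h.uniq hη (by
    rw [show (fun n => η (E.f n)) = θ from funext h1, h.irr'.classInner_self]; exact one_ne_zero)
  have h3 := h.res 1
  rw [← h2, h1] at h3
  have h4 : (e : ℂ) = 1 := by
    have := h.irr'.apply_one_ne_zero
    field_simp at h3
    exact h3.symm
  exact_mod_cast h4

variable (j : NEmb N K) (i : K →* G) (hi : Function.Injective i)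
  (hij : ∀ n, i (j.f n) = E.f n)
include hi hij

theorem inv' (k : K) (n : N) : θ (j.act k n) = θ n := by
  have : j.act k n = E.act (i k) n := E.inj (by
    rw [← hij, j.f_act, E.f_act, map_mul, map_mul, map_inv, hij])
  rw [this, h.inv]

theorem key {φ : K → ℂ} {b : ℕ} (hφ : ∀ n, φ (j.f n) = b * θ n) :
    (j.f.range.index : ℂ) * classInner (fun k => χ (i k)) φ = e * b := by
  rw [← j.inner_of_vanish (χ := fun k => χ (i k)) φ]
  · have h1 : (fun n => χ (i (j.f n))) = (e : ℂ) • θ := by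
      funext n; rw [hij, h.res]; rfl
    have h2 : (fun n => φ (j.f n)) = (b : ℂ) • θ := funext hφ
    rw [h1, h2, classInner_smul_left, classInner_smul_right, h.irr'.classInner_self]; simp
  · intro k hk
    refine h.vanish _ ?_
    rintro ⟨n, hn⟩
    exact hk ⟨n, hi (by rw [hij, hn])⟩

theorem exists_nat {φ : K → ℂ} (hφ : IsIrrCharacter K φ)
    (h1 : classInner (fun n => φ (j.f n)) θ ≠ 0) : ∃ b : ℕ, 0 < b ∧ ∀ n, φ (j.f n) = b * θ n := by
  obtain ⟨b, hb, -, h2⟩ := j.clifford_of_invariant_nat hφ h.irr' (h.inv' j i hi hij) h1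
  exact ⟨b, hb, h2⟩

theorem exists_over : ∃ (φ : K → ℂ) (b : ℕ), IsIrrCharacter K φ ∧ 0 < b ∧
    ∀ n, φ (j.f n) = b * θ n := by
  obtain ⟨φ, hφ, h1⟩ := exists_irr_over_hom j.f j.inj h.irr'
  obtain ⟨b, hb, h2⟩ := h.exists_nat j i hi hij hφ h1
  exact ⟨φ, b, hφ, hb, h2⟩

theorem inner_ne {φ : K → ℂ} {b : ℕ} (hb : 0 < b) (hφ : ∀ n, φ (j.f n) = b * θ n) :
    classInner (fun k => χ (i k)) φ ≠ 0 := by
  intro h0
  have := h.key j i hi hij hφ
  rw [h0, mul_zero] at this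
  exact mul_ne_zero (Nat.cast_ne_zero.2 h.pos) (Nat.cast_ne_zero.2 hb.ne') this.symm

omit h in
theorem index_eq : E.f.range.index = j.f.range.index * i.range.index := by
  rw [← Subgroup.index_map_of_injective _ hi]
  congr 1
  ext g
  constructor
  · rintro ⟨n, rfl⟩; exact ⟨_, ⟨n, rfl⟩, hij n⟩
  · rintro ⟨_, ⟨n, rfl⟩, rfl⟩; exact ⟨n, (hij n).symm⟩

theorem sylow {p a : ℕ} (hp : p.Prime) (ha : j.f.range.index = p ^ a)
    (hp' : ¬ p ∣ i.range.index) : ∃ (ρ : K → ℂ) (c : ℕ), FR j ρ θ c := by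
  haveI := Fact.mk hp
  obtain ⟨φ, b, hφ, hb, h1⟩ := h.exists_over j i hi hij
  refine ⟨φ, b, hφ, h.irr', h1, ?_⟩
  have h2 := j.sq_le_index hφ h.irr' h1
  have h3 := h.key j i hi hij h1
  obtain ⟨m, hm⟩ := (h.irr.isCharacter.comp i).classInner_nat hφ.isCharacter
  rw [hm] at h3
  have h4 : j.f.range.index * m = e * b := by exact_mod_cast h3
  have h5 := h.sq
  rw [index_eq j i hi hij] at h5
  rw [ha] at h2 h4 h5 ⊢
  have hi0 : i.range.index ≠ 0 := Subgroup.index_ne_zero_of_finite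
  have h6 : 2 * padicValNat p e = a := by
    have := congrArg (padicValNat p) h5
    rwa [padicValNat.pow, padicValNat.mul (pow_pos hp.pos a).ne' hi0,
      padicValNat.prime_pow, padicValNat.eq_zero_of_not_dvd hp', add_zero] at this
  have h7 : a ≤ padicValNat p e + padicValNat p b := by
    rw [← padicValNat.mul h.pos hb.ne', ← padicValNat_dvd_iff_le (mul_ne_zero h.pos hb.ne'), ← h4]
    exact Dvd.intro _ rfl
  have h8 : p ^ padicValNat p e ≤ b :=
    Nat.le_of_dvd hb ((padicValNat_dvd_iff_le hb.ne').2 (by omega))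
  refine le_antisymm h2 ?_
  rw [← h6, mul_comm, pow_mul]
  exact Nat.pow_le_pow_left h8 2

end FR

theorem FR.count {N G K : Type*} [Group N] [Group G] [Group K] [Fintype N] [Fintype G] [Fintype K]
    {E : NEmb N G} {χ : G → ℂ} {θ : N → ℂ} {e : ℕ} (h : FR E χ θ e) (j : NEmb N K)
    (E' : NEmb K G) (hij : ∀ n, E'.f (j.f n) = E.f n) {φ : K → ℂ} (hφ : IsIrrCharacter K φ) {b : ℕ}
    (hb : 0 < b) (h1 : ∀ n, φ (j.f n) = b * θ n) :
    (E'.inertia φ).index * b ^ 2 = j.f.range.index := by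
  have h2 := h.key j E'.f E'.inj hij h1
  have h3 := E'.clifford_degree h.irr hφ (h.inner_ne j E'.f E'.inj hij hb h1)
  have h4 := h.res 1
  have h5 := h1 1
  rw [map_one] at h4 h5
  rw [h4, h5] at h3
  have h6 := h.irr'.apply_one_ne_zero
  have h7 : (e : ℂ) ≠ 0 := Nat.cast_ne_zero.2 h.pos
  have h8 : (e : ℂ) = classInner (fun n => χ (E'.f n)) φ * (E'.inertia φ).index * b := by
    apply mul_right_cancel₀ h6; rw [h3]; ring
  have : (((E'.inertia φ).index * b ^ 2 : ℕ) : ℂ) = j.f.range.index := by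
    apply mul_left_cancel₀ h7
    push_cast
    linear_combination (-(((E'.inertia φ).index : ℂ) * b)) * h2 - (j.f.range.index : ℂ) * h8
  exact_mod_cast this

theorem FR.conj {N G K : Type*} [Group N] [Group G] [Group K] [Fintype N] [Fintype G] [Fintype K]
    {E : NEmb N G} {χ : G → ℂ} {θ : N → ℂ} {e : ℕ} (h : FR E χ θ e) (j : NEmb N K)
    (E' : NEmb K G) (hij : ∀ n, E'.f (j.f n) = E.f n) {φ φ' : K → ℂ} (hφ : IsIrrCharacter K φ)
    (hφ' : IsIrrCharacter K φ') {b b' : ℕ}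
    (hb : 0 < b) (h1 : ∀ n, φ (j.f n) = b * θ n) (hb' : 0 < b')
    (h1' : ∀ n, φ' (j.f n) = b' * θ n) : ∃ g, E'.cj φ g = φ' :=
  E'.exists_cj_eq_of_constituents h.irr hφ hφ' (h.inner_ne j E'.f E'.inj hij hb h1)
    (h.inner_ne j E'.f E'.inj hij hb' h1')

end Cfsg.Agent.H6
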