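import Cfsg.Agent.H6.FullRam
import Cfsg.Agent.H2.Sys

/-! Fully ramified characters: the Howlett-Isaacs complement lemma. -/

set_option autoImplicit false
set_option linter.unusedSectionVars false

open Cfsg Cfsg.Agent.H4 Cfsg.Agent.H5 Cfsg.Agent.H1
open scoped ComplexConjugate Pointwise

namespace Cfsg.Agent.H6

theorem degree_of_res {N K : Type*} [Group N] [Group K] (j : NEmb N K) {θ : N → ℂ} {φ : K → ℂ}
    (hθ : IsCharacter N θ) {b : ℕ} (h1 : ∀ n, φ (j.f n) = b * θ n) :
    charDegree φ = b * charDegree θ := by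
  apply charDegree_eq_of
  have := h1 1
  rw [map_one] at this
  rw [this, ← hθ.charDegree_cast]; push_cast; rfl

theorem fr_arith {p s c t b u a : ℕ} (hp : p.Prime) (h1 : s * c ^ 2 = p ^ a)
    (h2 : t * b ^ 2 = p ^ a * u) (hu : ¬ p ∣ u) (h3 : c ∣ b) (h4 : b ∣ u * c) :
    s = p ^ t.factorization p := by
  haveI := Fact.mk hp
  have hu0 : u ≠ 0 := by rintro rfl; exact hu (dvd_zero p)
  have hpa : p ^ a ≠ 0 := (pow_pos hp.pos a).ne'
  have hs0 : s ≠ 0 := by rintro rfl; exact hpa (by simpa using h1.symm)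
  have hc0 : c ≠ 0 := by rintro rfl; exact hpa (by simpa using h1.symm)
  have htb : t * b ^ 2 ≠ 0 := by rw [h2]; exact mul_ne_zero hpa hu0
  have ht0 : t ≠ 0 := left_ne_zero_of_mul htb
  have hb0 : b ≠ 0 := by rintro rfl; simp at htb
  obtain ⟨k, -, hk⟩ := (Nat.dvd_prime_pow hp).1 (h1 ▸ Dvd.intro _ rfl : s ∣ p ^ a)
  have e1 := congrArg (padicValNat p) h1
  have e2 := congrArg (padicValNat p) h2
  rw [padicValNat.mul hs0 (pow_ne_zero _ hc0), padicValNat.pow, padicValNat.prime_pow, hk,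
    padicValNat.prime_pow] at e1
  rw [padicValNat.mul ht0 (pow_ne_zero _ hb0), padicValNat.pow, padicValNat.mul hpa hu0,
    padicValNat.prime_pow, padicValNat.eq_zero_of_not_dvd hu] at e2
  have e3 : padicValNat p c ≤ padicValNat p b :=
    (padicValNat_dvd_iff_le hb0).1 (pow_padicValNat_dvd.trans h3)
  have e4 : padicValNat p b ≤ padicValNat p c := by
    have := (padicValNat_dvd_iff_le (mul_ne_zero hu0 hc0)).1 (pow_padicValNat_dvd.trans h4 :
      p ^ padicValNat p b ∣ u * c)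
    rwa [padicValNat.mul hu0 hc0, padicValNat.eq_zero_of_not_dvd hu, zero_add] at this
  rw [Nat.factorization_def _ hp, hk]
  congr 1; omega

theorem FR.exists_index {H : Type*} [Group H] [Fintype H] {Z K : Subgroup H} [Z.Normal] [K.Normal]
    [Fintype Z] [Fintype K] (hZK : Z ≤ K) {χ : H → ℂ} {θ : Z → ℂ} {e : ℕ}
    (h : FR (NEmb.ofNormal Z) χ θ e) {φ : K → ℂ} (hφ : IsIrrCharacter K φ) {b : ℕ} (hb : 0 < b)
    (h1 : ∀ n, φ ((NEmb.ofLeNormal hZK).f n) = b * θ n) (p : ℕ) [hp : Fact p.Prime] :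
    ∃ M : Subgroup H, K ≤ M ∧
      M.index = p ^ ((NEmb.ofNormal K).inertia φ).index.factorization p := by
  classical
  obtain ⟨P⟩ : Nonempty (Sylow p H) := inferInstance
  set R : Subgroup H := Z ⊔ P with hR
  set S : Subgroup H := R ⊓ K with hS
  set N : Subgroup H := Subgroup.normalizer (S : Set H) with hN
  have hZR : Z ≤ R := le_sup_left
  have hZS : Z ≤ S := le_inf hZR hZK
  have hSR : S ≤ R := inf_le_left
  have hSK : S ≤ K := inf_le_right
  have hRn : ∀ t ∈ R, ∀ n ∈ S, t * n * t⁻¹ ∈ S := fun t ht n hn =>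
    ⟨R.mul_mem (R.mul_mem ht hn.1) (R.inv_mem ht), Subgroup.Normal.conj_mem inferInstance _ hn.2 _⟩
  have hRN : R ≤ N := fun t ht => Subgroup.mem_normalizer_fintype (hRn t ht)
  have hSN : S ≤ N := hSR.trans hRN
  have hNn : ∀ t ∈ N, ∀ n ∈ S, t * n * t⁻¹ ∈ S := fun t ht n hn =>
    (Subgroup.mem_normalizer_iff.1 ht n).1 hn
  have hsyl : IsSylowIn p ((P : Subgroup H) ⊓ K) K :=
    (isSylowIn_top P).inf le_top (by rw [Subgroup.normalizer_eq_top]; exact le_top)
  have hPS : (P : Subgroup H) ⊓ K ≤ S := inf_le_inf_right K le_sup_right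
  have hu : ¬ p ∣ S.relIndex K := fun hd =>
    hsyl.3 (hd.trans (Subgroup.relIndex_dvd_of_le_left K hPS))
  obtain ⟨a, ha⟩ : ∃ a, Z.relIndex R = p ^ a := by
    rw [hR, Subgroup.relIndex_sup_left]
    obtain ⟨k, hk⟩ := P.isPGroup'.exists_card_eq
    obtain ⟨a, -, ha⟩ := (Nat.dvd_prime_pow hp.out).1 (hk ▸ Subgroup.relIndex_dvd_card Z P)
    exact ⟨a, ha⟩
  obtain ⟨a', ha'⟩ : ∃ a, Z.relIndex S = p ^ a := by
    obtain ⟨a, -, ha⟩ := (Nat.dvd_prime_pow hp.out).1
      (ha ▸ H9.relIndex_dvd_of_le_right_of_normal Z hSR)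
    exact ⟨a, ha⟩
  -- Frattini
  have hfr : K ⊔ N = ⊤ := by
    rw [eq_top_iff, ← hsyl.sup_normalizer_inf le_top
      (by rw [Subgroup.normalizer_eq_top])]
    refine sup_le_sup_left (inf_le_left.trans ?_) K
    intro g hg
    refine Subgroup.mem_normalizer_fintype fun n hn => ?_
    obtain ⟨z, hz, y, hy, rfl⟩ := Subgroup.mem_sup_of_normal_left.1 hn.1
    have hyK : y ∈ K := by
      have := K.mul_mem (K.inv_mem (hZK hz)) hn.2
      simpa using this
    have h2 : g * y * g⁻¹ ∈ S := hPS ((Subgroup.mem_normalizer_iff.1 hg y).1 ⟨hy, hyK⟩)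
    have h3 : g * z * g⁻¹ ∈ S := hZS (Subgroup.Normal.conj_mem inferInstance _ hz _)
    have := S.mul_mem h3 h2
    have e : g * z * g⁻¹ * (g * y * g⁻¹) = g * (z * y) * g⁻¹ := by group
    rwa [e] at this
  -- characters
  obtain ⟨ρ, c0, hρ⟩ := h.sylow (NEmb.ofLeNormal hZR) R.subtype R.subtype_injective
    (fun _ => rfl) hp.out (by rw [NEmb.ofLeNormal_index, ha]) (by
      rw [Subgroup.range_subtype]
      exact fun hd => P.not_dvd_index (hd.trans (Subgroup.index_dvd_of_le le_sup_right)))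
  obtain ⟨σ, c, hσ, hc, hσ1⟩ := h.exists_over (NEmb.ofLeNormal hZS) S.subtype S.subtype_injective
    (fun _ => rfl)
  set ER : NEmb S R := NEmb.ofLe hSR hRn
  set EN : NEmb S N := NEmb.ofLe hSN hNn
  have hcnt := hρ.count (NEmb.ofLeNormal hZS) ER (fun _ => rfl) hσ hc hσ1
  have hcnt' := h.count (NEmb.ofLeNormal hZK) (NEmb.ofNormal K) (fun _ => rfl) hφ hb h1
  rw [NEmb.ofLeNormal_index] at hcnt hcnt'
  have horb : EN.orbit σ = ER.orbit σ := by
    ext τ
    rw [NEmb.mem_orbit, NEmb.mem_orbit]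
    constructor
    · rintro ⟨g, rfl⟩
      refine hρ.conj (NEmb.ofLeNormal hZS) ER (fun _ => rfl) hσ (EN.isIrr_cj hσ g) hc hσ1 hc ?_
      intro n
      rw [NEmb.cj_apply, ← h.inv g n, ← hσ1]
      rfl
    · rintro ⟨g, rfl⟩
      exact ⟨⟨g, hRN g.2⟩, rfl⟩
  set I := EN.inertia σ
  have hI : I.index = (ER.inertia σ).index := by
    rw [← NEmb.card_orbit, ← NEmb.card_orbit, horb]
  rw [← hI, ha'] at hcnt
  rw [← Subgroup.relIndex_mul_relIndex Z S K hZS hSK, ha'] at hcnt'
  -- divisibilities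
  have hθ0 : 0 < charDegree θ := h.irr'.charDegree_pos
  have hcb : c ∣ b := by
    have h2 : IsCharacter S (fun x : S => φ ⟨x, hSK x.2⟩) := hφ.isCharacter.restrict_le hSK
    have h3 := H8.dvd_charDegree_of_constituents h2 (d := c * charDegree θ) (by
      intro η hη hne
      have h4 : classInner (fun n => η ((NEmb.ofLeNormal hZS).f n)) θ ≠ 0 := by
        have h5 := inner_comp_ne_zero (NEmb.ofLeNormal hZS).f h2 hη.isCharacter hne
        have h6 : (fun x => φ ⟨((NEmb.ofLeNormal hZS).f x : S), hSK ((NEmb.ofLeNormal hZS).f x).2⟩)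
            = (b : ℂ) • θ := funext h1
        rw [h6, classInner_smul_left] at h5
        rw [Ne, classInner_eq_zero_symm]
        exact right_ne_zero_of_mul h5
      obtain ⟨c', hc', h5⟩ := h.exists_nat (NEmb.ofLeNormal hZS) S.subtype S.subtype_injective
        (fun _ => rfl) hη h4
      obtain ⟨g, rfl⟩ := hρ.conj (NEmb.ofLeNormal hZS) ER (fun _ => rfl) hσ hη hc hσ1 hc' h5
      rw [← degree_of_res _ h.irr'.isCharacter hσ1]
      apply dvd_of_eq
      symm; apply charDegree_eq_of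
      rw [NEmb.cj_apply_one, hσ.isCharacter.charDegree_cast])
    rw [degree_of_res (NEmb.ofLeNormal hZS) h.irr'.isCharacter (b := b) h1] at h3
    exact Nat.dvd_of_mul_dvd_mul_right hθ0 h3
  have hbc : b ∣ S.relIndex K * c := by
    have h2 : IsCharacter K (indHom (Subgroup.inclusion hSK) σ) :=
      isCharacter_indHom _ hσ.isCharacter
    have h3 := H8.dvd_charDegree_of_constituents h2 (d := b * charDegree θ) (by
      intro η hη hne
      rw [inner_indHom_left _ _ hη.isClassFunction] at hne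
      have h4 : classInner (fun n => η ((NEmb.ofLeNormal hZK).f n)) θ ≠ 0 := by
        have h5 := inner_comp_ne_zero (NEmb.ofLeNormal hZS).f hσ.isCharacter
          (hη.isCharacter.comp (Subgroup.inclusion hSK)) hne
        have h6 : (fun x => σ ((NEmb.ofLeNormal hZS).f x)) = (c : ℂ) • θ := funext hσ1
        rw [h6, classInner_smul_left] at h5
        rw [Ne, classInner_eq_zero_symm]
        exact right_ne_zero_of_mul h5
      obtain ⟨c', hc', h5⟩ := h.exists_nat (NEmb.ofLeNormal hZK) K.subtype K.subtype_injective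
        (fun _ => rfl) hη h4
      obtain ⟨g, rfl⟩ := h.conj (NEmb.ofLeNormal hZK) (NEmb.ofNormal K) (fun _ => rfl) hφ hη hb h1
        hc' h5
      rw [← degree_of_res _ h.irr'.isCharacter h1]
      apply dvd_of_eq
      symm; apply charDegree_eq_of
      rw [NEmb.cj_apply_one, hφ.isCharacter.charDegree_cast])
    have h4 : charDegree (indHom (Subgroup.inclusion hSK) σ) =
        S.relIndex K * c * charDegree θ := by
      apply charDegree_eq_of
      rw [indHom_one_of_injective _ (Subgroup.inclusion_injective hSK), Subgroup.inclusion_range,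
        ← hσ.isCharacter.charDegree_cast, degree_of_res _ h.irr'.isCharacter hσ1]
      push_cast; rw [mul_assoc]; rfl
    rw [h4] at h3
    exact Nat.dvd_of_mul_dvd_mul_right hθ0 h3
  have hs := fr_arith hp.out hcnt hcnt' hu hcb hbc
  rw [← hs]
  -- `K ⊓ N ≤ I`
  set I' := I.map N.subtype
  have hI'N : I' ≤ N := Subgroup.map_subtype_le I
  have hSI : S ≤ I' := by
    intro x hx
    exact ⟨_, EN.f_mem_inertia hσ.isClassFunction ⟨x, hx⟩, rfl⟩
  have hrel : I'.relIndex N = I.index := by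
    rw [Subgroup.relIndex, Subgroup.subgroupOf,
      Subgroup.comap_map_eq_self_of_injective N.subtype_injective]
  have hKI : K ⊓ N ≤ I' := by
    have h2 : I.relIndex (K.subgroupOf N) ∣ I.index := H2.relIndex_dvd_index_of_normal_right _ _
    have h3 : I.relIndex (K.subgroupOf N) = I'.relIndex (K ⊓ N) := by
      rw [← Subgroup.relIndex_map_map_of_injective _ _ N.subtype_injective,
        Subgroup.subgroupOf_map_subtype]
    have h4 : ¬ p ∣ I'.relIndex (K ⊓ N) := fun hd =>
      (hsyl.of_le (le_inf inf_le_right (hPS.trans hSN)) inf_le_left).3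
        (hd.trans (Subgroup.relIndex_dvd_of_le_left _ (hPS.trans hSI)))
    rw [h3, hs] at h2
    rw [← Subgroup.relIndex_eq_one]
    exact (((Nat.Prime.coprime_iff_not_dvd hp.out).2 h4).symm.pow_right _).eq_one_of_dvd h2
  refine ⟨K ⊔ I', le_sup_left, ?_⟩
  have e1 : K.index = K.relIndex N := by
    rw [← Subgroup.relIndex_sup_left N K, hfr, Subgroup.relIndex_top_right]
  have e2 := Subgroup.relIndex_mul_index (le_sup_left : K ≤ K ⊔ I')
  rw [Subgroup.relIndex_sup_left] at e2
  have e3 := Subgroup.relIndex_mul_relIndex (K ⊓ N) I' N hKI hI'N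
  rw [Subgroup.inf_relIndex_right, hrel, ← e1, ← e2] at e3
  have e4 : (K ⊓ N).relIndex I' = K.relIndex I' := by
    rw [← Subgroup.inf_relIndex_right (K ⊓ N), inf_assoc, inf_eq_right.2 hI'N,
      Subgroup.inf_relIndex_right]
  rw [e4] at e3
  exact (Nat.eq_of_mul_eq_mul_left (Nat.pos_of_ne_zero Subgroup.index_ne_zero_of_finite) e3).symm

end Cfsg.Agent.H6
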