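import Cfsg.Agent.H1.SylowIn
import Cfsg.Agent.H2.Basic
import Cfsg.Agent.H2.Perm1
import Cfsg.Agent.S0989
import Mathlib

/-! Hall subgroups of symmetric and alternating groups, part 1: arithmetic and basic tools. -/

set_option autoImplicit false

namespace Cfsg.Agent.H6.HS

open Equiv Equiv.Perm Subgroup MulAction Cfsg.Agent.H1
open scoped Pointwise

theorem cop_of_small {c C m : ℕ} (h : ∀ p, p.Prime → p ≤ m → ¬ p ∣ C)
    (hc : ∀ p, p.Prime → p ∣ c → p ≤ m) : c.Coprime C := by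
  rw [Nat.coprime_iff_gcd_eq_one]
  by_contra hne
  obtain ⟨p, hp, hd⟩ := Nat.exists_prime_and_dvd hne
  exact h p hp (hc p hp (hd.trans (Nat.gcd_dvd_left _ _))) (hd.trans (Nat.gcd_dvd_right _ _))

theorem le_half_of_not_prime {c p : ℕ} (hc : ¬ c.Prime) (hc0 : c ≠ 0) (hp : p.Prime) (hd : p ∣ c) :
    2 * p ≤ c := by
  obtain ⟨s, rfl⟩ := hd
  have h0 : s ≠ 0 := by rintro rfl; simp at hc0
  have h1 : s ≠ 1 := by rintro rfl; simp at hc; exact hc hp
  have : 2 ≤ s := by omega
  nlinarith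

theorem not_prime_of_even {c : ℕ} (h2 : c % 2 = 0) (h4 : 3 ≤ c) : ¬ c.Prime := by
  intro hp
  rcases hp.eq_two_or_odd with h | h <;> omega

theorem nt (m k : ℕ) (hk : 1 ≤ k) (hkm : k < m)
    (h : ∀ p, p.Prime → p ≤ m → ¬ p ∣ (m + k).choose k) :
    (k = 1 ∧ (m + 1).Prime) ∨ (m = 4 ∧ k = 3) := by
  have cop : ∀ c, ¬ c.Prime → c ≠ 0 → c ≤ 2 * m → c.Coprime ((m + k).choose k) := by
    intro c hc hc0 hcm
    refine cop_of_small h fun p hp hd => ?_
    have := le_half_of_not_prime hc hc0 hp hd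
    omega
  obtain ⟨j, rfl⟩ : ∃ j, k = j + 1 := ⟨k - 1, by omega⟩
  have hn : (m + (j + 1)).Prime := by
    by_contra hn
    have e := Nat.add_one_mul_choose_eq (m + j) j
    have hd : m + (j + 1) ∣ (m + (j + 1)).choose (j + 1) * (j + 1) := ⟨_, e.symm⟩
    have := Nat.le_of_dvd (by omega)
      ((cop _ hn (by omega) (by omega)).dvd_of_dvd_mul_left hd)
    omega
  rcases Nat.eq_zero_or_pos j with rfl | hj
  · exact Or.inl ⟨rfl, hn⟩
  right
  obtain ⟨i, rfl⟩ : ∃ i, j = i + 1 := ⟨j - 1, by omega⟩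
  set n := m + (i + 1 + 1) with hndef
  set C := n.choose (i + 1 + 1) with hC
  have e1 : C * (i + 1 + 1) = n.choose (i + 1) * (m + 1) := by
    rw [hC, Nat.choose_succ_right_eq, show n - (i + 1) = m + 1 by omega]
  have e2 : n.choose (i + 1) * (i + 1) = n.choose i * (m + 2) := by
    rw [Nat.choose_succ_right_eq, show n - i = m + 2 by omega]
  have e3 : n.choose (i + 1 + 1 + 1) * (i + 1 + 1 + 1) = C * m := by
    rw [hC, Nat.choose_succ_right_eq, show n - (i + 1 + 1) = m by omega]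
  have hm1 : (m + 1).Prime := by
    by_contra hm
    have hd : m + 1 ∣ C * (i + 1 + 1) := ⟨_, by rw [e1, mul_comm]⟩
    have := Nat.le_of_dvd (by omega)
      ((cop _ hm (by omega) (by omega)).dvd_of_dvd_mul_left hd)
    omega
  have hmev : m % 2 = 0 := by
    rcases hm1.eq_two_or_odd with h | h <;> omega
  have hnodd : n % 2 = 1 := by
    rcases hn.eq_two_or_odd with h | h <;> omega
  have d1 : i + 3 ∣ m := by
    have hd : i + 3 ∣ C * m := ⟨_, by rw [← e3, mul_comm]⟩
    refine Nat.Coprime.dvd_of_dvd_mul_left (cop_of_small h fun p _ hp => ?_) hd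
    have := Nat.le_of_dvd (by omega) hp
    omega
  have d2 : m + 2 ∣ (i + 2) * (i + 1) := by
    have hd : m + 2 ∣ C * ((i + 2) * (i + 1)) := by
      refine ⟨n.choose i * (m + 1), ?_⟩
      calc C * ((i + 2) * (i + 1)) = (C * (i + 1 + 1)) * (i + 1) := by ring
        _ = (n.choose (i + 1) * (i + 1)) * (m + 1) := by rw [e1]; ring
        _ = _ := by rw [e2]; ring
    exact (cop _ (not_prime_of_even (by omega) (by omega)) (by omega)
      (by omega)).dvd_of_dvd_mul_left hd
  have d3 : m + i + 1 ∣ (i + 2) * (i + 1) := by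
    have f1 := Nat.add_one_mul_choose_eq (m + i + 1) (i + 1)
    have f2 := Nat.add_one_mul_choose_eq (m + i) i
    have hd : m + i + 1 ∣ C * ((i + 2) * (i + 1)) := by
      refine ⟨(m + i + 1 + 1) * (m + i).choose i, ?_⟩
      have f1' : C * (i + 1 + 1) = (m + i + 1 + 1) * (m + i + 1).choose (i + 1) := f1.symm
      calc C * ((i + 2) * (i + 1)) = (C * (i + 1 + 1)) * (i + 1) := by ring
        _ = (m + i + 1 + 1) * ((m + i + 1).choose (i + 1) * (i + 1)) := by rw [f1']; ring
        _ = _ := by rw [← f2]; ring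
    exact (cop _ (not_prime_of_even (by omega) (by omega)) (by omega)
      (by omega)).dvd_of_dvd_mul_left hd
  obtain ⟨w, hw⟩ := d1
  obtain ⟨s, hs⟩ := d3
  have d4 : i + 3 ∣ 2 * (s + 1) := by
    have : ((i + 3 : ℕ) : ℤ) ∣ ((2 * (s + 1) : ℕ) : ℤ) := by
      refine ⟨s * w + s - i, ?_⟩
      have hs' : ((i : ℤ) + 2) * (i + 1) = (m + i + 1) * s := by exact_mod_cast hs
      have hw' : (m : ℤ) = (i + 3) * w := by exact_mod_cast hw
      push_cast
      rw [hw'] at hs'
      linear_combination hs'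
    exact_mod_cast this
  have d5 := Nat.le_of_dvd (by omega) d4
  have d6 : m ≤ i + 3 := by
    by_contra hlt
    have h1 : 2 * i + 5 ≤ m + i + 1 := by omega
    have h2 : i + 1 ≤ 2 * s := by omega
    nlinarith
  have hm : m = i + 3 := by omega
  have d7 : i + 5 ∣ 12 := by
    rw [hm] at d2
    have : ((i + 5 : ℕ) : ℤ) ∣ (12 : ℕ) := by
      obtain ⟨t, ht⟩ := d2
      refine ⟨t - (i - 2), ?_⟩
      have ht' : ((i : ℤ) + 2) * (i + 1) = (i + 3 + 2) * t := by exact_mod_cast ht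
      push_cast
      linear_combination ht'
    exact_mod_cast this
  have d8 := Nat.le_of_dvd (by norm_num) d7
  have hi : i = 1 ∨ i = 7 := by
    have : i ≤ 7 := by omega
    interval_cases i <;> simp_all
  rcases hi with rfl | rfl
  · omega
  · exfalso
    subst hm
    exact h 2 Nat.prime_two (by norm_num) (by decide +kernel)

theorem nt2 (N : ℕ) (hN : 5 ≤ N) (hodd : N % 2 = 1)
    (h : ∀ p, p.Prime → p ∣ N → ¬ p ∣ (2 * (2 * N - 2)).choose (2 * N - 2)) : False := by
  obtain ⟨a, ha⟩ : ∃ a, a + 2 = 2 * N := ⟨2 * N - 2, by omega⟩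
  rw [show 2 * N - 2 = a by omega] at h
  have e1 : (2 * a).choose (a + 1) * (a + 1) = (2 * a).choose a * a := by
    rw [Nat.choose_succ_right_eq, show 2 * a - a = a by omega]
  have e2 : (2 * a).choose (a + 1 + 1) * (a + 1 + 1) = (2 * a).choose (a + 1) * (a - 1) := by
    rw [Nat.choose_succ_right_eq, show 2 * a - (a + 1) = a - 1 by omega]
  have hc : N.Coprime ((2 * a).choose a) := by
    rw [Nat.coprime_iff_gcd_eq_one]
    by_contra hne
    obtain ⟨p, hp, hd⟩ := Nat.exists_prime_and_dvd hne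
    exact h p hp (hd.trans (Nat.gcd_dvd_left _ _)) (hd.trans (Nat.gcd_dvd_right _ _))
  have hd : N ∣ (2 * a).choose a * (a * (a - 1)) := by
    refine ⟨2 * (2 * a).choose (a + 1 + 1) * (a + 1), ?_⟩
    calc (2 * a).choose a * (a * (a - 1)) = ((2 * a).choose a * a) * (a - 1) := by ring
      _ = ((2 * a).choose (a + 1) * (a - 1)) * (a + 1) := by rw [← e1]; ring
      _ = (2 * a).choose (a + 1 + 1) * (a + 2) * (a + 1) := by rw [← e2]
      _ = _ := by rw [ha]; ring
  have hd2 := hc.dvd_of_dvd_mul_left hd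
  have hd3 : N ∣ 6 := by
    obtain ⟨b, rfl⟩ : ∃ b, a = b + 1 := ⟨a - 1, by omega⟩
    rw [Nat.add_sub_cancel] at hd2
    have : (N : ℤ) ∣ (6 : ℕ) := by
      obtain ⟨t, ht⟩ := hd2
      have ht' : ((b : ℤ) + 1) * b = N * t := by exact_mod_cast ht
      have ha' : (b : ℤ) + 1 + 2 = 2 * N := by exact_mod_cast ha
      refine ⟨t - 4 * N + 10, ?_⟩
      have hb : (b : ℤ) = 2 * N - 3 := by linarith
      rw [hb] at ht'
      push_cast
      linear_combination ht'
    exact_mod_cast this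
  have := Nat.le_of_dvd (by norm_num) hd3
  interval_cases N <;> simp_all

theorem exists_top_pow {p m : ℕ} (hp : p.Prime) (hm : p ≤ m) :
    ∃ e, 1 ≤ e ∧ p ^ e ≤ m ∧ m < p * p ^ e := by
  have hm0 : m ≠ 0 := by have := hp.pos; omega
  refine ⟨Nat.log p m, ?_, Nat.pow_log_le_self p hm0, ?_⟩
  · exact Nat.log_pos hp.one_lt hm
  · rw [← pow_succ']; exact Nat.lt_pow_succ_log_self hp.one_lt m

variable {Ω : Type} [Fintype Ω] [DecidableEq Ω]

/-- setwise stabilizer of a finset -/
def St (B : Finset Ω) : Subgroup (Perm Ω) where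
  carrier := {g | ∀ x, g x ∈ B ↔ x ∈ B}
  mul_mem' := fun {g h} hg hh x => by rw [Perm.mul_apply, hg, hh]
  one_mem' := fun _ => Iff.rfl
  inv_mem' := fun {g} hg x => by rw [← hg (g⁻¹ x)]; simp

theorem mem_St {B : Finset Ω} {g : Perm Ω} : g ∈ St B ↔ ∀ x, g x ∈ B ↔ x ∈ B := Iff.rfl

theorem smul_eq_iff {B B' : Finset Ω} {g : Perm Ω} : g • B = B' ↔ ∀ x, g x ∈ B' ↔ x ∈ B := by
  constructor
  · rintro rfl x
    exact Finset.smul_mem_smul_finset_iff g
  · intro h
    ext y
    rw [← Finset.inv_smul_mem_iff, ← h]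
    simp

theorem mem_St_iff_smul {B : Finset Ω} {g : Perm Ω} : g ∈ St B ↔ g • B = B := smul_eq_iff.symm

/-- even permutations supported in `B` -/
def AB (B : Finset Ω) : Subgroup (Perm Ω) where
  carrier := {g | (∀ x, x ∉ B → g x = x) ∧ sign g = 1}
  mul_mem' := fun {g h} hg hh =>
    ⟨fun x hx => by rw [Perm.mul_apply, hh.1 x hx, hg.1 x hx], by rw [map_mul, hg.2, hh.2, mul_one]⟩
  one_mem' := ⟨fun _ _ => rfl, map_one _⟩
  inv_mem' := fun {g} hg => ⟨fun x hx => by rw [Perm.inv_eq_iff_eq, hg.1 x hx], by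
    rw [sign_inv, hg.2]⟩

theorem mem_AB {B : Finset Ω} {g : Perm Ω} :
    g ∈ AB B ↔ (∀ x, x ∉ B → g x = x) ∧ sign g = 1 := Iff.rfl

theorem AB_le (B : Finset Ω) : AB B ≤ alternatingGroup Ω := fun _ hg => hg.2

theorem AB_eq (B : Finset Ω) :
    (alternatingGroup B).map (Perm.ofSubtype : Perm B →* Perm Ω) = AB B := by
  rw [alternatingGroup.map_ofSubtype]
  ext g
  rw [mem_inf, Perm.mem_range_ofSubtype_iff, mem_AB, mem_alternatingGroup]
  refine and_congr_left fun _ => ⟨fun h x hx => ?_, fun h x hx => ?_⟩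
  · by_contra hne
    exact hx (h (by simpa using hne))
  · by_contra hne
    simp only [Finset.mem_coe, mem_support] at hx
    exact hx (h x hne)

theorem St_le_normalizer (B : Finset Ω) : St B ≤ normalizer (AB B : Set (Perm Ω)) := by
  have key : ∀ g ∈ St B, ∀ h ∈ AB B, g * h * g⁻¹ ∈ AB B := by
    intro g hg h hh
    refine ⟨fun x hx => ?_, by simp [hh.2]⟩
    have : g⁻¹ x ∉ B := fun h' => hx (by simpa using (hg (g⁻¹ x)).2 h')
    rw [Perm.mul_apply, Perm.mul_apply, hh.1 _ this]; simp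
  intro g hg
  rw [mem_normalizer_iff]
  intro h
  refine ⟨key g hg h, fun hh => ?_⟩
  simpa [mul_assoc] using key g⁻¹ (inv_mem hg) _ hh

theorem exists_alt_smul (h3 : 3 ≤ Fintype.card Ω) {B B' : Finset Ω} (h : B.card = B'.card) :
    ∃ g ∈ alternatingGroup Ω, g • B = B' := by
  have := Set.powersetCard.isPretransitive_alternatingGroup (α := Ω) (n := B.card)
    (by rwa [Nat.card_eq_fintype_card])
  obtain ⟨g, hg⟩ := this.exists_smul_eq (Set.powersetCard.ofCard rfl)
    (Set.powersetCard.ofCard h.symm)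
  refine ⟨g, g.2, ?_⟩
  have := congrArg Subtype.val hg
  exact this

theorem relIndex_St (h3 : 3 ≤ Fintype.card Ω) {G : Subgroup (Perm Ω)}
    (hG : alternatingGroup Ω ≤ G) (B : Finset Ω) :
    (St B).relIndex G = (Fintype.card Ω).choose B.card := by
  have : IsPretransitive G (Set.powersetCard Ω B.card) := by
    refine ⟨fun s t => ?_⟩
    obtain ⟨g, hg, hs⟩ := exists_alt_smul h3 (B := s.1) (B' := t.1) (s.2.trans t.2.symm)
    exact ⟨⟨g, hG hg⟩, Subtype.ext hs⟩
  have h1 := index_stabilizer_of_transitive G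
    (Set.powersetCard.ofCard (α := Ω) (n := B.card) (s := B) rfl)
  rw [Set.powersetCard.card, Nat.card_eq_fintype_card] at h1
  rw [← h1, relIndex]
  congr 1
  ext g
  rw [mem_subgroupOf, mem_St_iff_smul, mem_stabilizer_iff, Subtype.ext_iff]
  rfl

/-- `K` is a `π`-group meeting the alternating group in a Hall `π`-subgroup. -/
structure Good (π : Set ℕ) (K : Subgroup (Perm Ω)) : Prop where
  pi : ∀ p, p.Prime → p ∣ Nat.card K → p ∈ π
  hall : ∀ p, p.Prime → p ∈ π → ¬ p ∣ K.relIndex (alternatingGroup Ω)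

variable {π : Set ℕ} {K : Subgroup (Perm Ω)}

theorem exists_sylowIn_le {G : Type*} [Group G] [Finite G] {p : ℕ} [Fact p.Prime]
    {K M : Subgroup G} (h : ¬ p ∣ K.relIndex M) : ∃ P, IsSylowIn p P M ∧ P ≤ K := by
  obtain ⟨P, hP⟩ := exists_isSylowIn p (K ⊓ M)
  refine ⟨P, hP.trans inf_le_right (by rwa [inf_relIndex_right]), hP.le.trans inf_le_left⟩

theorem not_dvd_of_sylowIn {G : Type*} [Group G] {p : ℕ} {K M P : Subgroup G}
    (h : IsSylowIn p P M) (hK : P ≤ K) : ¬ p ∣ K.relIndex M :=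
  fun hd => h.not_dvd (hd.trans (relIndex_dvd_of_le_left M hK))

theorem Good.sylow (hK : Good π K) {p : ℕ} (hp : p.Prime) (hπ : p ∈ π) :
    ∃ P, IsSylowIn p P (alternatingGroup Ω) ∧ P ≤ K :=
  haveI := Fact.mk hp
  exists_sylowIn_le (hK.hall p hp hπ)

theorem Good.conj (hK : Good π K) {p : ℕ} (hp : p.Prime) (hπ : p ∈ π) {U : Subgroup (Perm Ω)}
    (hU : U ≤ alternatingGroup Ω) (hUp : IsPGroup p U) :
    ∃ g : Perm Ω, ∀ u ∈ U, g⁻¹ * u * g ∈ K := by
  haveI := Fact.mk hp
  obtain ⟨P, hP, hPK⟩ := hK.sylow hp hπ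
  obtain ⟨g, -, hg⟩ := hP.exists_le_conj hU hUp
  refine ⟨g, fun u hu => hPK ?_⟩
  have := hg hu
  rw [mem_pointwise_smul_iff_inv_smul_mem] at this
  simpa using this

theorem Good.cycle (hK : Good π K) {p : ℕ} (hp : p.Prime) (hπ : p ∈ π) (hodd : p ≠ 2)
    (hle : p ≤ Fintype.card Ω) : ∃ c ∈ K, c.IsCycle ∧ c.support.card = p := by
  obtain ⟨c, hc⟩ := (exists_with_cycleType_iff Ω (m := {p})).2
    ⟨by simpa using hle, by simpa using hp.two_le⟩
  have hcyc : c.IsCycle := card_cycleType_eq_one.1 (by rw [hc]; rfl)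
  have hsup : c.support.card = p := by
    have := hcyc.cycleType
    rw [hc] at this
    exact (Multiset.singleton_inj.1 this).symm
  have hord : orderOf c = p := by rw [hcyc.orderOf, hsup]
  obtain ⟨g, hg⟩ := hK.conj hp hπ (U := zpowers c) (by
    rw [zpowers_le, mem_alternatingGroup, hcyc.sign, hsup, (hp.odd_of_ne_two hodd).neg_one_pow]
    simp) (IsPGroup.of_card (n := 1) (by rw [Nat.card_zpowers, hord, pow_one]))
  refine ⟨_, hg c (mem_zpowers c), ?_, ?_⟩
  · simpa using hcyc.conj (g := g⁻¹)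
  · have := card_support_conj (σ := g⁻¹) (τ := c)
    simpa [hsup] using this

theorem Good.orb (hK : Good π K) {p e : ℕ} (hp : p.Prime) (hπ : p ∈ π) (h3 : 3 ≤ p ^ e)
    (hle : p ^ e ≤ Fintype.card Ω) : ∃ C : Finset Ω, C.card = p ^ e ∧
      ∀ x ∈ C, ∀ y ∈ C, ∃ g ∈ K, g x = y ∧ ∀ z, z ∉ C → g z = z := by
  haveI := Fact.mk hp
  obtain ⟨C, -, hC⟩ := Finset.exists_subset_card_eq (s := (Finset.univ : Finset Ω)) (n := p ^ e)
    (by simpa using hle)
  have hCc : Nat.card C = p ^ e := by simp [hC]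
  haveI := alternatingGroup.isPretransitive_of_three_le_card C (by omega)
  obtain ⟨Q⟩ : Nonempty (Sylow p (alternatingGroup C)) := inferInstance
  have hQ := H2.Pm.sylow_trans hCc Q
  let U : Subgroup (Perm Ω) := ((Q : Subgroup (alternatingGroup C)).map
    (alternatingGroup C).subtype).map (Perm.ofSubtype : Perm C →* Perm Ω)
  have hUA : U ≤ AB C := by
    rw [← AB_eq]
    exact map_mono (map_subtype_le _)
  obtain ⟨g, hg⟩ := hK.conj hp hπ (hUA.trans (AB_le C)) ((Q.isPGroup'.map _).map _)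
  refine ⟨g⁻¹ • C, by rw [Finset.card_smul_finset, hC], fun x hx y hy => ?_⟩
  rw [← Finset.inv_smul_mem_iff, inv_inv] at hx hy
  obtain ⟨q, hq⟩ := hQ.exists_smul_eq (⟨g x, hx⟩ : C) ⟨g y, hy⟩
  have hu : Perm.ofSubtype (q.1.1 : Perm C) ∈ U := mem_map_of_mem _ (mem_map_of_mem _ q.2)
  refine ⟨_, hg _ hu, ?_, fun z hz => ?_⟩
  · have h1 : Perm.ofSubtype (q.1.1 : Perm C) (g x) = g y := by
      rw [Perm.ofSubtype_apply_of_mem _ (show g x ∈ C from hx)]
      exact congrArg Subtype.val hq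
    simp [h1]
  · rw [← Finset.inv_smul_mem_iff, inv_inv] at hz
    have h1 := (hUA hu).1 (g z) hz
    simp [h1]

theorem not_dvd_choose (h3 : 3 ≤ Fintype.card Ω) {p : ℕ} {P : Subgroup (Perm Ω)}
    (hP : IsSylowIn p P (alternatingGroup Ω)) {B : Finset Ω} (hB : P ≤ St B) :
    ¬ p ∣ (Fintype.card Ω).choose B.card := by
  rw [← relIndex_St h3 le_rfl]
  exact not_dvd_of_sylowIn hP hB

/-- the constituent of `K` on `B` -/
def con (K : Subgroup (Perm Ω)) (B : Finset Ω) : Subgroup (Perm B) where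
  carrier := {σ | ∃ k ∈ K, ∀ x : B, (σ x : Ω) = k x}
  mul_mem' := by
    rintro σ τ ⟨k, hk, h1⟩ ⟨l, hl, h2⟩
    exact ⟨k * l, mul_mem hk hl, fun x => by rw [Perm.mul_apply, h1, h2, Perm.mul_apply]⟩
  one_mem' := ⟨1, one_mem _, fun _ => rfl⟩
  inv_mem' := by
    rintro σ ⟨k, hk, h1⟩
    refine ⟨k⁻¹, inv_mem hk, fun x => ?_⟩
    rw [Perm.eq_inv_iff_eq, ← h1]; simp

theorem con_good (hK : ∀ p, p.Prime → p ∣ Nat.card K → p ∈ π) {B : Finset Ω}
    (h : ∀ p, p.Prime → p ∈ π → ¬ p ∣ K.relIndex (AB B)) : Good π (con K B) := by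
  constructor
  · intro p hp hd
    haveI := Fact.mk hp
    obtain ⟨σ, hσ⟩ := exists_prime_orderOf_dvd_card' p hd
    obtain ⟨k, hk, h1⟩ := σ.2
    have h2 : ∀ n : ℕ, ∀ x : B, ((σ.1 ^ n) x : Ω) = (k ^ n) x := by
      intro n
      induction n with
      | zero => intro x; rfl
      | succ n ih => intro x; rw [pow_succ', pow_succ', Perm.mul_apply, Perm.mul_apply, h1, ih]
    have h3 : σ ^ Nat.card K = 1 := by
      ext x
      have h4 : k ^ Nat.card K = 1 := by
        have := pow_card_eq_one' (x := (⟨k, hk⟩ : K))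
        exact congrArg Subtype.val this
      have := h2 (Nat.card K) x
      rw [h4] at this
      simpa using this
    exact hK p hp (hσ ▸ orderOf_dvd_of_pow_eq_one h3)
  · intro p hp hπ hd
    refine h p hp hπ ?_
    rw [← AB_eq, ← relIndex_comap]
    refine hd.trans (relIndex_dvd_of_le_left _ fun σ hσ => ?_)
    exact ⟨_, hσ, fun x => (Perm.ofSubtype_apply_coe σ x).symm⟩

theorem con_trans {B : Finset Ω}
    (h : ∀ x ∈ B, ∀ y ∈ B, ∃ k ∈ K, k ∈ St B ∧ k x = y) : IsPretransitive (con K B) B := by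
  refine ⟨fun x y => ?_⟩
  obtain ⟨k, hk, hkB, hxy⟩ := h x x.2 y y.2
  exact ⟨⟨k.subtypePerm hkB, k, hk, fun _ => rfl⟩, Subtype.ext hxy⟩

theorem prime_mem_of_alt_le (hK : Good π K) (hA : alternatingGroup Ω ≤ K) {p : ℕ} (hp : p.Prime)
    (hle : p ≤ Fintype.card Ω) (h4 : p ≠ 2 ∨ 4 ≤ Fintype.card Ω) : p ∈ π := by
  refine hK.pi p hp (Dvd.dvd.trans ?_ (card_dvd_of_le hA))
  haveI : Nontrivial Ω := Fintype.one_lt_card_iff_nontrivial.1 (by have := hp.two_le; omega)
  have h1 : 2 * Nat.card (alternatingGroup Ω) = (Fintype.card Ω).factorial := by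
    rw [two_mul_nat_card_alternatingGroup, Nat.card_perm, Nat.card_eq_fintype_card]
  by_cases h2 : p = 2
  · subst h2
    have h5 : 24 ∣ (Fintype.card Ω).factorial :=
      Nat.factorial_dvd_factorial (show 4 ≤ Fintype.card Ω by omega)
    omega
  · have h5 : p ∣ 2 * Nat.card (alternatingGroup Ω) := h1 ▸ (hp.dvd_factorial).2 hle
    exact (Nat.Coprime.dvd_of_dvd_mul_left ((Nat.coprime_primes hp Nat.prime_two).2 h2) h5)

/-- a solvable group containing a `q`-cycle and fixing all points outside it normalizes it -/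
theorem le_normalizer_of_solvable {L : Subgroup (Perm Ω)} (hL : Group.IsSolvable L) {y : Perm Ω}
    (hyL : y ∈ L) (hy : y.IsCycle) {q : ℕ} (hq : q.Prime) (hyq : y.support.card = q)
    (hn : Fintype.card Ω < 2 * q) (hfix : ∀ g ∈ L, ∀ x, x ∉ y.support → g x = x) :
    L ≤ normalizer (zpowers y : Set (Perm Ω)) := by
  haveI := Fact.mk hq
  have hord : orderOf y = q := by rw [hy.orderOf, hyq]
  haveI : Nontrivial L := by
    refine ⟨⟨⟨y, hyL⟩, 1, fun h => hy.ne_one (congrArg Subtype.val h)⟩⟩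
  obtain ⟨M, hM, -, r, hr, hMr⟩ := H2.exists_isMinNormal_of_isSolvable (G := L)
  haveI := hM.normal
  set N := M.map L.subtype with hN
  have hNL : N ≤ L := map_subtype_le _
  have hNr : IsPGroup r N := hMr.map _
  have hLN : L ≤ normalizer (N : Set (Perm Ω)) := by
    have := le_normalizer_map (H := M) L.subtype
    rwa [normalizer_eq_top, ← MonoidHom.range_eq_map, range_subtype] at this
  have hNne : N ≠ ⊥ := by
    rw [hN, Ne, map_eq_bot_iff_of_injective _ L.subtype_injective]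
    exact hM.ne_bot
  obtain ⟨x, hxN, hx1⟩ := (N.bot_or_exists_ne_one).resolve_left hNne
  obtain ⟨u, hu⟩ : ∃ u, x u ≠ u := by
    by_contra h
    push Not at h
    exact hx1 (Equiv.ext h)
  have hus : u ∈ y.support := by
    by_contra h
    exact hu (hfix x (hNL hxN) u h)
  have hst : ∀ g ∈ L, ∀ v ∈ y.support, g v ∈ y.support := by
    intro g hg v hv
    by_contra h
    have := g.injective (hfix g hg _ h)
    exact h (this.symm ▸ hv)
  obtain ⟨i, hi⟩ := hy.exists_pow_eq (mem_support.1 hus) (mem_support.1 (hst x (hNL hxN) u hus))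
  set g := y ^ i with hg
  have hgL : g ∈ L := pow_mem hyL i
  have hg1 : g ≠ 1 := by
    intro h
    rw [h] at hi
    exact hu hi.symm
  have horb : ∀ k : ℕ, ∃ n ∈ N, n u = (g ^ k) u := by
    intro k
    induction k with
    | zero => exact ⟨1, one_mem _, rfl⟩
    | succ k ih =>
      obtain ⟨n, hn, h⟩ := ih
      refine ⟨g * n * g⁻¹ * x, mul_mem ((mem_normalizer_iff.1 (hLN hgL) n).1 hn) hxN, ?_⟩
      rw [pow_succ', Perm.mul_apply, Perm.mul_apply, Perm.mul_apply, ← hi, Perm.mul_apply, ← h]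
      simp
  have hyg : y ∈ Submonoid.powers g := by
    have h1 : (⟨y, mem_zpowers y⟩ : zpowers y) ∈
        Submonoid.powers (⟨g, pow_mem (mem_zpowers y) i⟩ : zpowers y) :=
      mem_powers_of_prime_card (p := q) (by rw [Nat.card_zpowers, hord])
        (fun h => hg1 (congrArg Subtype.val h))
    obtain ⟨k, hk⟩ := h1
    exact ⟨k, congrArg Subtype.val hk⟩
  have horb2 : orbit N u = (y.support : Set Ω) := by
    ext v
    constructor
    · rintro ⟨n, rfl⟩
      exact hst n (hNL n.2) u hus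
    · intro hv
      obtain ⟨j, hj⟩ := hy.exists_pow_eq (mem_support.1 hus) (mem_support.1 hv)
      obtain ⟨k, hk⟩ := hyg
      obtain ⟨n, hn, h⟩ := horb (k * j)
      refine ⟨⟨n, hn⟩, ?_⟩
      change n u = v
      have hk' : g ^ k = y := hk
      rw [h, pow_mul, hk', hj]
  have hqN : q ∣ Nat.card N := by
    have := H2.Pm.ncard_orbit_dvd (G := N) u
    rwa [horb2, Set.ncard_coe_finset, hyq] at this
  have hrq : r = q := by
    haveI := Fact.mk hr
    obtain ⟨k, hk⟩ := hNr.exists_card_eq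
    rw [hk] at hqN
    exact ((Nat.prime_dvd_prime_iff_eq hq hr).1 (hq.dvd_of_dvd_pow hqN)).symm
  subst hrq
  have hS : IsSylowIn r (zpowers y) L := by
    refine ⟨by rwa [zpowers_le], IsPGroup.of_card (n := 1) (by rw [Nat.card_zpowers, hord, pow_one]),
      fun hd => ?_⟩
    have h1 : r * r ∣ Nat.card L := by
      rw [← card_mul_relIndex (show zpowers y ≤ L by rwa [zpowers_le]), Nat.card_zpowers, hord]
      exact Nat.mul_dvd_mul_left _ hd
    have h2 : r * r ∣ (Fintype.card Ω).factorial := by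
      refine h1.trans ?_
      rw [← Nat.card_eq_fintype_card, ← Nat.card_perm]
      exact card_subgroup_dvd_card L
    have h3 : r * r ∣ (2 * r - 1).factorial := h2.trans (Nat.factorial_dvd_factorial (by omega))
    have h4 := (hr.pow_dvd_factorial_iff (n := 2 * r - 1) (r := 2) (b := 2) (by
      rw [Nat.log_lt_iff_lt_pow hr.one_lt (by have := hr.two_le; omega)]
      have := hr.two_le
      have : 2 * r ≤ r ^ 2 := by nlinarith
      omega)).1 (by rwa [sq])
    simp only [Nat.Ico_succ_singleton, Finset.sum_singleton, pow_one] at h4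
    have := (Nat.le_div_iff_mul_le hr.pos).1 h4
    have := hr.pos
    omega
  have hle : N ≤ zpowers y := hS.le_of_le_normalizer hNL hNr (hS.le.trans hLN)
  have heq : N = zpowers y := by
    refine eq_of_le_of_card_ge hle ?_
    rw [Nat.card_zpowers, hord]
    exact Nat.le_of_dvd Nat.card_pos hqN
  rwa [heq] at hLN

theorem card_dvd_of_solvable {L : Subgroup (Perm Ω)} (hL : Group.IsSolvable L) {y : Perm Ω}
    (hyL : y ∈ L) (hy : y.IsCycle) {q : ℕ} (hq : q.Prime) (hq2 : q ≠ 2) (hyq : y.support.card = q)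
    (hn : Fintype.card Ω = q ∨ Fintype.card Ω = q + 1)
    (hfix : ∀ g ∈ L, ∀ x, x ∉ y.support → g x = x) : Nat.card L ∣ q * (q - 1) := by
  haveI := Fact.mk hq
  have h3 : 3 ≤ q := by have := hq.two_le; omega
  have h1 := le_normalizer_of_solvable hL hyL hy hq hyq (by omega) hfix
  have hord : orderOf y = q := by rw [hy.orderOf, hyq]
  have hc : Nat.card (zpowers y) = q ^ (Nat.card (Perm Ω)).factorization q := by
    rw [Nat.card_zpowers, hord, Nat.card_perm, Nat.card_eq_fintype_card,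
      Nat.factorization_factorial hq (b := 2) (by
        rw [Nat.log_lt_iff_lt_pow hq.one_lt (by omega)]
        have : 2 * q ≤ q ^ 2 := by nlinarith
        omega)]
    simp only [Nat.Ico_succ_singleton, Finset.sum_singleton, pow_one]
    rw [show Fintype.card Ω / q = 1 from Nat.div_eq_of_lt_le (by omega) (by omega), pow_one]
  have h2 := Cfsg.Agent.S0989.result q hn (Sylow.ofCard (zpowers y) hc)
  rw [← h2]
  exact card_dvd_of_le h1

end Cfsg.Agent.H6.HS
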