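import Cfsg.Agent.H6.HallSym1
import Cfsg.Agent.S0713
import Cfsg.Agent.S0675
import Cfsg.Agent.S0144

/-! Hall subgroups of symmetric and alternating groups, part 2: the transitive case. -/

set_option autoImplicit false

namespace Cfsg.Agent.H6.HS

open Equiv Equiv.Perm Subgroup MulAction Cfsg.Agent.H1
open scoped Pointwise

/-- at least two primes of `π` are at most `m` -/
def Two (π : Set ℕ) (m : ℕ) : Prop :=
  ∃ r s : ℕ, r.Prime ∧ s.Prime ∧ r ≠ s ∧ r ∈ π ∧ s ∈ π ∧ r ≤ m ∧ s ≤ m

theorem Two.other {π : Set ℕ} {m : ℕ} (h : Two π m) (t : ℕ) :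
    ∃ q, q.Prime ∧ q ∈ π ∧ q ≤ m ∧ q ≠ t := by
  obtain ⟨r, s, hr, hs, hrs, hrπ, hsπ, hrm, hsm⟩ := h
  by_cases h : r = t
  · exact ⟨s, hs, hsπ, hsm, fun h' => hrs (h.trans h'.symm)⟩
  · exact ⟨r, hr, hrπ, hrm, h⟩

theorem Two.three_le {π : Set ℕ} {m : ℕ} (h : Two π m) : 3 ≤ m := by
  obtain ⟨q, hq, -, hm, h2⟩ := h.other 2
  have := hq.two_le
  omega

theorem solvable_of_two {G : Type*} [Group G] [Finite G] {p q : ℕ} (hp : p.Prime) (hq : q.Prime)
    (h : ∀ r, r.Prime → r ∣ Nat.card G → r = p ∨ r = q) : Group.IsSolvable G := by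
  obtain ⟨a, n', hn', he⟩ := Nat.exists_eq_pow_mul_and_not_dvd (Nat.card_pos (α := G)).ne' p hp.ne_one
  have h0 : n' ≠ 0 := by rintro rfl; simp at hn'
  have h1 := Nat.eq_prime_pow_of_unique_prime_dvd (p := q) h0 (fun {d} hd hdn => by
    rcases h d hd (he ▸ hdn.mul_left _) with rfl | h2
    · exact absurd hdn hn'
    · exact h2)
  exact Cfsg.Agent.S0144.result p q a _ hp hq (by rw [he, ← h1])

variable {Ω : Type} [Fintype Ω] [DecidableEq Ω] {π : Set ℕ} {K : Subgroup (Perm Ω)}

theorem card_alt (h : 2 ≤ Fintype.card Ω) :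
    2 * Nat.card (alternatingGroup Ω) = (Fintype.card Ω).factorial := by
  haveI : Nontrivial Ω := Fintype.one_lt_card_iff_nontrivial.1 (by omega)
  rw [two_mul_nat_card_alternatingGroup, Nat.card_perm, Nat.card_eq_fintype_card]

theorem prime_le_of_dvd_card (K : Subgroup (Perm Ω)) {p : ℕ} (hp : p.Prime) (hd : p ∣ Nat.card K) :
    p ≤ Fintype.card Ω := by
  rw [← hp.dvd_factorial, ← Nat.card_eq_fintype_card, ← Nat.card_perm]
  exact hd.trans (card_subgroup_dvd_card K)

theorem final (hK : Good π K) (h2 : 2 ∈ π) {D j : ℕ} (hD : Nat.card K ∣ D) (hj : 4 ≤ j)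
    (h : D * j.factorial = (Fintype.card Ω).factorial) (hm : 2 ≤ Fintype.card Ω) : False := by
  have h1 := card_inf_mul_relIndex K (alternatingGroup Ω)
  have h3 := card_alt hm
  obtain ⟨d, hd⟩ := (card_dvd_of_le (inf_le_left : K ⊓ alternatingGroup Ω ≤ K)).trans hD
  obtain ⟨f, hf⟩ : 24 ∣ j.factorial := Nat.factorial_dvd_factorial hj
  refine hK.hall 2 Nat.prime_two h2 ⟨6 * d * f, ?_⟩
  have hpos : 0 < Nat.card (K ⊓ alternatingGroup Ω : Subgroup (Perm Ω)) := Nat.card_pos
  refine Nat.eq_of_mul_eq_mul_left (Nat.mul_pos two_pos hpos) ?_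
  rw [mul_assoc, h1, h3, ← h, hd, hf]; ring

theorem prim_case (hK : Good π K) (hprim : IsPreprimitive K Ω) (htwo : Two π (Fintype.card Ω)) :
    alternatingGroup Ω ≤ K := by
  by_contra hA
  set m := Fintype.card Ω with hm
  have hm3 : 3 ≤ m := htwo.three_le
  have h3 : 3 ∉ π := by
    intro h3
    obtain ⟨c, hc, -, hs⟩ := hK.cycle Nat.prime_three h3 (by norm_num) hm3
    exact hA (alternatingGroup_le_of_isPreprimitive_of_isThreeCycle_mem hprim
      (card_support_eq_three_iff.1 hs) hc)
  have five : ∀ p, p.Prime → p ∈ π → p ≠ 2 → 5 ≤ p := by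
    intro p hp hπ h2
    have h3' : p ≠ 3 := fun h => h3 (h ▸ hπ)
    have := hp.two_le
    have h4 : p ≠ 4 := by rintro rfl; exact absurd hp (by decide)
    omega
  obtain ⟨q, hq, hqπ, hqm, hq2⟩ := htwo.other 2
  have hq5 := five q hq hqπ hq2
  have hJ : ∀ p, p.Prime → p ∈ π → p ≠ 2 → p ≤ m → m ≤ p + 2 := by
    intro p hp hπ h2 hle
    by_contra hlt
    obtain ⟨c, hc, hcyc, hs⟩ := hK.cycle hp hπ h2 hle
    exact hA (Cfsg.Agent.S0713.result K hprim hp (by omega) (by omega) hcyc hs hc)
  haveI : Nonempty Ω := Fintype.card_pos_iff.1 (by omega)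
  have hmK : m ∣ Nat.card K := by
    have := H2.Pm.card_dvd_of_trans (G := K) (X := Ω)
    rwa [Nat.card_eq_fintype_card] at this
  by_cases hodd : ∃ r, r.Prime ∧ r ∣ m ∧ r ≠ 2
  · obtain ⟨r, hr, hrm, hr2⟩ := hodd
    have hrπ := hK.pi r hr (hrm.trans hmK)
    have h1 := hJ r hr hrπ hr2 (Nat.le_of_dvd (by omega) hrm)
    have hmr : m = r := by
      by_contra hne
      have : ¬ m.Prime := fun h => hne ((Nat.prime_dvd_prime_iff_eq hr h).1 hrm).symm
      have := le_half_of_not_prime this (by omega) hr hrm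
      omega
    rw [← hmr] at hr hrπ hr2
    obtain ⟨y, hyK, hy, hys⟩ := hK.cycle hr hrπ hr2 le_rfl
    have hsol : Group.IsSolvable K → Nat.card K ∣ m * (m - 1) := fun hs =>
      card_dvd_of_solvable hs hyK hy hr hr2 hys (Or.inl rfl) (fun g _ x hx => by
        rw [Finset.eq_univ_of_card _ hys] at hx
        exact absurd (Finset.mem_univ x) hx)
    have hmodd : m % 2 = 1 := hr.eq_two_or_odd.resolve_left hr2
    by_cases hm2 : (m - 2).Prime ∧ m - 2 ∈ π
    · have hm5 := five _ hm2.1 hm2.2 (by omega)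
      rcases Cfsg.Agent.S0675.result hr K with hs | h2
      · obtain ⟨c, hc, hcyc, hcs⟩ := hK.cycle hm2.1 hm2.2 (by omega) (by omega)
        have h4 : m - 2 ∣ Nat.card K := by
          rw [← hcs, ← hcyc.orderOf, ← Subgroup.orderOf_mk c hc]
          exact orderOf_dvd_natCard _
        have h5 := h4.trans (hsol hs)
        obtain ⟨t, ht⟩ : ∃ t, m = t + 2 := ⟨m - 2, by omega⟩
        rw [ht, Nat.add_sub_cancel, show t + 2 - 1 = t + 1 by omega,
          show (t + 2) * (t + 1) = t * (t + 3) + 2 by ring] at h5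
        have := Nat.le_of_dvd two_pos ((Nat.dvd_add_right (Dvd.intro _ rfl)).1 h5)
        omega
      · obtain ⟨s, -, hs⟩ := Finset.exists_subset_card_eq (s := (Finset.univ : Finset Ω)) (n := 2)
          (by simp; omega)
        have h4 := IsMultiplyPretransitive.index_of_fixingSubgroup_eq (G := K) (s : Set Ω)
          (by rwa [Set.ncard_coe_finset, hs])
        rw [Set.ncard_coe_finset, hs, Nat.card_eq_fintype_card, ← hm, Nat.choose_two_right,
          Nat.factorial_two, Nat.div_mul_cancel (Nat.even_mul_pred_self m).two_dvd] at h4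
        have h5 : m * (m - 1) ∣ Nat.card K := h4 ▸ index_dvd_card _
        have h6 : ¬ 3 ∣ m := fun h => by
          have := (Nat.prime_dvd_prime_iff_eq Nat.prime_three hr).1 h; omega
        have h7 : ¬ 3 ∣ m - 2 := fun h => by
          have := (Nat.prime_dvd_prime_iff_eq Nat.prime_three hm2.1).1 h; omega
        have h8 : 3 ∣ m - 1 := by
          clear hmodd h1 hqm
          omega
        exact h3 (hK.pi 3 Nat.prime_three ((Dvd.dvd.mul_left h8 m).trans h5))
    · have hπm : ∀ p, p.Prime → p ∈ π → p ≤ m → p = 2 ∨ p = m := by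
        intro p hp hπ hle
        by_contra hne
        push Not at hne
        have h4 := hJ p hp hπ hne.1 hle
        have h5 : p % 2 = 1 := hp.eq_two_or_odd.resolve_left hne.1
        have h6 : p = m - 2 := by omega
        exact hm2 (h6 ▸ ⟨hp, hπ⟩)
      have hs : Group.IsSolvable K := solvable_of_two Nat.prime_two hr fun p hp hd =>
        hπm p hp (hK.pi p hp hd) (prime_le_of_dvd_card K hp hd)
      have h2π : 2 ∈ π := by
        obtain ⟨p, hp, hπ, hle, hne⟩ := htwo.other m
        exact ((hπm p hp hπ hle).resolve_right hne) ▸ hπ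
      have hd := hsol hs
      by_cases h7 : 6 ≤ m
      · refine final hK h2π hd (j := m - 2) (by omega) ?_ (by omega)
        obtain ⟨t, ht⟩ : ∃ t, m = t + 2 := ⟨m - 2, by omega⟩
        rw [← hm, ht, Nat.add_sub_cancel, show t + 2 - 1 = t + 1 by omega, Nat.factorial_succ,
          Nat.factorial_succ]
        ring
      · have hm5 : m = 5 := by omega
        have h60 : Nat.card (alternatingGroup Ω) = 60 := by
          have := card_alt (Ω := Ω) (by omega)
          rw [← hm, hm5] at this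
          simp only [Nat.factorial] at this
          omega
        have h4 := card_inf_mul_relIndex K (alternatingGroup Ω)
        have h5 := (card_dvd_of_le (inf_le_left : K ⊓ alternatingGroup Ω ≤ K)).trans hd
        have h8 := hK.hall 2 Nat.prime_two h2π
        have h9 := hK.hall 5 Nat.prime_five (hm5 ▸ hrπ)
        rw [h60] at h4
        rw [hm5] at h5
        have h10 : K.relIndex (alternatingGroup Ω) = 3 := by
          generalize K.relIndex (alternatingGroup Ω) = r at h4 h8 h9
          generalize Nat.card (K ⊓ alternatingGroup Ω : Subgroup (Perm Ω)) = c at h4 h5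
          have := Nat.le_of_dvd (by norm_num) h5
          interval_cases c <;> omega
        haveI := alternatingGroup.isSimpleGroup (α := Ω) (by rw [Nat.card_eq_fintype_card]; omega)
        set H := K.subgroupOf (alternatingGroup Ω)
        have h11 : H.index = 3 := h10
        have h12 : H.normalCore.index ∣ 6 := by
          rw [normalCore_eq_ker, index_ker]
          have := card_subgroup_dvd_card (toPermHom (alternatingGroup Ω)
            (alternatingGroup Ω ⧸ H)).range
          rwa [Nat.card_perm, ← index_eq_card, h11] at this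
        rcases H.normalCore_normal.eq_bot_or_eq_top with h13 | h13
        · rw [h13, index_bot, h60] at h12
          omega
        · have := H.normalCore_le
          rw [h13, top_le_iff] at this
          rw [this, index_top] at h11
          omega
  · push Not at hodd
    have hmev : m % 2 = 0 := by
      have := hodd _ (Nat.minFac_prime (show m ≠ 1 by omega)) (Nat.minFac_dvd m)
      have h2 := Nat.minFac_dvd m
      rw [this] at h2
      omega
    have h2π : 2 ∈ π := hK.pi 2 Nat.prime_two ((Nat.dvd_of_mod_eq_zero hmev).trans hmK)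
    have hπm : ∀ p, p.Prime → p ∈ π → p ≤ m → p ≠ 2 → m = p + 1 := by
      intro p hp hπ hle hne
      have h4 := hJ p hp hπ hne hle
      have h5 : p % 2 = 1 := hp.eq_two_or_odd.resolve_left hne
      omega
    have hmq := hπm q hq hqπ hqm hq2
    have hq7 : 6 ≤ q := by
      by_contra hlt
      have : m = 6 := by omega
      exact absurd (hodd 3 Nat.prime_three (by omega)) (by norm_num)
    have hs : Group.IsSolvable K := solvable_of_two Nat.prime_two hq fun p hp hd => by
      by_cases h2 : p = 2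
      · exact Or.inl h2
      · have := hπm p hp (hK.pi p hp hd) (prime_le_of_dvd_card K hp hd) h2
        omega
    obtain ⟨y, hyK, hy, hys⟩ := hK.cycle hq hqπ hq2 hqm
    obtain ⟨β, hβ⟩ : ∃ β, y.supportᶜ = {β} := by
      rw [← Finset.card_eq_one, Finset.card_compl, hys]; omega
    have hβ' : ∀ x, x ∉ y.support → x = β := fun x hx => by
      rw [← Finset.mem_singleton, ← hβ, Finset.mem_compl]; exact hx
    have hyβ : y β = β := by
      rw [← notMem_support, ← Finset.mem_compl, hβ]; exact Finset.mem_singleton_self β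
    set L := K ⊓ stabilizer (Perm Ω) β with hL
    have hLs : Group.IsSolvable L := 
      solvable_of_solvable_injective (inclusion_injective (inf_le_left : L ≤ K))
    have hd := card_dvd_of_solvable hLs (y := y) ⟨hyK, hyβ⟩ hy hq hq2 hys (Or.inr hmq)
      (fun g hg x hx => by rw [hβ' x hx]; exact hg.2)
    have hc := H2.Pm.card_eq_of_trans (G := K) β
    have hc2 : Nat.card (stabilizer K β) = Nat.card L := by
      rw [hL, inf_comm, ← card_subgroupOf_eq_inf]
      rfl
    rw [hc2, Nat.card_eq_fintype_card (α := Ω), ← hm] at hc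
    refine final hK h2π (D := m * (q * (q - 1))) (j := q - 2) (hc ▸ Nat.mul_dvd_mul_left _ hd)
      (by omega) ?_ (by omega)
    obtain ⟨t, ht⟩ : ∃ t, q = t + 2 := ⟨q - 2, by omega⟩
    rw [← hm, hmq, ht, Nat.add_sub_cancel, show t + 2 - 1 = t + 1 by omega, Nat.factorial_succ,
      Nat.factorial_succ, Nat.factorial_succ]
    ring

/-- a `K`-invariant partition given by the block function -/
structure Blk (K : Subgroup (Perm Ω)) (blk : Ω → Finset Ω) : Prop where
  self : ∀ x, x ∈ blk x
  eq : ∀ x y, y ∈ blk x → blk y = blk x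
  inv : ∀ k ∈ K, ∀ x y, k y ∈ blk (k x) ↔ y ∈ blk x

theorem exists_blk [IsPretransitive K Ω] (h : ¬ IsPreprimitive K Ω) :
    ∃ blk, Blk K blk ∧ (∃ x, 2 ≤ (blk x).card) ∧ ∃ x, blk x ≠ Finset.univ := by
  classical
  obtain ⟨B, hB, hBt⟩ : ∃ B : Set Ω, IsBlock K B ∧ ¬ IsTrivialBlock B := by
    by_contra hc
    push Not at hc
    exact h { isTrivialBlock_of_isBlock := fun {B} hB => hc B hB }
  rw [IsTrivialBlock, not_or, Set.not_subsingleton_iff] at hBt
  obtain ⟨⟨u, hu, v, hv, huv⟩, hBu⟩ := hBt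
  have key : ∀ k l : K, ∀ y z, k • y ∈ B → l • y ∈ B → l • z ∈ B → k • z ∈ B := by
    intro k l y z h1 h2 h3
    have h4 : k⁻¹ • B = l⁻¹ • B := by
      by_contra hne
      exact Set.disjoint_left.1 (hB hne) (Set.mem_inv_smul_set_iff.2 h1)
        (Set.mem_inv_smul_set_iff.2 h2)
    rw [← Set.mem_inv_smul_set_iff, h4, Set.mem_inv_smul_set_iff]
    exact h3
  refine ⟨fun x => Finset.univ.filter fun y => ∃ k : K, k • x ∈ B ∧ k • y ∈ B, ⟨?_, ?_, ?_⟩, ?_, ?_⟩
  · intro x
    obtain ⟨k, hk⟩ := exists_smul_eq K x u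
    simp only [Finset.mem_filter, Finset.mem_univ, true_and]
    exact ⟨k, hk ▸ hu, hk ▸ hu⟩
  · intro x y hy
    simp only [Finset.mem_filter, Finset.mem_univ, true_and] at hy
    obtain ⟨k, h1, h2⟩ := hy
    ext z
    simp only [Finset.mem_filter, Finset.mem_univ, true_and]
    constructor
    · rintro ⟨l, h3, h4⟩
      exact ⟨k, h1, key k l y z h2 h3 h4⟩
    · rintro ⟨l, h3, h4⟩
      exact ⟨k, h2, key k l x z h1 h3 h4⟩
  · intro g hg x y
    simp only [Finset.mem_filter, Finset.mem_univ, true_and]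
    constructor
    · rintro ⟨l, h3, h4⟩
      exact ⟨l * ⟨g, hg⟩, h3, h4⟩
    · rintro ⟨l, h3, h4⟩
      refine ⟨l * ⟨g, hg⟩⁻¹, ?_, ?_⟩
      · have : (l * ⟨g, hg⟩⁻¹ : K) • g x = l • x := by
          change (l.1 * g⁻¹) (g x) = l.1 x; simp
        rwa [this]
      · have : (l * ⟨g, hg⟩⁻¹ : K) • g y = l • y := by
          change (l.1 * g⁻¹) (g y) = l.1 y; simp
        rwa [this]
  · refine ⟨u, Finset.one_lt_card.2 ⟨u, ?_, v, ?_, huv⟩⟩
    · simp only [Finset.mem_filter, Finset.mem_univ, true_and]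
      exact ⟨1, by simpa using hu, by simpa using hu⟩
    · simp only [Finset.mem_filter, Finset.mem_univ, true_and]
      exact ⟨1, by simpa using hu, by simpa using hv⟩
  · refine ⟨u, fun he => hBu (Set.eq_univ_of_forall fun y => ?_)⟩
    have hy := Finset.mem_univ y
    rw [← he] at hy
    simp only [Finset.mem_filter, Finset.mem_univ, true_and] at hy
    obtain ⟨k, h1, h2⟩ := hy
    simpa using key 1 k u y (by simpa using hu) h1 h2

variable {blk : Ω → Finset Ω}

theorem Blk.smul (h : Blk K blk) {k : Perm Ω} (hk : k ∈ K) (x : Ω) : k • blk x = blk (k x) :=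
  smul_eq_iff.2 fun y => h.inv k hk x y

theorem Blk.card_eq [IsPretransitive K Ω] (h : Blk K blk) (x y : Ω) :
    (blk x).card = (blk y).card := by
  obtain ⟨k, hk⟩ := exists_smul_eq K x y
  have : k.1 x = y := hk
  rw [← this, ← h.smul k.2, Finset.card_smul_finset]

theorem Blk.card_mul (h : Blk K blk) {a : ℕ} (ha : ∀ x, (blk x).card = a) {S : Finset Ω}
    (hS : ∀ x ∈ S, blk x ⊆ S) : S.card = a * (S.image blk).card := by
  rw [Finset.card_eq_sum_card_image blk S, mul_comm, ← smul_eq_mul, ← Finset.sum_const]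
  refine Finset.sum_congr rfl fun D hD => ?_
  obtain ⟨x, hx, rfl⟩ := Finset.mem_image.1 hD
  rw [← ha x]
  congr 1
  ext y
  rw [Finset.mem_filter]
  exact ⟨fun hy => hy.2 ▸ h.self y, fun hy => ⟨hS x hx hy, h.eq x y hy⟩⟩

theorem Blk.dichotomy (h : Blk K blk) {a : ℕ} (ha : ∀ x, (blk x).card = a) {C : Finset Ω}
    (hC : ∀ x ∈ C, ∀ y ∈ C, ∃ g ∈ K, g x = y ∧ ∀ z, z ∉ C → g z = z) :
    C.card ≤ a ∨ a ∣ C.card := by
  by_cases hc : ∃ x, C ⊆ blk x
  · obtain ⟨x, hx⟩ := hc
    exact Or.inl (ha x ▸ Finset.card_le_card hx)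
  right
  push Not at hc
  refine ⟨_, h.card_mul ha fun x hx z hz => ?_⟩
  obtain ⟨y, hy, hyx⟩ := Finset.not_subset.1 (hc x)
  obtain ⟨g, hg, hxy, hfix⟩ := hC x hx y hy
  by_contra hzC
  have h1 := (h.inv g hg x z).2 hz
  rw [hfix z hzC, hxy] at h1
  exact hyx ((h.eq x z hz) ▸ (h.eq y z h1).symm ▸ h.self y)

theorem Blk.le_St (h : Blk K blk) {p : ℕ} (hp : p.Prime) {P : Subgroup (Perm Ω)} (hP : IsPGroup p P)
    (hPK : P ≤ K) (hb : (Finset.univ.image blk).card < p) (x : Ω) : P ≤ St (blk x) := by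
  haveI := Fact.mk hp
  obtain ⟨j, hj⟩ := hP.card_orbit (blk x)
  have h1 : orbit P (blk x) ⊆ (Finset.univ.image blk : Finset (Finset Ω)) := by
    rintro D ⟨k, rfl⟩
    simp only [Finset.coe_image, Finset.coe_univ, Set.image_univ]
    exact ⟨k.1 x, (h.smul (hPK k.2) x).symm⟩
  have h2 := Set.ncard_le_ncard h1
  rw [Set.ncard_coe_finset, ← Nat.card_coe_set_eq, hj] at h2
  have h3 : j = 0 := by
    by_contra hne
    have := Nat.le_self_pow hne p
    omega
  rw [h3, pow_zero, Nat.card_eq_one_iff_unique] at hj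
  intro g hg
  rw [mem_St_iff_smul]
  have := hj.1.elim ⟨_, mem_orbit (blk x) (⟨g, hg⟩ : P)⟩ ⟨_, mem_orbit_self (blk x)⟩
  exact congrArg Subtype.val this

theorem Blk.con_good (h : Blk K blk) (hK : Good π K) (x₀ : Ω) : Good π (con K (blk x₀)) := by
  refine HS.con_good hK.pi fun p hp hπ => ?_
  haveI := Fact.mk hp
  obtain ⟨P, hP, hPK⟩ := hK.sylow hp hπ
  set N := alternatingGroup Ω ⊓ ⨅ x, St (blk x) with hN
  have key : ∀ g ∈ K, ∀ n ∈ N, g * n * g⁻¹ ∈ N := by
    intro g hg n hn
    refine ⟨(inferInstance : (alternatingGroup Ω).Normal).conj_mem n hn.1 g, ?_⟩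
    have hn2 := mem_iInf.1 hn.2
    refine mem_iInf.2 fun x y => ?_
    have e1 := h.inv g hg (g⁻¹ x) (n (g⁻¹ y))
    have e2 := h.inv g hg (g⁻¹ x) (g⁻¹ y)
    simp only [Perm.coe_inv, Equiv.apply_symm_apply] at e1 e2
    simp only [Perm.coe_mul, Perm.coe_inv, Function.comp_apply]
    rw [e1, e2]
    exact hn2 _ _
  have hKN : K ≤ normalizer (N : Set (Perm Ω)) := by
    intro g hg
    rw [mem_normalizer_iff]
    intro n
    refine ⟨key g hg n, fun hh => ?_⟩
    simpa [mul_assoc] using key g⁻¹ (inv_mem hg) _ hh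
  have h1 := hP.inf (N := N) inf_le_left (hPK.trans hKN)
  have hAN : AB (blk x₀) ≤ N := by
    intro g hg
    refine ⟨hg.2, mem_iInf.2 fun x y => ?_⟩
    by_cases hy : y ∈ blk x₀
    · have hgy : g y ∈ blk x₀ := by
        by_contra hn
        have := g.injective (hg.1 _ hn)
        exact hn (this.symm ▸ hy)
      constructor
      · intro h2
        rw [← h.eq x _ h2, h.eq x₀ _ hgy]; exact hy
      · intro h2
        rw [← h.eq x _ h2, h.eq x₀ _ hy]; exact hgy
    · rw [hg.1 y hy]
  have h2 := h1.inf hAN (fun g hg => St_le_normalizer _ (mem_iInf.1 hg.2.2 x₀))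
  exact not_dvd_of_sylowIn h2 (inf_le_left.trans (inf_le_left.trans hPK))

theorem Blk.con_trans [IsPretransitive K Ω] (h : Blk K blk) (x₀ : Ω) :
    IsPretransitive (con K (blk x₀)) (blk x₀) := by
  refine HS.con_trans fun x hx y hy => ?_
  obtain ⟨k, hk⟩ := exists_smul_eq K x y
  have hk' : k.1 x = y := hk
  refine ⟨k, k.2, ?_, hk'⟩
  rw [mem_St_iff_smul, ← h.eq x₀ x hx, h.smul k.2, hk', h.eq x₀ y hy, h.eq x₀ x hx]

theorem trans_case (π : Set ℕ) (m : ℕ) : ∀ (Ω : Type) [Fintype Ω] [DecidableEq Ω]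
    (K : Subgroup (Perm Ω)), Fintype.card Ω = m → Good π K → IsPretransitive K Ω → Two π m →
    alternatingGroup Ω ≤ K ∨ (m = 8 ∧ (∀ p, p.Prime → p ≤ 8 → (p ∈ π ↔ p = 2 ∨ p = 3)) ∧
      ∃ B : Finset Ω, B.card = 4 ∧ ∀ k ∈ K, k • B = B ∨ k • B = Bᶜ) := by
  induction m using Nat.strong_induction_on with
  | _ m ih =>
  intro Ω _ _ K hm hK htr htwo
  by_cases hprim : IsPreprimitive K Ω
  · exact Or.inl (prim_case hK hprim (hm ▸ htwo))
  right
  obtain ⟨blk, h, ⟨x₀, hx₀⟩, x₁, hx₁⟩ := exists_blk hprim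
  set a := (blk x₀).card with ha
  have hall : ∀ x, (blk x).card = a := fun x => h.card_eq x x₀
  set b := (Finset.univ.image blk).card with hb
  have hab : m = a * b := by
    rw [← hm, ← Finset.card_univ]
    exact h.card_mul hall fun x _ => Finset.subset_univ _
  have ham : a < m := by
    rw [← hall x₁, ← hm]
    exact Finset.card_lt_card (Finset.ssubset_univ_iff.2 hx₁)
  have hb2 : 2 ≤ b := by
    by_contra hlt
    have : b = 0 ∨ b = 1 := by omega
    rcases this with h0 | h0 <;> rw [h0] at hab <;> omega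
  have hm4 : 4 ≤ m := by rw [hab]; nlinarith
  have hbm : b ≤ m := by rw [hab]; nlinarith
  haveI : Nonempty Ω := ⟨x₀⟩
  have hmK : m ∣ Nat.card K := by
    have := H2.Pm.card_dvd_of_trans (G := K) (X := Ω)
    rwa [Nat.card_eq_fintype_card, hm] at this
  have dich : ∀ p, p.Prime → p ∈ π → p ≤ m →
      (∃ e, a ∣ p ^ e) ∨ (b < p ∧ p ≤ a ∧ ∀ e, p ^ e ≤ m → p ^ e ≤ a) := by
    intro p hp hπ hle
    obtain ⟨e, he1, he2, he3⟩ := exists_top_pow hp hle
    have h3 : 3 ≤ p ^ e := by
      by_cases h2 : p = 2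
      · subst h2; omega
      · have := hp.two_le
        have := Nat.le_self_pow (show e ≠ 0 by omega) p
        omega
    obtain ⟨C, hC, hCt⟩ := hK.orb hp hπ h3 (hm ▸ he2)
    rcases h.dichotomy hall hCt with h1 | h1
    · right
      rw [hC] at h1
      refine ⟨?_, (Nat.le_self_pow (show e ≠ 0 by omega) p).trans h1, fun f hf => ?_⟩
      · by_contra hlt
        have : p * p ^ e ≤ b * a := Nat.mul_le_mul (by omega) h1
        rw [mul_comm b a] at this
        omega
      · refine le_trans (Nat.pow_le_pow_right hp.pos ?_) h1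
        have : p ^ f < p ^ (e + 1) := by rw [pow_succ']; omega
        have := (Nat.pow_lt_pow_iff_right hp.one_lt).1 this
        omega
    · exact Or.inl ⟨e, hC ▸ h1⟩
  set r := b.minFac with hr
  have hrp : r.Prime := Nat.minFac_prime (by omega)
  have hrb : r ≤ b := Nat.minFac_le (by omega)
  have hrπ : r ∈ π := hK.pi r hrp (((Nat.minFac_dvd b).trans (hab ▸ Dvd.intro_left a rfl)).trans hmK)
  obtain ⟨e, he⟩ := (dich r hrp hrπ (by omega)).resolve_right (by omega)
  obtain ⟨i, -, hi⟩ := (Nat.dvd_prime_pow hrp).1 he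
  have hi0 : i ≠ 0 := by rintro rfl; rw [pow_zero] at hi; omega
  have hra : r ∣ a := hi ▸ dvd_pow_self r hi0
  have other : ∀ p, p.Prime → p ∈ π → p ≤ m → p ≠ r →
      b < p ∧ p ≤ a ∧ ∀ e, p ^ e ≤ m → p ^ e ≤ a := by
    intro p hp hπ hle hne
    refine (dich p hp hπ hle).resolve_left ?_
    rintro ⟨f, hf⟩
    exact hne ((Nat.prime_dvd_prime_iff_eq hrp hp).1 (hrp.dvd_of_dvd_pow (hra.trans hf))).symm
  have nochoose : ∀ p, p.Prime → p ∈ π → p ≤ m → p ≠ r → ¬ p ∣ m.choose a := by
    intro p hp hπ hle hne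
    obtain ⟨P, hP, hPK⟩ := hK.sylow hp hπ
    rw [← hm]
    exact not_dvd_choose (by omega) hP (h.le_St hp hP.isPGroup hPK (other p hp hπ hle hne).1 x₀)
  obtain ⟨q, hq, hqπ, hqm, hqr⟩ := htwo.other r
  obtain ⟨hbq, hqa, -⟩ := other q hq hqπ hqm hqr
  have hra' : r ≤ a := Nat.le_of_dvd (by omega) hra
  have hcard : Fintype.card (blk x₀) = a := by simp [ha]
  rcases ih a ham (blk x₀) (con K (blk x₀)) hcard (h.con_good hK x₀) (h.con_trans x₀)
    ⟨q, r, hq, hrp, hqr, hqπ, hrπ, hqa, hra'⟩ with hA | ⟨ha8, hπ8, -⟩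
  · have ha4 : 4 ≤ a := by
      by_contra hlt
      have h3 : a = 3 := by omega
      have h4 : q = 3 := by omega
      rw [h3] at hra
      exact hqr (h4.trans ((Nat.prime_dvd_prime_iff_eq hrp Nat.prime_three).1 hra).symm)
    have hπa : ∀ p, p.Prime → p ≤ a → p ∈ π := fun p hp hle =>
      prime_mem_of_alt_le (h.con_good hK x₀) hA hp (hcard ▸ hle) (Or.inr (hcard ▸ ha4))
    have hr2 : r = 2 := by
      by_contra hne
      have := (other 2 Nat.prime_two (hπa 2 Nat.prime_two (by omega)) (by omega) (Ne.symm hne)).1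
      omega
    have hb' : b = 2 := by
      have := (other 3 Nat.prime_three (hπa 3 Nat.prime_three (by omega)) (by omega) (by omega)).1
      omega
    rw [hr2] at hi
    by_cases ha4' : a = 4
    · have hm8 : m = 8 := by rw [hab, ha4', hb']
      refine ⟨hm8, fun p hp hle => ⟨fun hπ => ?_, ?_⟩, blk x₀, ha4', fun k hk => ?_⟩
      · by_contra hne
        have := (other p hp hπ (by omega) (by omega)).2.1
        have h4 : p ≠ 4 := by rintro rfl; exact absurd hp (by decide)
        have := hp.two_le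
        omega
      · rintro (rfl | rfl)
        · exact hπa 2 hp (by omega)
        · exact hπa 3 hp (by omega)
      · rw [h.smul hk]
        by_cases hk' : blk (k x₀) = blk x₀
        · exact Or.inl hk'
        · right
          refine Finset.eq_of_subset_of_card_le (fun y hy => ?_) ?_
          · rw [Finset.mem_compl]
            intro hy'
            exact hk' ((h.eq _ y hy).symm.trans (h.eq _ y hy'))
          · rw [Finset.card_compl, hall, hall, hm]; omega
    · exfalso
      obtain ⟨j, hj⟩ : ∃ j, i = j + 2 := by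
        refine ⟨i - 2, ?_⟩
        by_contra hne
        have : i = 1 := by omega
        rw [this] at hi
        omega
      have hj' : a = 4 * 2 ^ j := by rw [hi, hj]; ring
      have hj0 : j ≠ 0 := by rintro rfl; omega
      have hj2 : 2 ≤ 2 ^ j := Nat.le_self_pow hj0 2
      refine nt2 (2 * 2 ^ j + 1) (by omega) (by omega) fun p hp hd => ?_
      have hle := Nat.le_of_dvd (by omega) hd
      have hne : p ≠ r := by
        rintro rfl
        rw [hr2] at hd
        omega
      have := nochoose p hp (hπa p hp (by omega)) (by omega) hne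
      rwa [show 2 * (2 * 2 ^ j + 1) - 2 = a by omega, show 2 * a = m by rw [hab, hb']; ring]
  · exfalso
    have hr2 : r = 2 := by
      rw [ha8, show 8 = 2 ^ 3 by norm_num] at hra
      exact (Nat.prime_dvd_prime_iff_eq hrp Nat.prime_two).1 (hrp.dvd_of_dvd_pow hra)
    have := (other 3 Nat.prime_three ((hπ8 3 Nat.prime_three (by norm_num)).2 (Or.inr rfl))
      (by omega) (by omega)).2.2 2 (by rw [hab, ha8]; omega)
    omega

end Cfsg.Agent.H6.HS
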