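import Cfsg.Agent.H6.Ree
import Cfsg.Agent.H16.M24g

/-! `(p, q, r)`-generation of `M₂₃`. -/

set_option autoImplicit false
set_option maxRecDepth 100000

namespace Cfsg.Agent.H6.M23T

open Cfsg MulAction H16 ReeI

/-- there is a generating triple of orders `p, q, r` -/
def Tri (p q r : ℕ) : Prop := ∃ x y z : Spor.M23, orderOf x = p ∧ orderOf y = q ∧ orderOf z = r ∧ x * y * z = 1 ∧
  Subgroup.closure {x, y} = ⊤

noncomputable def ordB (x p : ℕ) : Bool := andB (eqP 5 24 (H16.ppow 5 24 x p) (H16.pid 5 24)) (notB (eqP 5 24 x (H16.pid 5 24)))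

noncomputable def in23 (p : ℕ) : Bool := andB (isM24 p) (Nat.beq (get 5 p 23) 23)

noncomputable def tri (p q r x y : ℕ) (prog : List (List ℕ)) : Bool :=
  andB (andB (in23 x) (in23 y)) (andB (andB (ordB x p) (andB (ordB y q) (ordB (pmul 5 24 x y) r)))
    (Nat.beq (lbChain 5 24 [0, 1, 2, 3, 4, 5] (slp 5 24 prog [x, y])) 10200960))

theorem faith : Faith gpt 24 (⊤ : Subgroup Spor.M23) := fun g _ h =>
  Subtype.ext (Equiv.ext fun p => let ⟨i, hi, e⟩ := exists_gpt p; e ▸ h i hi)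

theorem ex23 {p : ℕ} (h : in23 p = true) : ∃ g : Spor.M23, Rep gpt 24 g (get 5 p) := by
  obtain ⟨h1, h2⟩ := andB_iff.mp h
  obtain ⟨g, r⟩ := exists_of_isM24 h1
  have := (r 23 (by norm_num)).2
  rw [Nat.eq_of_beq_eq_true h2] at this
  exact ⟨⟨g, g.2, this⟩, r⟩

theorem card23 : Nat.card Spor.M23 = 10200960 := (Nat.card_congr sporM23.toEquiv).symm.trans card_K23

theorem tri_of {p q r x y : ℕ} {prog : List (List ℕ)} (hp : p.Prime) (hq : q.Prime) (hr : r.Prime)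
    (h : tri p q r x y prog = true) : Tri p q r := by
  simp only [tri, andB_iff] at h
  obtain ⟨⟨h1, h2⟩, ⟨h3, h4, h5⟩, h6⟩ := h
  obtain ⟨a, ra⟩ := ex23 h1
  obtain ⟨b, rb⟩ := ex23 h2
  refine ⟨a, b, (a * b)⁻¹, ra.orderOf_eq five_le gpt_inj faith trivial hp h3,
    rb.orderOf_eq five_le gpt_inj faith trivial hq h4, ?_, mul_inv_cancel _, ?_⟩
  · rw [orderOf_inv]; exact (ra.pmul five_le rb).orderOf_eq five_le gpt_inj faith trivial hr h5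
  · have hS : ∀ s ∈ [x, y], InK gpt 24 (Subgroup.closure {a, b}) (get 5 s) := by
      intro s hs
      simp only [List.mem_cons, List.not_mem_nil, or_false] at hs
      rcases hs with rfl | rfl
      · exact ⟨a, Subgroup.subset_closure (by simp), ra⟩
      · exact ⟨b, Subgroup.subset_closure (by simp), rb⟩
    have := lbChain_le gpt_inj [0, 1, 2, 3, 4, 5] (by decide) _ (InK.slp five_le prog hS)
    rw [Nat.eq_of_beq_eq_true h6, ← card23] at this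
    exact Subgroup.eq_top_of_le_card _ this

theorem t_2_5_11 : Tri 2 5 11 := tri_of (x := 979091003636699427573263062607662464) (y := 964862134649363753133490474768812436)
  (prog := [[1, 1, 1, 1, 0, 1, 0, 1, 0], [0, 2, 2, 0, 2, 0, 0, 0, 2], [1, 1, 2, 0, 1, 1, 0], [2, 1, 3, 1], [3, 3, 3, 3, 2, 4, 2], [5, 2, 0, 5, 4], [7, 7, 6, 6], [7, 6, 3, 5, 3, 2, 7, 7, 2], [8, 7, 6, 8, 3, 3, 3, 0, 5, 0, 2]]) (by norm_num) (by norm_num) (by norm_num) (by decide +kernel)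
theorem t_2_5_23 : Tri 2 5 23 := tri_of (x := 973135565385288352426123616970673484) (y := 980155525816514406472803613828826631)
  (prog := [[1, 1, 1, 0, 1, 0, 1], [1, 0, 2, 1, 1, 2, 2], [2, 3, 3, 2, 1, 1, 2, 0, 3, 0], [2, 3, 2, 2, 2, 3], [5, 4, 5, 5], [4, 2, 4, 6, 2, 3], [7, 7, 6, 7], [6, 8, 8, 4, 7, 5, 7, 5], [9, 7, 7, 5, 8, 3, 3, 4, 3, 2, 8]]) (by norm_num) (by norm_num) (by norm_num) (by decide +kernel)
theorem t_2_7_7 : Tri 2 7 7 := tri_of (x := 969076047024284233203536489148951695) (y := 984206471504184603901407266281498788)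
  (prog := [[1, 1, 1, 0, 1, 0, 1, 1], [1, 1, 1, 0, 1, 1, 1, 2], [3, 3, 2, 0, 1, 0], [2, 2, 4, 1, 2, 4, 4, 1], [4, 5, 5, 3, 4, 5, 2, 3], [6, 4, 2, 3, 3, 3], [7, 6, 6, 6, 4, 5, 5, 5], [6, 6, 6, 6, 5, 6, 2, 2, 1, 3, 1, 3, 3]]) (by norm_num) (by norm_num) (by norm_num) (by decide +kernel)
theorem t_2_7_11 : Tri 2 7 11 := tri_of (x := 984371793754216887572750120113119264) (y := 978127065306953828764590345593464933)
  (prog := [[1, 1, 1, 1, 0, 1, 0, 1, 1, 0, 1, 1], [2, 0, 2, 0, 2, 2, 2, 2, 1, 0, 2, 1, 0], [2, 0, 1, 0, 2, 0, 1, 3, 3], [0, 2, 2, 3, 1, 0, 2, 1, 3], [4, 5, 3, 4, 5], [5, 6, 6], [7, 6, 7, 6, 0, 7, 3, 4, 4, 7], [3, 5, 7, 3, 6, 6]]) (by norm_num) (by norm_num) (by norm_num) (by decide +kernel)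
theorem t_2_7_23 : Tri 2 7 23 := tri_of (x := 960048431027810747942007582256468436) (y := 984277570006547114569539894994611885)
  (prog := [[1, 1, 1, 1, 1, 0, 1, 1], [0, 1, 2, 0, 2, 1, 2], [3, 2, 3, 3, 3, 3, 3], [2, 3, 3, 2, 3, 2, 4, 4], [3, 4, 4, 3, 4, 5], [4, 4, 5, 4, 5, 6, 4, 4], [7, 7, 5, 4, 5, 6, 4, 7], [7, 7, 6, 4, 6, 5], [9, 9, 8, 6, 7, 4, 9, 2, 8, 3]]) (by norm_num) (by norm_num) (by norm_num) (by decide +kernel)
theorem t_2_11_11 : Tri 2 11 11 := tri_of (x := 984818205923863427753765695672851564) (y := 968659405926389283984874396546251856)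
  (prog := [[0, 1, 1, 1, 0, 1, 1], [2, 2, 0, 1, 1, 1, 1, 2], [2, 3, 2, 0, 1, 3, 1, 2, 0], [3, 2, 3, 4, 2, 2], [5, 5, 3, 5, 3, 4, 4, 5, 5], [5, 5, 5, 4, 6, 3, 3], [6, 7, 5, 5, 5, 6, 5, 3, 6, 5, 4]]) (by norm_num) (by norm_num) (by norm_num) (by decide +kernel)
theorem t_2_11_23 : Tri 2 11 23 := tri_of (x := 984778194297846984635214162915600851) (y := 980355949529312520552501359808153105)
  (prog := [[0, 1, 1, 0, 1, 1], [1, 0, 1, 0, 1], [2, 2, 3, 3, 3, 3], [2, 4, 4, 2, 4, 2, 4], [4, 4, 4, 2, 2, 0, 5, 5, 0, 1, 4], [5, 4, 5, 4, 2, 5, 3, 5, 6], [6, 6, 6, 7, 6, 4, 4, 6, 4, 4, 6, 6, 5], [6, 6, 5, 4, 8, 4, 6, 8, 5]]) (by norm_num) (by norm_num) (by norm_num) (by decide +kernel)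
theorem t_2_23_23 : Tri 2 23 23 := tri_of (x := 984574172271782790387321076956908928) (y := 961494654522125406024209335556802150)
  (prog := [[1, 1, 0, 1, 0, 1, 1, 1, 0, 1, 1], [0, 2, 2, 2, 2, 0, 1, 2, 0, 1, 1, 1, 1, 2], [3, 2, 3, 2, 2], [3, 0, 3, 4, 1, 3, 2, 4, 4, 1], [3, 2, 3, 3, 5, 2, 3], [6, 4, 6], [6, 6, 3, 5, 3, 3], [7, 8, 8, 4, 8, 7, 8, 5, 8]]) (by norm_num) (by norm_num) (by norm_num) (by decide +kernel)
theorem t_3_3_11 : Tri 3 3 11 := tri_of (x := 957560978151302352056415850641660548) (y := 984436084701239093779528454136516661)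
  (prog := [[0, 0, 1, 0, 0, 1, 0], [2, 2, 2, 2, 2, 2, 2, 2, 0, 2, 1], [3, 2, 2, 1, 3, 0, 2, 3, 1], [3, 3, 3, 2, 4, 3, 0, 0, 3, 2, 4, 1], [2, 4, 2, 2], [4, 5, 3, 4, 6, 3, 3], [4, 4, 5, 6, 6], [8, 7, 8, 4, 5, 7, 4]]) (by norm_num) (by norm_num) (by norm_num) (by decide +kernel)
theorem t_3_3_23 : Tri 3 3 23 := tri_of (x := 961437693347203062735341710266992864) (y := 962426047146959367548526097796815236)
  (prog := [[1, 1, 0, 0, 1, 1, 0, 1], [1, 1, 2, 1], [3, 0, 2, 3], [0, 2, 0, 0, 2], [4, 5, 4, 0, 2, 4, 5, 0, 2], [5, 2, 4, 1, 0, 0, 5, 1, 3, 1], [7, 4, 5, 5, 4], [6, 8, 7], [6, 8, 6, 6, 4, 6, 6, 5, 5, 7]]) (by norm_num) (by norm_num) (by norm_num) (by decide +kernel)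
theorem t_3_5_5 : Tri 3 5 5 := tri_of (x := 968529802273267076647481296213248724) (y := 958569003130251083744080152302518691)
  (prog := [[1, 1, 1, 1, 0, 0], [1, 0, 2, 0], [2, 2, 3, 2, 3, 2, 3], [4, 4], [4, 2, 4, 3, 4, 1, 4, 3, 0], [5, 3, 4, 6, 2, 4, 3, 2, 3], [5, 3, 6, 5, 6, 3, 7, 3], [7, 7, 8, 6, 5, 3, 4, 3, 2, 5, 6, 4, 2]]) (by norm_num) (by norm_num) (by norm_num) (by decide +kernel)
theorem t_3_5_7 : Tri 3 5 7 := tri_of (x := 970088123150804617964933819160187328) (y := 976317499832059709842863821279181876)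
  (prog := [[1, 1, 0, 1, 0, 1, 0], [2, 0, 2], [2, 3, 2, 3, 3, 2], [4, 4, 3, 4, 3, 4], [5, 0, 1, 2, 3, 1], [5, 6, 6, 5, 6, 3, 4, 4, 2, 3, 4, 1, 2, 3, 1, 0, 2], [6, 6, 5, 5, 3, 3, 5, 5, 7, 4, 3]]) (by norm_num) (by norm_num) (by norm_num) (by decide +kernel)
theorem t_3_5_11 : Tri 3 5 11 := tri_of (x := 975528966589956077776848721990586818) (y := 963398429895635602182548038633963136)
  (prog := [[0, 1, 0, 0], [1, 1, 1, 2, 1, 1, 2, 1], [3, 3, 3, 3, 2, 2, 1, 3, 1], [4, 4, 4, 4, 3, 2, 4, 4, 1, 1, 2, 2, 1, 4], [5, 2, 5, 4, 3, 5, 5, 1, 3, 1], [2, 4, 0, 0, 0, 2]]) (by norm_num) (by norm_num) (by norm_num) (by decide +kernel)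
theorem t_3_5_23 : Tri 3 5 23 := tri_of (x := 984087587558464188229058014538481714) (y := 980421516757108969750228362078960182)
  (prog := [[0, 1, 1, 0, 0, 1], [1, 0, 0, 2, 2, 1, 2, 1], [3, 2, 2, 0, 0, 0, 2, 3], [3, 0, 1, 4, 3, 4, 1], [4, 2, 0, 3, 1, 2], [4, 5, 6, 2, 2, 2, 2, 2, 4], [7, 6, 6, 7, 7, 6], [6, 6, 8, 4, 7, 5, 5, 7], [9, 8, 9], [7, 5, 9, 4]]) (by norm_num) (by norm_num) (by norm_num) (by decide +kernel)
theorem t_3_7_7 : Tri 3 7 7 := tri_of (x := 982263914598715566773469892301948971) (y := 984570323330522192918113007588065429)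
  (prog := [[1, 1, 1, 0, 1, 1], [1, 2, 1], [2, 2, 2, 2, 3, 2, 2, 3, 2], [4, 3, 2, 4, 2, 3, 4], [4, 3, 3, 3, 5, 4], [5, 5, 5, 4, 5, 2, 5, 0, 1, 1, 2, 0, 0], [6, 6, 7, 6], [7, 8, 5, 6, 6, 4, 8, 3, 2, 0, 4, 1, 3, 4]]) (by norm_num) (by norm_num) (by norm_num) (by decide +kernel)
theorem t_3_7_11 : Tri 3 7 11 := tri_of (x := 984468878055672300381625996913789059) (y := 966023931221225779490899210211019106)
  (prog := [[0, 0, 1, 0], [0, 1, 1, 2, 1, 0], [3, 3], [4, 4], [2, 3, 2, 4, 0, 0, 3, 1, 3], [3, 3, 6, 4], [7, 7, 5, 7, 5, 6, 2, 6, 2, 3], [5, 8, 7, 5, 7, 8, 8, 4, 8, 4, 7, 8, 6]]) (by norm_num) (by norm_num) (by norm_num) (by decide +kernel)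
theorem t_3_7_23 : Tri 3 7 23 := tri_of (x := 982971266066054507290803812400377908) (y := 957251439059539836932006438393993580)
  (prog := [[1, 1, 0, 1, 1], [2, 2, 2, 2, 2, 2, 0, 2, 1], [2, 2, 2, 3, 2], [3, 3, 3, 4, 2, 2, 2, 3, 2, 3, 4], [4, 3, 3, 3, 5, 4], [5, 2, 3, 2, 5, 0, 1, 1, 2, 0, 0], [5, 6, 5, 6, 5], [8, 7, 6, 6, 7, 8, 6, 7]]) (by norm_num) (by norm_num) (by norm_num) (by decide +kernel)
theorem t_3_11_11 : Tri 3 11 11 := tri_of (x := 984630394213842136426307548315332225) (y := 956218456038368784809250961864334383)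
  (prog := [[1, 1, 0, 1, 0, 1, 1], [2, 2, 2, 2, 2, 0, 1, 2, 1, 1, 1, 2], [3, 2, 3, 2, 2, 3, 0, 2, 1, 2, 0], [3, 3, 4, 4, 2, 4, 2, 2], [4, 5, 4, 4, 5, 5], [6, 3, 5, 4, 0, 4, 0, 0, 1, 4], [5, 6, 3, 4, 5, 2, 4, 2, 2, 6, 7]]) (by norm_num) (by norm_num) (by norm_num) (by decide +kernel)
theorem t_3_11_23 : Tri 3 11 23 := tri_of (x := 960149768792260457655218517255465410) (y := 975164525164081895134790594978957729)
  (prog := [[0, 1, 0, 0, 1, 1, 0, 1, 1], [2, 0, 2, 2, 1, 1, 1, 2], [2, 2, 2, 2, 2, 1, 1, 1, 2, 0], [3, 3, 3, 4, 4, 2, 2, 3, 2, 2], [5, 4, 4, 4, 3, 5, 5, 3, 3], [4, 4, 4, 3, 2, 5, 4, 0, 3, 0, 1, 4], [6, 7, 7, 5, 6, 6, 5]]) (by norm_num) (by norm_num) (by norm_num) (by decide +kernel)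
theorem t_3_23_23 : Tri 3 23 23 := tri_of (x := 984697344642165545712697033516747169) (y := 966379096815844967199035010087039173)
  (prog := [[0, 0, 1, 1, 0, 1, 1], [0, 0, 2, 2, 1], [3, 2, 2, 3, 2], [4, 4, 4, 3, 2, 4, 3, 3, 4, 3], [5, 5, 5, 5, 4, 4, 4, 4, 2, 3, 5, 3], [5, 5, 5, 4, 6, 2, 3, 5, 3], [6, 5, 5, 6, 5]]) (by norm_num) (by norm_num) (by norm_num) (by decide +kernel)
theorem t_5_5_5 : Tri 5 5 5 := tri_of (x := 984392313527947132064563099816401429) (y := 968382006899629539097838418309722281)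
  (prog := [[1, 0], [0, 0, 1, 1, 2, 1, 0], [2, 3, 3, 2, 3], [4, 4, 4, 3, 2, 2, 1, 0], [3, 5, 5, 0, 0, 1, 1, 3], [4, 4, 4, 5, 6, 4, 2, 4, 3, 3, 6, 4], [6, 5, 4, 6, 4], [6, 6, 4, 4, 4, 2, 6, 7, 3, 6, 6]]) (by norm_num) (by norm_num) (by norm_num) (by decide +kernel)
theorem t_5_5_7 : Tri 5 5 7 := tri_of (x := 984272465389029524616273145789501936) (y := 969844233215788587307417834125690991)
  (prog := [[1, 0], [1, 1, 1, 2, 0, 2, 0, 2, 0], [3, 3, 3, 1, 1, 2, 1, 1], [2, 2, 4, 1, 2, 3, 0, 3, 4, 0], [4, 4, 4, 4, 5, 2, 3, 4, 0, 3, 2, 2, 0], [6, 6, 4, 4, 6, 5, 2, 3, 5, 4, 3], [5, 7, 6, 6, 4, 7, 4], [8, 7, 6, 6, 8], [9, 8, 9, 8, 6, 7]]) (by norm_num) (by norm_num) (by norm_num) (by decide +kernel)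
theorem t_5_5_11 : Tri 5 5 11 := tri_of (x := 975447848754509898618341024902191493) (y := 984641881969895284297280777322412422)
  (prog := [[1, 0, 0, 1, 0, 1, 1], [0, 2, 0, 2], [2, 2, 2, 1, 1, 3, 0, 1, 1], [2, 2, 4, 2, 4, 3, 0, 1, 4], [5, 5, 5, 2, 4, 5, 2, 5, 4, 2, 4], [4, 6, 5, 2, 2, 6, 4, 2, 6], [4, 6, 7, 4, 7], [4, 6, 7, 2, 6, 6, 3, 5, 8, 3]]) (by norm_num) (by norm_num) (by norm_num) (by decide +kernel)
theorem t_5_5_23 : Tri 5 5 23 := tri_of (x := 966541012566735841457010073009826979) (y := 976251445681040289664693987458865801)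
  (prog := [[0, 1, 1, 1, 0, 1, 1], [0, 1, 0, 2], [3, 2, 2, 3, 2], [2, 2, 4, 3, 3], [4, 5, 5, 4, 4, 4, 0, 1, 2, 5, 5, 0, 4], [5, 4, 5, 6, 2, 5, 0, 6, 2, 1, 5, 2], [4, 6, 2, 2, 5, 2, 7], [7, 8, 8], [6, 7, 5, 4, 6, 2, 3, 3, 0, 2, 2, 2, 0]]) (by norm_num) (by norm_num) (by norm_num) (by decide +kernel)
theorem t_5_7_7 : Tri 5 7 7 := tri_of (x := 959818453692065455888012373473397376) (y := 968543633607154723873994131136140594)
  (prog := [[0, 1, 0, 1, 1], [2, 2, 2, 0, 0, 0, 2, 2, 0, 0, 2, 0], [2, 3, 2, 2, 1, 2, 0, 3, 1, 2, 0], [3, 3, 4, 2, 2, 4, 2, 2, 3, 4, 3], [5, 5, 3, 3, 3, 4, 4], [4, 5, 5, 2, 2, 4, 2, 0, 1, 0, 1, 1]]) (by norm_num) (by norm_num) (by norm_num) (by decide +kernel)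
theorem t_5_7_11 : Tri 5 7 11 := tri_of (x := 958562310111966607096891662171357229) (y := 979332623517363045840029484496037344)
  (prog := [[0, 0, 1, 1, 1, 0], [1, 2, 1, 1], [2, 1, 2, 2, 2, 3], [4, 3, 3, 4, 4, 2, 1, 3, 2, 4], [5, 5, 5, 4, 4, 1, 5, 3, 2, 5, 3], [3, 6, 4, 4, 5, 3, 6], [6, 6, 7, 6, 5, 6, 7, 7, 3, 3, 4, 3]]) (by norm_num) (by norm_num) (by norm_num) (by decide +kernel)
theorem t_5_7_23 : Tri 5 7 23 := tri_of (x := 972768851413204596630649724289472966) (y := 964472236695522122655536821055337807)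
  (prog := [[0, 0, 0, 0, 1, 1], [2, 2, 2, 0, 0, 0, 0, 1, 1], [1, 3, 0], [4, 2, 2, 2, 3, 4], [5, 3, 5, 2, 2, 2, 4, 3, 3, 5, 4], [3, 6, 3, 6, 2, 0, 0, 3, 1, 2, 0, 0], [7, 7, 5, 7, 6], [7, 7, 7, 8, 6, 7]]) (by norm_num) (by norm_num) (by norm_num) (by decide +kernel)
theorem t_5_11_11 : Tri 5 11 11 := tri_of (x := 964560536550851043032036983767775264) (y := 977843040495322567285478468003895566)
  (prog := [[1, 1, 1, 0, 1, 0], [2, 2, 0, 2, 0, 1, 2, 2, 0, 1, 2, 1, 0], [0, 0, 3, 3], [0, 3, 3, 2, 4, 2, 0], [0, 3, 3, 2, 2, 3, 1, 0, 5, 1, 1, 3], [4, 6, 5, 4, 0, 0, 0, 4, 0, 6], [5, 7, 6, 7]]) (by norm_num) (by norm_num) (by norm_num) (by decide +kernel)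
theorem t_5_11_23 : Tri 5 11 23 := tri_of (x := 974206107307257060299976189868594439) (y := 958767627427320601859306993031233188)
  (prog := [[1, 0, 1, 1], [1, 0, 0, 1, 0, 0], [2, 3, 2], [4, 4, 3, 4, 2, 4, 4], [4, 4, 5, 4, 5], [5, 6, 5, 4, 4, 4, 5, 2, 6, 3, 3, 6, 5], [7, 5, 6, 6, 4, 4, 3, 3, 3, 0, 1, 0, 6, 2, 0, 4], [6, 8, 5, 4, 6, 8, 5, 4]]) (by norm_num) (by norm_num) (by norm_num) (by decide +kernel)
theorem t_5_23_23 : Tri 5 23 23 := tri_of (x := 962744238539023980419790434808664323) (y := 963965308917361816848652055164161197)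
  (prog := [[0, 1, 1, 0], [1, 2, 2, 1, 2, 1], [2, 2, 3, 3, 0, 2, 0, 2, 3], [4, 4, 3, 2, 2, 3, 2, 0, 0, 3, 3, 4, 1], [3, 3, 3, 2, 3, 3, 5, 1, 5, 1, 2], [6, 5, 5, 3, 6, 6, 2, 3, 3, 2, 4], [5, 6, 7, 7, 6], [5, 7, 5, 6, 7]]) (by norm_num) (by norm_num) (by norm_num) (by decide +kernel)
theorem t_7_7_7 : Tri 7 7 7 := tri_of (x := 979000619443012278130814972519102481) (y := 961289923637591519858461806476566208)
  (prog := [[0, 0, 0, 1, 1, 0, 1, 0], [1, 2, 1, 2, 2], [2, 2, 3, 2, 3, 3, 2], [3, 4, 4, 4, 1, 2, 1, 1], [3, 3, 3, 3, 5, 3], [5, 6, 3, 4, 4, 3], [5, 5, 6, 5], [5, 7, 6, 3, 4, 3, 7, 4, 3]]) (by norm_num) (by norm_num) (by norm_num) (by decide +kernel)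
theorem t_7_7_11 : Tri 7 7 11 := tri_of (x := 978305590082609831511012016958054634) (y := 984081172246802057449857200136231498)
  (prog := [[1, 0, 0, 0], [2, 2, 2, 2, 0, 0, 2, 0, 2, 1, 2, 1], [2, 2, 3, 2, 3, 2, 0, 2, 0, 2, 3], [4, 2, 1, 1, 3, 4, 1], [4, 4, 2, 2, 4, 3, 0, 2, 1, 2], [2, 3, 2, 4], [6, 6, 5, 5, 7, 6], [7, 8, 5, 5, 7]]) (by norm_num) (by norm_num) (by norm_num) (by decide +kernel)
theorem t_7_7_23 : Tri 7 7 23 := tri_of (x := 982711089769359938235006666098789524) (y := 961997668058293654872309279782087311)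
  (prog := [[0, 0, 0, 1, 1], [1, 2, 0, 1], [3, 3, 3, 2, 3, 3], [4, 4, 4, 3, 2, 4, 2, 4], [4, 4, 4, 5, 3, 2, 0, 3, 5, 0, 1, 4], [5, 5, 5, 6, 6], [6, 5, 4, 4, 7, 7, 3, 4, 1, 2, 5, 1, 0], [6, 8, 4, 6, 7, 2, 7, 2]]) (by norm_num) (by norm_num) (by norm_num) (by decide +kernel)
theorem t_7_11_11 : Tri 7 11 11 := tri_of (x := 966432240061578885538296380834595915) (y := 967893759054800246127987203331141331)
  (prog := [[1, 0, 1, 1, 1, 0, 1, 1], [0, 2, 2, 1, 1, 1, 1, 2], [2, 2, 3, 2, 0, 0, 1, 0], [3, 0, 3, 4, 4, 4, 1], [4, 4, 5, 3, 3, 5, 5, 2, 3], [4, 4, 5, 2, 2, 5, 3, 3], [7, 7, 5, 5], [8, 6, 8, 8, 7, 7, 6, 4, 7, 4, 0, 0, 3, 1, 3, 3]]) (by norm_num) (by norm_num) (by norm_num) (by decide +kernel)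
theorem t_7_11_23 : Tri 7 11 23 := tri_of (x := 967803627636820403985248118047984705) (y := 964070411471704961525758866944436595)
  (prog := [[0, 0, 1, 0], [1, 1, 0, 1, 2, 1, 0], [3, 3, 0, 0, 0, 0, 1, 3, 3], [2, 2, 4, 2, 2, 2, 3, 3, 4, 4, 0, 3, 1, 3], [5, 2, 3, 2, 4, 3, 4, 5], [2, 2, 4, 6, 4, 5], [7, 7, 6, 7], [6, 8, 7, 4, 2, 3, 8, 0, 8, 1, 2]]) (by norm_num) (by norm_num) (by norm_num) (by decide +kernel)
theorem t_7_23_23 : Tri 7 23 23 := tri_of (x := 981716300612695360099961678585675318) (y := 972387692141268868312351036879722070)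
  (prog := [[1, 1, 0, 0, 0, 1, 1], [1, 1, 1, 0, 1], [3, 3], [2, 4, 2, 2, 4, 2, 4], [3, 5, 0, 0, 2, 5, 0, 1, 4], [6, 6, 5, 4, 6], [4, 6, 5, 6, 7, 6, 6, 6], [5, 7, 6, 8, 2, 1, 6, 3, 2, 5, 1, 0], [4, 9, 5, 9, 7]]) (by norm_num) (by norm_num) (by norm_num) (by decide +kernel)
theorem t_11_11_11 : Tri 11 11 11 := tri_of (x := 970398780720880217978596768407409033) (y := 975630250853676093831635020369974608)
  (prog := [[1, 0, 1, 0, 1, 1], [0, 0, 0, 1, 1, 1, 2], [3, 2, 2, 1, 3, 1, 1, 0], [2, 4, 4, 1, 2, 4, 4, 1], [4, 4, 4, 5, 3, 5, 2, 3], [2, 3, 6, 3, 3], [6, 7, 2, 4, 0, 7, 1, 3, 3], [7, 7, 6, 7, 5, 4, 4, 8, 8, 7, 4, 6]]) (by norm_num) (by norm_num) (by norm_num) (by decide +kernel)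
theorem t_11_11_23 : Tri 11 11 23 := tri_of (x := 956019801277082259236408201029200485) (y := 964476131755465007156971614865034452)
  (prog := [[0, 1, 0, 1, 1], [0, 0, 1], [2, 2, 2, 3, 2], [4, 4, 4, 3, 2, 0, 1, 0, 0], [4, 5, 5, 4, 2, 4, 2, 3, 4], [4, 4, 4, 6, 2, 6, 2, 3, 3, 5, 6], [5, 7, 7, 4, 6, 6, 3, 5, 0, 2, 5, 1, 0], [7, 8, 5, 5, 7, 6]]) (by norm_num) (by norm_num) (by norm_num) (by decide +kernel)
theorem t_11_23_23 : Tri 11 23 23 := tri_of (x := 963387257558758173435138255830267939) (y := 971042330855958195490199224364744911)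
  (prog := [[1, 0, 1, 1, 1, 0], [2, 2, 2, 2, 2, 2, 0, 0, 1, 1, 1, 2, 1, 0], [0, 3, 0], [4, 3, 0, 3, 0], [5, 5, 5, 5, 4, 5, 4, 2, 2, 0, 4, 0, 1, 3], [5, 3, 4, 5, 3, 6, 4], [6, 6, 7, 6, 5, 5, 6, 4, 3, 4]]) (by norm_num) (by norm_num) (by norm_num) (by decide +kernel)
theorem t_23_23_23 : Tri 23 23 23 := tri_of (x := 964533809693561789290476361106310345) (y := 976856864562030114766980572995948877)
  (prog := [[0, 0, 1, 0, 1, 1], [2, 1, 0, 1, 1, 1, 2], [3, 2, 0, 3, 1, 1, 2, 0], [3, 3, 3, 3, 2, 2, 3, 4, 4, 2], [4, 4, 5, 5], [4, 5, 4, 3, 4, 5, 2, 2, 1, 0, 0, 1, 3, 3], [6, 4, 7, 6, 7, 5, 6]]) (by norm_num) (by norm_num) (by norm_num) (by decide +kernel)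

theorem orb (p : GolayPt) : ∃ t ∈ ({gpt 23, gpt 0} : Finset GolayPt), ∃ g : Spor.M23, g • t = p := by
  by_cases h : p = gpt 23
  · exact ⟨gpt 23, by simp, 1, by rw [one_smul, h]⟩
  · obtain ⟨g, h1, h2⟩ := M24_two (p := gpt 23) (q := gpt 0) (p' := gpt 23) (q' := p) (by decide) (Ne.symm h)
    exact ⟨gpt 0, by simp, ⟨g, g.2, h1⟩, h2⟩

theorem sc {x y z : Spor.M23} (h : x * y * z = 1) (hc : Subgroup.closure {x, y} = ⊤) :
    fx GolayPt x + fx GolayPt y + fx GolayPt z⁻¹ ≤ 28 := by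
  have := scott hc _ orb
  rw [card_golayPt, Finset.card_pair (by decide), eq_inv_of_mul_eq_one_left h] at this
  exact this

theorem card_fix (x : Spor.M23) : Nat.card (fixedBy GolayPt x) = (fixSet ⟨x, x.2.1⟩).card := by
  rw [Nat.card_coe_set_eq, ← Set.ncard_coe_finset]
  congr 1; ext p; simp only [mem_fixedBy, Finset.mem_coe, mem_fixSet]; rfl

theorem ord_eq (x : Spor.M23) : orderOf (⟨x, x.2.1⟩ : M24) = orderOf x := by
  rw [← Subgroup.orderOf_coe, ← Subgroup.orderOf_coe x]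

theorem mem_fix (x : Spor.M23) : gpt 23 ∈ fixSet ⟨x, x.2.1⟩ := mem_fixSet.mpr x.2.2

theorem fx1 (x : Spor.M23) : 24 + (orderOf x - 1) ≤ orderOf x * fx GolayPt x := by
  have := fx_ge (Ω := GolayPt) x (f := 1) (by rw [card_fix]; exact Finset.card_pos.mpr ⟨_, mem_fix x⟩)
  rwa [card_golayPt, mul_one] at this

theorem fx2 {x : Spor.M23} (h : orderOf x = 2) : 16 ≤ fx GolayPt x := by
  have := fx_ge (Ω := GolayPt) x (f := 8) (by
    rw [card_fix]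
    obtain ⟨c, e | e⟩ := class2 ((ord_eq x).trans h)
    · rw [e, fixSet_conj, Finset.card_smul_finset, card_fix2A]
    · have := Finset.card_pos.mpr ⟨_, mem_fix x⟩
      rw [e, fixSet_conj, Finset.card_smul_finset, card_fix2B] at this; omega)
  rw [card_golayPt, h] at this; omega

theorem fx3 {x : Spor.M23} (h : orderOf x = 3) : 12 ≤ fx GolayPt x := by
  have := fx_ge (Ω := GolayPt) x (f := 6) (by
    rw [card_fix]
    obtain ⟨c, e | e⟩ := class3 ((ord_eq x).trans h)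
    · rw [e, fixSet_conj, Finset.card_smul_finset, card_fix3A]
    · have := Finset.card_pos.mpr ⟨_, mem_fix x⟩
      rw [e, fixSet_conj, Finset.card_smul_finset, card_fix3B] at this; omega)
  rw [card_golayPt, h] at this; omega

theorem fx5 {x : Spor.M23} (h : orderOf x = 5) : 8 ≤ fx GolayPt x := by
  have := fx_ge (Ω := GolayPt) x (f := 4) (by
    have : Fact (Nat.Prime 5) := ⟨by norm_num⟩
    have hP : IsPGroup 5 (Subgroup.zpowers x) := IsPGroup.of_card (n := 1) (by rw [Nat.card_zpowers, h]; rfl)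
    have := hP.card_modEq_card_fixedPoints GolayPt
    rw [Nat.card_eq_fintype_card, card_golayPt] at this
    have h2 : Nat.card (fixedPoints (Subgroup.zpowers x) GolayPt) ≤ Nat.card (fixedBy GolayPt x) :=
      Nat.card_mono (Set.toFinite _) fun p hp => hp ⟨x, Subgroup.mem_zpowers x⟩
    unfold Nat.ModEq at this; omega)
  rw [card_golayPt, h] at this; omega

theorem fx7 {x : Spor.M23} (h : orderOf x = 7) : 5 ≤ fx GolayPt x := by
  have := fx1 x; rw [h] at this; omega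

theorem fx0 (x : Spor.M23) : 1 ≤ fx GolayPt x := by
  have := fx1 x
  by_contra h
  rw [show fx GolayPt x = 0 by omega] at this; omega

theorem not_tri {p q r : ℕ} (hr : r.Prime) (hqr : q ≤ r) (h : Tri p q r) :
    ¬ ((p = 2 ∧ q = 3) ∨ (p = 2 ∧ q = 5 ∧ r = 5) ∨ (p = 2 ∧ q = 5 ∧ r = 7) ∨ (p = 3 ∧ q = 3 ∧ r ≤ 7)) := by
  obtain ⟨x, y, z, hx, hy, hz, e, hc⟩ := h
  have := sc e hc
  rw [← orderOf_inv] at hz
  rintro (⟨rfl, rfl⟩ | ⟨rfl, rfl, rfl⟩ | ⟨rfl, rfl, rfl⟩ | ⟨rfl, rfl, h7⟩)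
  · have := fx2 hx; have := fx3 hy; have := fx0 z⁻¹; omega
  · have := fx2 hx; have := fx5 hy; have := fx5 hz; omega
  · have := fx2 hx; have := fx5 hy; have := fx7 hz; omega
  · have := fx3 hx; have := fx3 hy
    interval_cases r
    · have := fx3 hz; omega
    · norm_num at hr
    · have := fx5 hz; omega
    · norm_num at hr
    · have := fx7 hz; omega

theorem prime_cases {p : ℕ} (hp : p.Prime) (h : p ∣ 10200960) : p = 2 ∨ p = 3 ∨ p = 5 ∨ p = 7 ∨ p = 11 ∨ p = 23 := by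
  rw [show 10200960 = 2 ^ 7 * (3 ^ 2 * (5 * (7 * (11 * 23)))) by norm_num] at h
  simp only [hp.dvd_mul] at h
  rcases h with h | h | h | h | h | h
  · exact Or.inl ((Nat.prime_dvd_prime_iff_eq hp (by norm_num)).mp (hp.dvd_of_dvd_pow h))
  · exact Or.inr (Or.inl ((Nat.prime_dvd_prime_iff_eq hp (by norm_num)).mp (hp.dvd_of_dvd_pow h)))
  all_goals simp [(Nat.prime_dvd_prime_iff_eq hp (by norm_num)).mp h]

theorem main (p q r : ℕ) (hp : p.Prime) (hq : q.Prime) (hr : r.Prime) (hpq : p ≤ q) (hqr : q ≤ r)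
    (hp2 : ¬ (p = 2 ∧ q = 2)) (hdvd : p ∣ 10200960 ∧ q ∣ 10200960 ∧ r ∣ 10200960) : Tri p q r ↔
      ¬ ((p = 2 ∧ q = 3) ∨ (p = 2 ∧ q = 5 ∧ r = 5) ∨ (p = 2 ∧ q = 5 ∧ r = 7) ∨ (p = 3 ∧ q = 3 ∧ r ≤ 7)) := by
  refine ⟨not_tri hr hqr, fun h => ?_⟩
  rcases prime_cases hp hdvd.1 with rfl | rfl | rfl | rfl | rfl | rfl <;>
  rcases prime_cases hq hdvd.2.1 with rfl | rfl | rfl | rfl | rfl | rfl <;>
  rcases prime_cases hr hdvd.2.2 with rfl | rfl | rfl | rfl | rfl | rfl <;>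
  first
    | omega
    | exact t_2_5_11
    | exact t_2_5_23
    | exact t_2_7_7
    | exact t_2_7_11
    | exact t_2_7_23
    | exact t_2_11_11
    | exact t_2_11_23
    | exact t_2_23_23
    | exact t_3_3_11
    | exact t_3_3_23
    | exact t_3_5_5
    | exact t_3_5_7
    | exact t_3_5_11
    | exact t_3_5_23
    | exact t_3_7_7
    | exact t_3_7_11
    | exact t_3_7_23
    | exact t_3_11_11
    | exact t_3_11_23
    | exact t_3_23_23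
    | exact t_5_5_5
    | exact t_5_5_7
    | exact t_5_5_11
    | exact t_5_5_23
    | exact t_5_7_7
    | exact t_5_7_11
    | exact t_5_7_23
    | exact t_5_11_11
    | exact t_5_11_23
    | exact t_5_23_23
    | exact t_7_7_7
    | exact t_7_7_11
    | exact t_7_7_23
    | exact t_7_11_11
    | exact t_7_11_23
    | exact t_7_23_23
    | exact t_11_11_11
    | exact t_11_11_23
    | exact t_11_23_23
    | exact t_23_23_23

end Cfsg.Agent.H6.M23T
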