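import Mathlib

/-! Arithmetic for the largest nilpotent subgroups of symmetric and alternating groups. -/

set_option autoImplicit false

namespace Cfsg.Agent.H6.NS

open Nat

/-- The exponent of `2` in `n !`. -/
def w (n : ℕ) : ℕ := (n !).factorization 2

theorem w_rec (n : ℕ) : w n = n / 2 + w (n / 2) := by
  have h := factorization_factorial_mul (n := n / 2) prime_two
  rcases Nat.mod_two_eq_zero_or_one n with h1 | h1
  · rw [w, w, add_comm, ← h, Nat.mul_div_cancel' (Nat.dvd_of_mod_eq_zero h1)]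
  · rw [w, w, add_comm, ← h]
    nth_rewrite 1 [show n = 2 * (n / 2) + 1 by omega]
    rw [factorial_succ, Nat.factorization_mul (by omega) (factorial_ne_zero _), Finsupp.add_apply,
      Nat.factorization_eq_zero_of_not_dvd (by omega), zero_add]

theorem w_zero : w 0 = 0 := by simp [w]

theorem w_rec2 (n : ℕ) : w n = n / 2 + n / 4 + w (n / 4) := by
  rw [w_rec, w_rec (n / 2), Nat.div_div_eq_div_mul, add_assoc]

theorem w_small {n : ℕ} (h : n < 32) : w n = n / 2 + n / 4 + n / 8 + n / 16 := by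
  rw [w_rec2, w_rec2 (n / 4), w_rec (n / 4 / 4), show n / 4 / 4 / 2 = 0 by omega, w_zero]
  omega

theorem w_add (a b : ℕ) : w a + w b ≤ w (a + b) := by
  have := (Nat.factorization_le_iff_dvd (by positivity) (factorial_ne_zero _)).2
    (factorial_mul_factorial_dvd_factorial_add a b) 2
  rwa [Nat.factorization_mul (factorial_ne_zero _) (factorial_ne_zero _)] at this

theorem w_mono {a b : ℕ} (h : a ≤ b) : w a ≤ w b := by
  obtain ⟨c, rfl⟩ := Nat.exists_eq_add_of_le h
  exact le_trans (Nat.le_add_right _ _) (w_add a c)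

theorem w_add' (a b : ℕ) : w a + w b + (a + b) / 2 + (a + b) / 4 ≤
    w (a + b) + a / 2 + a / 4 + b / 2 + b / 4 := by
  have h1 := w_add (a / 4) (b / 4)
  have h2 := w_mono (show a / 4 + b / 4 ≤ (a + b) / 4 by omega)
  rw [w_rec2 a, w_rec2 b, w_rec2 (a + b)]
  omega

theorem w_three {n : ℕ} (h : n % 4 = 3) : w n = w (n - 3) + 1 := by
  rw [w_rec2 n, w_rec2 (n - 3), show (n - 3) / 4 = n / 4 by omega]
  omega

theorem w_four {n : ℕ} (h : n % 4 = 3) (h7 : 7 ≤ n) : w (n - 4) + 2 ≤ w (n - 3) := by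
  have := w_mono (show (n - 4) / 4 ≤ (n - 3) / 4 by omega)
  rw [w_rec2 (n - 4), w_rec2 (n - 3)]
  omega

theorem le_w_of_dvd {k n : ℕ} (h : 2 ^ k ∣ n !) : k ≤ w n :=
  (prime_two.pow_dvd_iff_le_factorization (factorial_ne_zero n)).1 h

/-- The largest order of a nilpotent subgroup of the symmetric group of degree `n`. -/
def hS (n : ℕ) : ℕ := if n % 4 = 3 then 3 * 2 ^ (w n - 1) else 2 ^ w n

theorem two_mul_hS (n : ℕ) : 2 * hS n = (if n % 4 = 3 then 3 else 2) * 2 ^ w n := by
  unfold hS
  split_ifs with h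
  · rw [w_three h, Nat.add_sub_cancel, pow_succ]; ring
  · rfl

theorem pow_le_hS (n : ℕ) : 2 ^ w n ≤ hS n := by
  have := two_mul_hS n
  split_ifs at this <;> omega

theorem hS_mul (a b : ℕ) : hS a * hS b ≤ hS (a + b) := by
  have h1 := w_add' a b
  have h2 : ∀ k, w a + w b + k ≤ w (a + b) → 2 ^ w a * 2 ^ w b * 2 ^ k ≤ 2 ^ w (a + b) :=
    fun k h => by rw [← pow_add, ← pow_add]; exact Nat.pow_le_pow_right two_pos h
  have h3 : 2 * hS a * (2 * hS b) ≤ 2 * (2 * hS (a + b)) := by
    rw [two_mul_hS, two_mul_hS, two_mul_hS]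
    have h0 := h2 0 (by omega)
    split_ifs with ha hb hab hab hb hab hab
    · omega
    · have := h2 2 (by omega); nlinarith
    · nlinarith
    · have := h2 1 (by omega); nlinarith
    · nlinarith
    · have := h2 1 (by omega); nlinarith
    · nlinarith [Nat.zero_le (2 ^ w (a + b))]
    · nlinarith
  nlinarith

theorem hS_pos (n : ℕ) : 0 < hS n := lt_of_lt_of_le (by positivity) (pow_le_hS n)

theorem hS_mono {a b : ℕ} (h : a ≤ b) : hS a ≤ hS b := by
  obtain ⟨c, rfl⟩ := Nat.exists_eq_add_of_le h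
  exact le_trans (Nat.le_mul_of_pos_right _ (hS_pos c)) (hS_mul a c)

/-- `hS` for small arguments. -/
def hS' (n : ℕ) : ℕ := if n % 4 = 3 then 3 * 2 ^ (n / 2 + n / 4 + n / 8 + n / 16 - 1)
  else 2 ^ (n / 2 + n / 4 + n / 8 + n / 16)

theorem hS_small {n : ℕ} (h : n < 32) : hS n = hS' n := by rw [hS, hS', w_small h]

/-- Twice the bound for the alternating group, from the bound for the symmetric group. -/
def kk (f : ℕ → ℕ) (n : ℕ) : ℕ := if n ≤ 1 then 2 else if n = 3 then 6 else if n = 5 then 10 else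
  if n = 6 then 18 else if n = 9 then 162 else f n

theorem kk_small {n : ℕ} (h : n < 32) : kk hS n = kk hS' n := by rw [kk, kk, hS_small h]

theorem kk_large {n : ℕ} (h : 10 ≤ n) : kk hS n = hS n := by
  rw [kk, if_neg (by omega), if_neg (by omega), if_neg (by omega), if_neg (by omega),
    if_neg (by omega)]

theorem kk_bounds (n : ℕ) : hS n ≤ kk hS n ∧ kk hS n ≤ 2 * hS n := by
  rcases lt_or_ge n 10 with h | h
  · rw [kk_small (by omega), hS_small (by omega)]
    revert n
    decide
  · rw [kk_large h]; omega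

theorem kk_mul (a b : ℕ) : kk hS a * kk hS b ≤ 2 * kk hS (a + b) := by
  have h1 := hS_mul a b
  have h2 := (kk_bounds (a + b)).1
  rcases lt_or_ge a 10 with ha | ha
  · rcases lt_or_ge b 10 with hb | hb
    · rw [kk_small (by omega), kk_small (by omega), kk_small (by omega)]
      clear h1 h2
      revert a b
      have : ∀ a < 10, ∀ b < 10, kk hS' a * kk hS' b ≤ 2 * kk hS' (a + b) := by decide +kernel
      exact fun a b ha hb => this a ha b hb
    · rw [kk_large hb]
      nlinarith [Nat.mul_le_mul_right (hS b) (kk_bounds a).2]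
  · rw [kk_large ha]
    nlinarith [Nat.mul_le_mul_left (hS a) (kk_bounds b).2]

theorem three_pow_le (n : ℕ) (h : 16 ≤ n) : 4 * 3 ^ (n - 1) ≤ 4 ^ w n := by
  induction n using Nat.strong_induction_on with
  | _ n ih =>
  rcases lt_or_ge n 24 with h1 | h1
  · rw [w_small (by omega)]
    interval_cases n <;> decide
  · have h2 := ih (n - 8) (by omega) (by omega)
    have h3 := w_add (n - 8) 8
    rw [w_small (show 8 < 32 by decide), Nat.sub_add_cancel (by omega)] at h3
    have h4 := Nat.pow_le_pow_right (show 0 < 4 by decide) h3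
    rw [pow_add] at h4
    rw [show n - 1 = n - 8 - 1 + 8 by omega, pow_add]
    norm_num at h4 ⊢
    omega

theorem sq_le_three_pow (p : ℕ) (h : 3 ≤ p) : p ^ 2 ≤ 3 ^ (p - 1) := by
  induction p, h using Nat.le_induction with
  | base => decide
  | succ p hp ih =>
    rw [show p + 1 - 1 = p - 1 + 1 by omega, pow_succ 3]
    nlinarith

theorem odd_pow_le {p k n : ℕ} (hp : p.Prime) (h2 : p ≠ 2) (h : p ^ k ∣ n !) :
    2 * p ^ k ≤ kk hS n := by
  have hk := (hp.pow_dvd_iff_le_factorization (factorial_ne_zero n)).1 h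
  have h3 : 3 ≤ p := by have := hp.two_le; omega
  rcases Nat.eq_zero_or_pos k with rfl | hk0
  · rcases lt_or_ge n 2 with h | h
    · rw [kk, if_pos (by omega), Nat.pow_zero]
    · have := hS_mono h
      rw [hS_small (by decide)] at this
      exact le_trans this (kk_bounds n).1
  have hpn := hp.dvd_factorial.1 ((dvd_pow_self p hk0.ne').trans h)
  have h4 : (p - 1) * k < n := by
    have : Fact p.Prime := ⟨hp⟩
    have h5 := sub_one_mul_padicValNat_factorial_lt_of_ne_zero p (n := n) (by omega)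
    rw [← Nat.factorization_def _ hp] at h5
    exact lt_of_le_of_lt (Nat.mul_le_mul_left _ hk) h5
  rcases lt_or_ge n 16 with h1 | h1
  · rw [kk_small (by omega)]
    have : ∀ n < 16, ∀ p < 16, ∀ k < 8, decide ((p % 2 = 1 ∧ p ≠ 9 ∧ p ≠ 15 ∧ n ! % p ^ k = 0) →
      2 * p ^ k ≤ kk hS' n) = true := by decide +kernel
    refine of_decide_eq_true (this n h1 p (by omega) k ?_)
      ⟨hp.eq_two_or_odd.resolve_left h2, ?_, ?_, Nat.mod_eq_zero_of_dvd h⟩
    · have := Nat.mul_le_mul_right k (show 2 ≤ p - 1 by omega)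
      omega
    · rintro rfl; exact absurd hp (by decide)
    · rintro rfl; exact absurd hp (by decide)
  refine le_trans ?_ ((pow_le_hS n).trans (kk_bounds n).1)
  have h5 : (2 * p ^ k) ^ 2 ≤ (2 ^ w n) ^ 2 := by
    rw [mul_pow, ← pow_mul, ← pow_mul, mul_comm k, mul_comm (w n), pow_mul, pow_mul]
    refine le_trans (Nat.mul_le_mul_left _ ?_) (three_pow_le n h1)
    refine (Nat.pow_le_pow_left (sq_le_three_pow p h3) k).trans ?_
    rw [← pow_mul]
    exact Nat.pow_le_pow_right (by decide) (by omega)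
  exact (Nat.pow_le_pow_iff_left two_ne_zero).1 h5

theorem two_mul_hS_le {a b n : ℕ} (ha : 2 ≤ a) (hb : 2 ≤ b) (hc : a.Coprime b) (h : a * b ≤ n) :
    2 * hS (a + b) ≤ kk hS n := by
  rcases le_or_gt (a + b + 2) n with h1 | h1
  · have h2 := hS_mul (a + b) 2
    rw [hS_small (show 2 < 32 by decide), show hS' 2 = 2 by decide] at h2
    have := hS_mono h1
    have := (kk_bounds n).1
    omega
  have h2 : a + b = 5 ∧ n = 6 := by
    have h3 : a ≤ 3 := by nlinarith
    have h4 : b ≤ 3 := by nlinarith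
    interval_cases a <;> interval_cases b <;> first | omega | exact absurd hc (by decide)
  rw [h2.1, h2.2, hS_small (by decide), kk_small (by decide)]
  decide

end Cfsg.Agent.H6.NS
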