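import Cfsg.Agent.H6.NilSymA
import Cfsg.Agent.H26.Prod

/-! The largest nilpotent subgroups of symmetric and alternating groups (Vdovin). -/

set_option autoImplicit false

namespace Cfsg.Agent.H6.NS

open Subgroup Equiv MulAction
open scoped Nat Pointwise

/-- Restriction of a permutation group to an invariant set. -/
def resHom {X : Type*} (N : Subgroup (Perm X)) (p : X → Prop)
    (h : ∀ g ∈ N, ∀ x, p (g x) ↔ p x) : N →* Perm {x // p x} where
  toFun g := g.1.subtypePerm (h g g.2)
  map_one' := by ext; simp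
  map_mul' a b := by ext; rfl

theorem card_range_eq {G H : Type*} [Group G] [Group H] {f : G →* H} (hf : Function.Injective f) :
    Nat.card f.range = Nat.card G := (Nat.card_congr (MonoidHom.ofInjective hf).toEquiv).symm

theorem nil_range {G H : Type*} [Group G] [Group H] [Group.IsNilpotent G] (f : G →* H) :
    Group.IsNilpotent f.range := Group.nilpotent_of_surjective _ f.rangeRestrict_surjective

theorem nil_bound (n : ℕ) : ∀ (X : Type) [Fintype X] [DecidableEq X], Fintype.card X = n →
    ∀ N : Subgroup (Perm X), Group.IsNilpotent N →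
      Nat.card N ≤ hS n ∧ (N ≤ alternatingGroup X → 2 * Nat.card N ≤ kk hS n) := by
  induction n using Nat.strong_induction_on with
  | _ n ih =>
  intro X _ _ hn N hN
  classical
  have hcard : Nat.card (Perm X) = n ! := by rw [Nat.card_eq_fintype_card, Fintype.card_perm, hn]
  by_cases hpg : ∃ p : ℕ, p.Prime ∧ IsPGroup p N
  · obtain ⟨p, hp, hpN⟩ := hpg
    have : Fact p.Prime := ⟨hp⟩
    obtain ⟨k, hk⟩ := hpN.exists_card_eq
    have h1 : p ^ k ∣ n ! := hk ▸ hcard ▸ card_subgroup_dvd_card N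
    rw [hk]
    by_cases h2 : p = 2
    · subst h2
      refine ⟨(Nat.pow_le_pow_right two_pos (le_w_of_dvd h1)).trans (pow_le_hS n), fun hA => ?_⟩
      rcases lt_or_ge n 2 with h | h
      · have h3 := Nat.le_of_dvd (Nat.factorial_pos n) h1
        rw [kk, if_pos (by omega)]
        interval_cases n <;> simp at h3 <;> omega
      · have : Nontrivial X := Fintype.one_lt_card_iff_nontrivial.1 (by omega)
        have h3 := card_dvd_of_le hA
        have h4 := two_mul_nat_card_alternatingGroup (α := X)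
        rw [hcard] at h4
        have h5 : 2 ^ (k + 1) ∣ n ! := by
          rw [← h4, pow_succ', ← hk]; exact Nat.mul_dvd_mul_left 2 h3
        rw [← pow_succ']
        exact (Nat.pow_le_pow_right two_pos (le_w_of_dvd h5)).trans
          ((pow_le_hS n).trans (kk_bounds n).1)
    · have h3 := odd_pow_le hp h2 h1
      have h4 := (kk_bounds n).2
      exact ⟨by omega, fun _ => h3⟩
  have hN1 : Nat.card N ≠ 1 := fun h => hpg ⟨2, Nat.prime_two, IsPGroup.of_card (n := 0) h⟩
  obtain ⟨x⟩ : Nonempty X := by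
    by_contra h
    rw [not_nonempty_iff] at h
    exact hN1 (Nat.card_unique)
  by_cases htr : ∀ y, y ∈ orbit N x
  swap
  · push Not at htr
    obtain ⟨y, hy⟩ := htr
    let p : X → Prop := fun z => z ∈ orbit N x
    have hp : ∀ g ∈ N, ∀ z, p (g z) ↔ p z := fun g hg z =>
      ⟨fun h => mem_orbit_of_mem_orbit_subgroup (H := ⊤) (by
        obtain ⟨k, hk⟩ := h
        exact ⟨⟨(⟨g, hg⟩ : N)⁻¹ * k, trivial⟩, by
          change ((⟨g, hg⟩ : N)⁻¹ * k) • x = z
          rw [mul_smul, inv_smul_eq_iff]; exact hk⟩), fun ⟨k, hk⟩ => ⟨⟨g, hg⟩ * k, by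
            change (⟨g, hg⟩ * k : N) • x = g z
            rw [mul_smul, ← hk]; rfl⟩⟩
    let f₁ := resHom N p hp
    let f₂ := resHom N (fun z => ¬ p z) fun g hg z => not_congr (hp g hg z)
    have hc : ∀ g : N, (f₁ g).subtypeCongr (f₂ g) = g := fun g => by
      ext z
      by_cases hz : p z
      · rw [Perm.subtypeCongr.left_apply _ _ hz]; rfl
      · rw [Perm.subtypeCongr.right_apply _ _ hz]; rfl
    have ha : Fintype.card {z // p z} < n := hn ▸ Fintype.card_subtype_lt (x := y) hy
    have hb : Fintype.card {z // ¬ p z} < n :=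
      hn ▸ Fintype.card_subtype_lt (x := x) (not_not.2 (mem_orbit_self x))
    have hab : Fintype.card {z // p z} + Fintype.card {z // ¬ p z} = n := by
      rw [Fintype.card_subtype_compl, hn]; omega
    obtain ⟨h1, h1'⟩ := ih _ ha _ rfl f₁.range (nil_range f₁)
    obtain ⟨h2, h2'⟩ := ih _ hb _ rfl f₂.range (nil_range f₂)
    let F := f₁.rangeRestrict.prod f₂.rangeRestrict
    have hF : Function.Injective F := fun a b h => Subtype.ext (by
      rw [← hc a, ← hc b, show f₁ a = f₁ b from congrArg (·.1.1) h,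
        show f₂ a = f₂ b from congrArg (·.2.1) h])
    have h3 := Nat.card_le_card_of_injective F hF
    rw [Nat.card_prod] at h3
    have h4 := hS_mul (Fintype.card {z // p z}) (Fintype.card {z // ¬ p z})
    have h5 := kk_mul (Fintype.card {z // p z}) (Fintype.card {z // ¬ p z})
    rw [hab] at h4 h5
    have h6 := Nat.mul_le_mul h1 h2
    refine ⟨by omega, fun hA => ?_⟩
    let s : f₁.range × f₂.range →* ℤˣ :=
      (Perm.sign.comp f₁.range.subtype).coprod (Perm.sign.comp f₂.range.subtype)
    by_cases hs : s.ker = ⊤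
    · have h7 := Nat.mul_le_mul
        (h1' fun g hg => by simpa [s] using (hs ▸ mem_top _ : ((⟨g, hg⟩, 1) : _ × _) ∈ s.ker))
        (h2' fun g hg => by simpa [s] using (hs ▸ mem_top _ : ((1, ⟨g, hg⟩) : _ × _) ∈ s.ker))
      nlinarith
    · have h7 : F.range ≤ s.ker := by
        rintro _ ⟨g, rfl⟩
        have := Perm.mem_alternatingGroup.1 (hA g.2)
        rw [← hc g, Perm.sign_subtypeCongr] at this
        exact this
      have h8 := card_le_of_le h7
      have h9 := s.ker.card_mul_index
      have h10 : s.ker.index ≠ 1 := fun e => hs (index_eq_one.1 e)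
      have h11 : s.ker.index ≠ 0 := index_ne_zero_of_finite
      rw [card_range_eq hF] at h8
      rw [Nat.card_prod] at h9
      have h12 := Nat.mul_le_mul h8 (show 2 ≤ s.ker.index by omega)
      have := (kk_bounds n).1
      omega
  have : IsPretransitive N X := (isPretransitive_iff_orbit_eq_univ x).2 (Set.eq_univ_of_forall htr)
  have key : ∀ (P H : Subgroup N) [P.Normal] [H.Normal], P ⊓ H = ⊥ → P ⊔ H = ⊤ → P ≠ ⊥ →
      ∃ a, 2 ≤ a ∧ a ∣ n ∧ a ∣ Nat.card P ∧ (a < n → Nat.card P ≤ hS a) := by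
    intro P H _ _ h1 h2 h3
    have hf : Function.Injective (toPermHom P (orbit P x)) := by
      rw [injective_iff_map_eq_one]
      intro g hg
      ext y
      obtain ⟨k, rfl⟩ := htr y
      obtain ⟨b, hb, a, ha, rfl⟩ := mem_sup_of_normal_left.1 (sup_comm P H ▸ h2 ▸ mem_top k : k ∈ H ⊔ P)
      have h4 : (g : N) • (a • x) = a • x :=
        congrArg Subtype.val (DFunLike.congr_fun hg (⟨a • x, ⟨a, ha⟩, rfl⟩ : orbit P x))
      have h5 := commute_of_normal_of_disjoint P H inferInstance inferInstance (disjoint_iff.2 h1)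
        g b g.2 hb
      change (g : N) • (b * a) • x = (b * a) • x
      rw [← mul_smul, ← mul_assoc, h5.eq, mul_assoc, mul_smul, mul_smul, h4, mul_smul]
    have h4 : Fintype.card (orbit P x) = (orbit P x).ncard := by
      rw [← Nat.card_eq_fintype_card, Nat.card_coe_set_eq]
    refine ⟨(orbit P x).ncard, ?_, ?_, ?_, fun h => ?_⟩
    · by_contra h
      have : Subsingleton (orbit P x) := Fintype.card_le_one_iff_subsingleton.1 (by omega)
      exact h3 (eq_bot_iff.2 fun g hg => congrArg Subtype.val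
        (hf (a₁ := ⟨g, hg⟩) (a₂ := 1) (Subsingleton.elim _ _)))
    · rw [← hn, ← Nat.card_eq_fintype_card]
      exact (IsBlock.orbit_of_normal x).ncard_dvd_card ⟨x, mem_orbit_self x⟩
    · rw [← index_stabilizer]; exact index_dvd_card _
    · rw [← card_range_eq hf]
      exact (ih _ h _ h4 _ (nil_range _)).1
  obtain ⟨p, hp, hpN⟩ := Nat.exists_prime_and_dvd hN1
  have : Fact p.Prime := ⟨hp⟩
  obtain ⟨P⟩ : Nonempty (Sylow p N) := inferInstance
  obtain ⟨hPn, H, hHn, h1, h2, h3⟩ := H26.exists_sylow_compl_of_isNilpotent hN P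
  obtain ⟨a, ha, han, haP, ha'⟩ := key P H h2 h3 (P.ne_bot_of_dvd_card hpN)
  obtain ⟨b, hb, hbn, hbH, hb'⟩ := key H P (by rwa [inf_comm]) (by rwa [sup_comm]) fun e =>
    hpg ⟨p, hp, by
      rw [e, sup_bot_eq] at h3
      exact (h3 ▸ P.2 : IsPGroup p (⊤ : Subgroup N)).of_equiv topEquiv⟩
  have hc : a.Coprime b := by
    obtain ⟨k, hk⟩ := P.2.exists_card_eq
    exact Nat.Coprime.coprime_dvd_left haP (Nat.Coprime.coprime_dvd_right hbH
      (hk ▸ Nat.Coprime.pow_left k ((Nat.Prime.coprime_iff_not_dvd hp).2 h1)))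
  have hn0 : 0 < n := hn ▸ Fintype.card_pos_iff.2 ⟨x⟩
  have h4 := Nat.le_of_dvd hn0 (hc.mul_dvd_of_dvd_of_dvd han hbn)
  have h5 := Nat.mul_le_mul (ha' (by nlinarith)) (hb' (by nlinarith))
  have h6 : Nat.card (P : Subgroup N) * Nat.card H = Nat.card N :=
    (isComplement'_of_disjoint_and_mul_eq_univ (disjoint_iff.2 h2)
      (by rw [← normal_mul, h3]; rfl)).card_mul
  have h7 := hS_mul a b
  have h8 := two_mul_hS_le ha hb hc h4
  have h9 := (kk_bounds n).2
  exact ⟨by omega, fun _ => by omega⟩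

theorem card_sylow_perm {n : ℕ} (P : Sylow 2 (Perm (Fin n))) : Nat.card P = 2 ^ w n := by
  rw [P.card_eq_multiplicity, Nat.card_eq_fintype_card, Fintype.card_perm, Fintype.card_fin, w]

theorem card_alt {n : ℕ} (hn : 2 ≤ n) : 2 * Nat.card (alternatingGroup (Fin n)) = n ! := by
  have : Nontrivial (Fin n) := Fin.nontrivial_iff_two_le.2 hn
  rw [two_mul_nat_card_alternatingGroup, Nat.card_eq_fintype_card, Fintype.card_perm,
    Fintype.card_fin]

theorem card_sylow_alt {n : ℕ} (hn : 2 ≤ n) (P : Sylow 2 (alternatingGroup (Fin n))) :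
    2 * Nat.card P = 2 ^ w n := by
  rw [P.card_eq_multiplicity, w, ← card_alt hn, Nat.factorization_mul two_ne_zero Nat.card_pos.ne',
    Finsupp.add_apply, Nat.prime_two.factorization_self, pow_add, pow_one]

theorem alt_bound {n : ℕ} (N : Subgroup (alternatingGroup (Fin n))) (hN : Group.IsNilpotent N) :
    2 * Nat.card N ≤ kk hS n := by
  have e := equivMapOfInjective N _ (alternatingGroup (Fin n)).subtype_injective
  rw [Nat.card_congr e.toEquiv]
  exact (nil_bound n (Fin n) (Fintype.card_fin n) _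
    (Group.nilpotent_of_surjective e.toMonoidHom e.surjective)).2 (map_subtype_le _)

theorem conj_of_card {G : Type*} [Group G] [Finite G] {a : ℕ}
    (h1 : ∀ c d : G, orderOf c = 3 → orderOf d = 3 → 2 ^ a ∣ Nat.card (centralizer ({c} : Set G)) →
      2 ^ a ∣ Nat.card (centralizer ({d} : Set G)) → IsConj c d)
    (h2 : ∀ c : G, orderOf c = 3 → 2 ^ a ∣ Nat.card (centralizer ({c} : Set G)) →
      ¬ 2 ^ (a + 1) ∣ Nat.card (centralizer ({c} : Set G)))
    {N₁ N₂ : Subgroup G} (hN₁ : Group.IsNilpotent N₁) (hN₂ : Group.IsNilpotent N₂)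
    (c₁ : Nat.card N₁ = 3 * 2 ^ a) (c₂ : Nat.card N₂ = 3 * 2 ^ a) :
    ∃ g : G, N₂ = N₁.map (MulAut.conj g).toMonoidHom := by
  have key : ∀ N : Subgroup G, Group.IsNilpotent N → Nat.card N = 3 * 2 ^ a →
      ∃ (c : G) (T : Subgroup G), orderOf c = 3 ∧ T ≤ centralizer ({c} : Set G) ∧
        Nat.card T = 2 ^ a ∧ N = T ⊔ zpowers c := by
    intro N hN hc
    obtain ⟨P⟩ : Nonempty (Sylow 2 N) := inferInstance
    have hP : Nat.card P = 2 ^ a := by
      rw [P.card_eq_multiplicity, hc, Nat.factorization_mul (by decide) (by positivity),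
        Finsupp.add_apply, Nat.factorization_eq_zero_of_not_dvd (by decide),
        Nat.prime_two.factorization_pow, Finsupp.single_eq_same, zero_add]
    obtain ⟨hPn, H, hHn, -, h4, h5⟩ := H26.exists_sylow_compl_of_isNilpotent hN P
    have h6 : Nat.card (P : Subgroup N) * Nat.card H = Nat.card N :=
      (isComplement'_of_disjoint_and_mul_eq_univ (disjoint_iff.2 h4)
        (by rw [← normal_mul, h5]; rfl)).card_mul
    have h7 : Nat.card H = 3 := by
      rw [hc, mul_comm 3, ← hP] at h6
      exact Nat.eq_of_mul_eq_mul_left Nat.card_pos h6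
    have : Fact (Nat.Prime 3) := ⟨Nat.prime_three⟩
    obtain ⟨c, hc3⟩ := exists_prime_orderOf_dvd_card' (G := H) 3 h7.symm.dvd
    have h8 : zpowers (c : N) = H := eq_of_le_of_card_ge (zpowers_le.2 c.2)
      (by rw [Nat.card_zpowers, orderOf_coe, hc3, h7])
    refine ⟨(c : N), (P : Subgroup N).map N.subtype, by rw [orderOf_coe, orderOf_coe, hc3], ?_,
      by rw [card_map_of_injective N.subtype_injective]; exact hP, ?_⟩
    · rintro _ ⟨t, ht, rfl⟩
      exact mem_centralizer_singleton_iff.2 (congrArg Subtype.val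
        (commute_of_normal_of_disjoint _ H hPn hHn (disjoint_iff.2 h4) t c ht c.2).eq)
    · rw [show zpowers ((c : N) : G) = (zpowers (c : N)).map N.subtype from
        (MonoidHom.map_zpowers N.subtype (c : N)).symm, ← Subgroup.map_sup, h8, h5, ← MonoidHom.range_eq_map,
        range_subtype]
  obtain ⟨c, T, hc, hTc, hT, rfl⟩ := key N₁ hN₁ c₁
  obtain ⟨d, U, hd, hUd, hU, rfl⟩ := key N₂ hN₂ c₂
  have hd' : 2 ^ a ∣ Nat.card (centralizer ({d} : Set G)) := hU ▸ card_dvd_of_le hUd
  obtain ⟨g, rfl⟩ := isConj_iff.1 (h1 c d hc hd (hT ▸ card_dvd_of_le hTc) hd')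
  set C := centralizer ({g * c * g⁻¹} : Set G)
  have hT' : T.map (MulAut.conj g).toMonoidHom ≤ C := by
    rintro _ ⟨t, ht, rfl⟩
    have := mem_centralizer_singleton_iff.1 (hTc ht)
    refine mem_centralizer_singleton_iff.2 ?_
    change g * t * g⁻¹ * _ = _ * (g * t * g⁻¹)
    calc g * t * g⁻¹ * (g * c * g⁻¹) = g * (t * c) * g⁻¹ := by group
      _ = _ := by rw [this]; group
  have hf : (Nat.card C).factorization 2 = a := le_antisymm
    (by
      by_contra h
      exact h2 _ hd hd' ((Nat.prime_two.pow_dvd_iff_le_factorization Nat.card_pos.ne').2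
        (Nat.succ_le_of_lt (not_le.1 h))))
    ((Nat.prime_two.pow_dvd_iff_le_factorization Nat.card_pos.ne').1 hd')
  let S₁ : Sylow 2 C := Sylow.ofCard ((T.map (MulAut.conj g).toMonoidHom).subgroupOf C) (by
    rw [hf, Nat.card_congr (subgroupOfEquivOfLe hT').toEquiv,
      card_map_of_injective (MulAut.conj g).injective, hT])
  let S₂ : Sylow 2 C := Sylow.ofCard (U.subgroupOf C) (by
    rw [hf, Nat.card_congr (subgroupOfEquivOfLe hUd).toEquiv, hU])
  obtain ⟨k, hk⟩ := exists_smul_eq C S₁ S₂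
  have hk' : (T.map (MulAut.conj g).toMonoidHom).map (MulAut.conj (k : G)).toMonoidHom = U := by
    refine eq_of_le_of_card_ge ?_ (by
      rw [card_map_of_injective (MulAut.conj _).injective,
        card_map_of_injective (MulAut.conj g).injective, hT, hU])
    rintro _ ⟨t, ht, rfl⟩
    have : MulAut.conj k • (⟨t, hT' ht⟩ : C) ∈ (S₂ : Subgroup C) := by
      rw [← hk, Sylow.coe_subgroup_smul]
      exact smul_mem_pointwise_smul _ _ _ ht
    exact this
  refine ⟨k * g, ?_⟩
  rw [map_mul, show (MulAut.conj (k : G) * MulAut.conj g).toMonoidHom =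
    (MulAut.conj (k : G)).toMonoidHom.comp (MulAut.conj g).toMonoidHom from rfl, ← map_map,
    Subgroup.map_sup, Subgroup.map_sup, hk', MonoidHom.map_zpowers, MonoidHom.map_zpowers]
  congr 2
  exact (mul_inv_eq_iff_eq_mul.2 (mem_centralizer_singleton_iff.1 k.2)).symm

theorem isThreeCycle_of {n a : ℕ} (hn : n % 4 = 3) (ha : w (n - 3) ≤ a + 1) {c : Perm (Fin n)}
    (hc : orderOf c = 3) (h : 2 ^ a ∣ Nat.card (centralizer ({c} : Set (Perm (Fin n))))) :
    c.IsThreeCycle := by
  obtain ⟨k, hk⟩ := Perm.cycleType_prime_order (σ := c) (hc ▸ Nat.prime_three)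
  rw [hc] at hk
  rcases Nat.eq_zero_or_pos k with rfl | hk0
  · exact hk
  exfalso
  have h1 := c.sum_cycleType_le
  rw [Perm.nat_card_centralizer, hk] at h
  rw [hk] at h1
  simp only [Multiset.sum_replicate, smul_eq_mul, Fintype.card_fin, Multiset.prod_replicate,
    Multiset.toFinset_replicate, Nat.add_one_ne_zero, if_false, Finset.prod_singleton,
    Multiset.count_replicate_self] at h h1
  rw [mul_right_comm] at h
  have h2 := le_w_of_dvd ((Nat.Coprime.dvd_of_dvd_mul_right
    (Nat.Coprime.pow _ _ (by decide)) h).trans (Nat.factorial_mul_factorial_dvd_factorial_add _ _))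
  have h3 := w_mono (show n - (k + 1) * 3 + (k + 1) ≤ n - 4 by omega)
  have h4 := w_four hn (by omega)
  omega

theorem card_cent_three {n : ℕ} {c : Perm (Fin n)} (hc : c.IsThreeCycle) :
    Nat.card (centralizer ({c} : Set (Perm (Fin n)))) = (n - 3)! * 3 := by
  rw [Perm.nat_card_centralizer, hc.cycleType]
  simp

theorem exists_embedding {n : ℕ} (hn : 3 ≤ n) :
    ∃ f : Perm (Fin (n - 3)) × Multiplicative (ZMod 3) →* Perm (Fin n), Function.Injective f ∧
      ∀ a b, Perm.sign (f (a, b)) = Perm.sign a := by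
  let e : Fin (n - 3) ⊕ Multiplicative (ZMod 3) ≃ Fin n := Fintype.equivFinOfCardEq (by simp; omega)
  refine ⟨e.permCongrHom.toMonoidHom.comp ((Perm.sumCongrHom _ _).comp
    ((MonoidHom.id _).prodMap (toPermHom _ (Multiplicative (ZMod 3))))),
    e.permCongrHom.injective.comp (Perm.sumCongrHom_injective.comp
      (Function.injective_id.prodMap toPerm_injective)), fun a b => ?_⟩
  change Perm.sign (e.permCongr (Perm.sumCongr a (toPermHom _ (Multiplicative (ZMod 3)) b))) = _
  rw [Perm.sign_permCongr, Perm.sign_sumCongr]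
  have : ∀ b : Multiplicative (ZMod 3), Perm.sign (toPermHom _ (Multiplicative (ZMod 3)) b) = 1 := by
    decide
  rw [this, mul_one]

theorem exists_prod {G P : Type*} [Group G] [Group P] [Finite P] (hP : IsPGroup 2 P)
    (f : P × Multiplicative (ZMod 3) →* G) (hf : Function.Injective f) :
    ∃ M : Subgroup G, Group.IsNilpotent M ∧ Nat.card M = 3 * Nat.card P ∧
      Nonempty (M ≃* (P × Multiplicative (ZMod 3))) := by
  have := hP.isNilpotent
  exact ⟨f.range, nil_range f, by rw [card_range_eq hf, Nat.card_prod, mul_comm]; simp,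
    ⟨(MonoidHom.ofInjective hf).symm⟩⟩

end Cfsg.Agent.H6.NS
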