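import Cfsg.Agent.H26.AbCyc
import Cfsg.Agent.H3.PGroup1
import Cfsg.Agent.H9.MaxClass

/-! Groups of order `p ^ 4`: `|P'| |Z(P)| = p ^ 3` unless `P` is abelian. -/

namespace Cfsg.Agent.H6

open Cfsg.Agent.H3

variable {P : Type*} [Group P] [Finite P] {p : ℕ} [hp : Fact p.Prime]

theorem p4_card_commutator_mul (hP : Nat.card P = p ^ 4) (h : ¬ IsMulCommutative P) :
    Nat.card (commutator P) * Nat.card (Subgroup.center P) = p ^ 3 := by
  have hG : IsPGroup p P := IsPGroup.of_card hP
  have hp1 : 1 < p := hp.out.one_lt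
  obtain ⟨B, hBn, hBc, -, hBs⟩ := exists_selfCentralizing_normal_abelian hG ⊥
    (isMulCommutative_iff_mem.2 (by simp))
  obtain ⟨a, ha⟩ := IsPGroup.iff_card.1 (hG.to_subgroup B)
  have h1 := index_centralizer_le hG a B ha
  have h2 : B.index ≤ (Subgroup.centralizer (B : Set P)).index :=
    Nat.le_of_dvd (Nat.pos_of_ne_zero Subgroup.index_ne_zero_of_finite) (Subgroup.index_dvd_of_le hBs)
  have h3 := B.card_mul_index
  rw [ha, hP] at h3
  have ha4 : a ≤ 4 := (Nat.pow_dvd_pow_iff_le_right hp1).1 ⟨_, h3.symm⟩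
  have hi : B.index = p ^ (4 - a) := by
    apply Nat.eq_of_mul_eq_mul_left (pow_pos hp.out.pos a)
    rw [h3, ← pow_add]; congr 1; omega
  have h4 : 4 - a ≤ a.choose 2 := (Nat.pow_le_pow_iff_right hp1).1 (hi ▸ h2.trans h1)
  have ha3 : a = 3 := by
    have : a ≠ 4 := by
      rintro rfl
      have : B = ⊤ := Subgroup.index_eq_one.1 (by simpa using hi)
      subst this
      apply h
      exact ⟨⟨fun x y => isMulCommutative_iff_mem.1 hBc x trivial y trivial⟩⟩
    interval_cases a <;> simp_all [Nat.choose]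
  subst ha3
  have hcyc : IsCyclic (P ⧸ B) := isCyclic_of_prime_card (p := p) (by
    rw [← Subgroup.index_eq_card, hi]; simp)
  have h5 := H26.card_eq_card_commutator_mul B (isMulCommutative_iff_mem.1 hBc) hcyc
  have h6 : B ⊓ Subgroup.center P = Subgroup.center P :=
    inf_eq_right.2 ((Subgroup.center_le_centralizer _).trans hBs)
  rw [h6, ha] at h5
  exact h5.symm

end Cfsg.Agent.H6
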