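import Cfsg.Agent.H1.Basic

/-! Groups with a normal Sylow subgroup and cyclic quotient. -/

set_option autoImplicit false

namespace Cfsg.Agent.H6

open Subgroup

variable {K : Type*} [Group K] [Finite K] {p : ℕ} [hp : Fact p.Prime]

/-- A group generated by a normal `p`-subgroup and one more element is `p`-by-cyclic. -/
theorem pbc_of_normal (N : Subgroup K) [N.Normal] (hN : IsPGroup p N) (h : K)
    (hgen : ∀ x : K, ∃ n ∈ N, ∃ k : ℤ, x = n * h ^ k) :
    (∀ S : Sylow p K, (S : Subgroup K).Normal) ∧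
      ∀ (S : Sylow p K) [(S : Subgroup K).Normal], IsCyclic (K ⧸ (S : Subgroup K)) := by
  have hle : ∀ S : Sylow p K, N ≤ S := fun S => hN.le_sylow_of_normal S
  have hc : ∀ (M : Subgroup K) [M.Normal], N ≤ M → IsCyclic (K ⧸ M) := fun M _ hM => by
    refine ⟨⟨(h : K ⧸ M), fun x => ?_⟩⟩
    obtain ⟨x, rfl⟩ := QuotientGroup.mk_surjective x
    obtain ⟨n, hn, k, rfl⟩ := hgen x
    refine ⟨k, ?_⟩
    simp only [QuotientGroup.mk_mul, QuotientGroup.mk_zpow,
      (QuotientGroup.eq_one_iff n).2 (hM hn), one_mul]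
  refine ⟨fun S => ⟨fun s hs g => ?_⟩, fun S _ => hc _ (hle S)⟩
  have := hc N le_rfl
  have h1 : g * s * g⁻¹ * s⁻¹ ∈ N := by
    rw [← QuotientGroup.eq_one_iff]
    simp only [QuotientGroup.mk_mul, QuotientGroup.mk_inv]
    rw [mul_comm' (g : K ⧸ N) s]
    group
  simpa using mul_mem (hle S h1) hs

/-- The join of a `p`-subgroup and a normalizing element is `p`-by-cyclic. -/
theorem pbc_sup {G : Type*} [Group G] [Finite G] (S : Subgroup G) (hS : IsPGroup p S) {h : G}
    (hh : h ∈ normalizer (S : Set G)) :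
    (∀ T : Sylow p ↥(S ⊔ zpowers h), (T : Subgroup ↥(S ⊔ zpowers h)).Normal) ∧
      ∀ (T : Sylow p ↥(S ⊔ zpowers h)) [(T : Subgroup ↥(S ⊔ zpowers h)).Normal],
        IsCyclic (↥(S ⊔ zpowers h) ⧸ (T : Subgroup ↥(S ⊔ zpowers h))) := by
  have hle : S ⊔ zpowers h ≤ normalizer (S : Set G) :=
    sup_le le_normalizer (zpowers_le.2 hh)
  have hn : (S.subgroupOf (S ⊔ zpowers h)).Normal := normal_subgroupOf_of_le_normalizer hle
  refine pbc_of_normal (S.subgroupOf (S ⊔ zpowers h)) (hS.comap_subtype)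
    ⟨h, mem_sup_right (mem_zpowers h)⟩ fun x => ?_
  have hx : (x : G) ∈ ((S ⊔ zpowers h : Subgroup G) : Set G) := x.2
  rw [coe_mul_of_right_le_normalizer_left _ _ (zpowers_le.2 hh)] at hx
  obtain ⟨s, hs, _, ⟨k, rfl⟩, e⟩ := hx
  exact ⟨⟨s, mem_sup_left hs⟩, hs, k, Subtype.ext e.symm⟩

theorem isCyclic_of_central_sylow (S : Sylow p K) [(S : Subgroup K).Normal]
    (hS : IsCyclic (S : Subgroup K)) (hq : IsCyclic (K ⧸ (S : Subgroup K)))
    (hc : (S : Subgroup K) ≤ center K) : IsCyclic K := by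
  have hcomm := commutative_of_cyclic_center_quotient (QuotientGroup.mk' (S : Subgroup K))
    (by rwa [QuotientGroup.ker_mk'])
  letI : CommGroup K := { (inferInstance : Group K) with mul_comm := hcomm }
  have : IsCyclic (QuotientGroup.mk' (S : Subgroup K)).ker := by rwa [QuotientGroup.ker_mk']
  refine Group.isCyclic_of_coprime_card_ker (QuotientGroup.mk' (S : Subgroup K)) ?_
    (QuotientGroup.mk'_surjective _)
  rw [QuotientGroup.ker_mk']
  exact S.card_coprime_index

/-- In a `p`-by-cyclic group every element is a power of one element modulo the Sylow subgroup. -/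
theorem exists_gen_mod {G : Type*} [Group G] (N : Subgroup G) [N.Normal] (h : IsCyclic (G ⧸ N)) :
    ∃ g : G, ∀ x : G, ∃ n ∈ N, ∃ k : ℤ, x = n * g ^ k := by
  obtain ⟨g, hg⟩ := h.exists_generator
  obtain ⟨g, rfl⟩ := QuotientGroup.mk_surjective g
  refine ⟨g, fun x => ?_⟩
  obtain ⟨k, hk⟩ := hg (x : G ⧸ N)
  refine ⟨x * (g ^ k)⁻¹, ?_, k, by group⟩
  rw [← QuotientGroup.eq_one_iff]
  simp only [QuotientGroup.mk_mul, QuotientGroup.mk_inv, QuotientGroup.mk_zpow]
  simp only at hk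
  rw [hk, mul_inv_cancel]

end Cfsg.Agent.H6
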