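import Cfsg.Agent.H5.Clifford3
import Cfsg.Agent.H1.Cores
import Cfsg.Agent.H1.SylowIn

/-! Primitive characters: normal subgroups that are abelian modulo the kernel are scalar. -/

namespace Cfsg.Agent.H6

open Cfsg.Agent.H4 Cfsg.Agent.H5 Cfsg.Agent.H1
open scoped commutatorElement

variable {G : Type*} [Group G]

/-- A character not induced from a proper subgroup. -/
def IsPrim [Fintype G] (θ : G → ℂ) : Prop :=
  ∀ T : Subgroup G, ∀ ψ : T → ℂ, IsIrrCharacter T ψ → indFun T ψ = θ → T = ⊤

theorem IsPrim.exists_homog [Fintype G] {θ : G → ℂ} (hp : IsPrim θ) (hθ : IsIrrCharacter G θ)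
    (A : Subgroup G) [A.Normal] : ∃ (φ : A → ℂ) (e : ℕ), IsIrrCharacter A φ ∧ 0 < e ∧
      ∀ a : A, θ a = e * φ a := by
  haveI := Fintype.ofFinite A
  obtain ⟨φ, hφ, h⟩ := exists_irr_under A hθ
  have h1 : (NEmb.ofNormal A).inertia φ = ⊤ := by
    by_contra hne
    obtain ⟨T, hT, -, ψ, hψ, he⟩ := (NEmb.ofNormal A).exists_indFun_of_not_invariant hθ hφ h hne
    exact hT (hp T ψ hψ he)
  obtain ⟨e, he, -, h2⟩ := (NEmb.ofNormal A).clifford_of_invariant_nat hθ hφ
    ((NEmb.ofNormal A).inertia_eq_top_iff.1 h1) h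
  exact ⟨φ, e, hφ, he, h2⟩

theorem IsPrim.le_charCenter [Fintype G] {θ : G → ℂ} (hp : IsPrim θ) (hθ : IsIrrCharacter G θ)
    (A : Subgroup G) [A.Normal] (hA : ⁅A, A⁆ ≤ charKer θ) : A ≤ charCenter θ := by
  obtain ⟨φ, e, hφ, he, h⟩ := hp.exists_homog hθ A
  have he' : (e : ℂ) ≠ 0 := by exact_mod_cast he.ne'
  have h1 : φ 1 = 1 := by
    rw [← hφ.commutator_le_charKer_iff, commutator_def, Subgroup.commutator_le]
    intro a _ b _
    rw [hφ.isCharacter.mem_charKer]
    apply mul_left_cancel₀ he'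
    rw [← h, ← h]
    exact apply_of_mem_charKer (hA (Subgroup.commutator_mem_commutator a.2 b.2))
  intro a ha
  obtain ⟨lam, rfl⟩ := hφ.isCharacter.exists_linear h1
  rw [hθ.isCharacter.mem_charCenter, h ⟨a, ha⟩, show θ 1 = _ from h 1, norm_mul, norm_mul,
    linear_norm, linear_norm]

/-- A solvable normal subgroup all of whose `Q`-normal `p`-subgroups are central is central. -/
theorem le_center_of_forall_normal_pSub {Q : Type*} [Group Q] [Finite Q] {M : Subgroup Q} [M.Normal]
    (hM : Group.IsSolvable M) (h : ∀ p : ℕ, p.Prime → ∀ R : Subgroup Q, R.Normal → R ≤ M →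
      IsPGroup p R → R ≤ Subgroup.center Q) : M ≤ Subgroup.center Q := by
  have h1 : (fittingSubgroup M).map M.subtype ≤ Subgroup.center Q := by
    rw [fittingSubgroup_eq_iSup_pCore, Subgroup.map_iSup, iSup_le_iff]
    intro p
    haveI : Fact (p : ℕ).Prime := ⟨p.2⟩
    exact h p p.2 _ inferInstance (Subgroup.map_subtype_le _) ((isPGroup_pCore p M).map _)
  intro m hm
  refine h1 ⟨⟨m, hm⟩, centralizer_fittingSubgroup_le hM ?_, rfl⟩
  rw [Subgroup.mem_centralizer_iff]
  intro f hf
  exact Subtype.ext (Subgroup.mem_center_iff.1 (h1 ⟨f, hf, rfl⟩) m).symm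

theorem IsPrim.le_charCenter_of_abelian_sylow [Fintype G] {θ : G → ℂ} (hp : IsPrim θ)
    (hθ : IsIrrCharacter G θ) (M : Subgroup G) [M.Normal] (hM : Group.IsSolvable M)
    (hab : ∀ p : ℕ, p.Prime → ∀ S : Subgroup G, S ≤ M → IsPGroup p S → ∀ a ∈ S, ∀ b ∈ S, a * b = b * a) :
    ⁅M, M⁆ ≤ charKer θ := by
  haveI := hθ.isCharacter.charKer_normal
  let π := QuotientGroup.mk' (charKer θ)
  have hπ : Function.Surjective π := QuotientGroup.mk'_surjective _
  haveI : (M.map π).Normal := Subgroup.Normal.map inferInstance π hπ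
  have h1 := le_center_of_forall_normal_pSub (M := M.map π) (isSolvable_map π hM) (by
    intro p hp' R hR hRM hRp
    haveI : Fact p.Prime := ⟨hp'⟩
    obtain ⟨S, hS⟩ := exists_isSylowIn p M
    have h2 : R ≤ S.map π := (hS.map π).le_of_le_normalizer hRM hRp Subgroup.le_normalizer_of_normal
    have h3 := hp.le_charCenter hθ (R.comap π) (by
      rw [Subgroup.commutator_le]
      intro a ha b hb
      obtain ⟨a', ha', ea⟩ := h2 ha
      obtain ⟨b', hb', eb⟩ := h2 hb
      rw [← QuotientGroup.eq_one_iff]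
      change π ⁅a, b⁆ = 1
      rw [map_commutatorElement, ← ea, ← eb, ← map_commutatorElement,
        commutatorElement_eq_one_iff_mul_comm.2 (hab p hp' S hS.le hS.isPGroup a' ha' b' hb'), map_one])
    intro r hr
    obtain ⟨r, rfl⟩ := hπ r
    rw [Subgroup.mem_center_iff]
    intro g
    obtain ⟨g, rfl⟩ := hπ g
    have h4 := hθ.isCharacter.commutator_mem_charKer (h3 hr) g
    rw [← QuotientGroup.eq_one_iff] at h4
    change π _ = 1 at h4
    simp only [map_mul, map_inv] at h4
    rw [mul_inv_eq_one, mul_inv_eq_iff_eq_mul] at h4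
    exact h4.symm)
  rw [Subgroup.commutator_le]
  intro a ha b hb
  rw [← QuotientGroup.eq_one_iff]
  change π ⁅a, b⁆ = 1
  rw [map_commutatorElement, commutatorElement_eq_one_iff_mul_comm]
  exact (Subgroup.mem_center_iff.1 (h1 ⟨a, ha, rfl⟩) _).symm

theorem exists_prim_inducing [Fintype G] {χ : G → ℂ} (hχ : IsIrrCharacter G χ) :
    ∃ (U : Subgroup G) (_ : Fintype U) (θ : U → ℂ), IsIrrCharacter U θ ∧ indFun U θ = χ ∧ IsPrim θ := by
  obtain ⟨U, i, θ, -, h1, h2, h3⟩ := exists_minimal_inducing ⊥ hχ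
  exact ⟨U, i, θ, h1, h2, fun T ψ hψ he => h3 T (by simp) ψ hψ he⟩

/-- If `θ^G` restricts irreducibly to the normal subgroup `N` then `θ` restricts irreducibly to
`U ∩ N`. -/
theorem isIrr_res_inf_of_indFun [Fintype G] {U N : Subgroup G} {θ : U → ℂ}
    (hθ : IsIrrCharacter U θ) (hN : IsIrrCharacter N (fun n : N => indFun U θ n)) :
    IsIrrCharacter (N.subgroupOf U) (fun m => θ m) := by
  classical
  haveI := Fintype.ofFinite U
  haveI := Fintype.ofFinite N
  haveI := Fintype.ofFinite (N.subgroupOf U)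
  obtain ⟨φ, hφ, h⟩ := exists_irr_under (N.subgroupOf U) hθ
  let f : N.subgroupOf U →* N :=
    { toFun := fun x => ⟨x.1.1, x.2⟩, map_one' := rfl, map_mul' := fun _ _ => rfl }
  have hf : Function.Injective f := fun x y e =>
    Subtype.ext (Subtype.ext (congrArg (fun z : N => (z : G)) e))
  have hr : f.range = U.subgroupOf N := by
    ext x
    constructor
    · rintro ⟨y, rfl⟩; exact y.1.2
    · intro hx; exact ⟨⟨⟨x, hx⟩, x.2⟩, rfl⟩
  have h1 : classInner (fun u : U => indFun U θ u) θ ≠ 0 := by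
    rw [← inner_indFun_right U θ (indFun_isClassFunction U θ), Ne, classInner_self_eq_zero]
    exact indFun_ne_zero U hθ.apply_one_ne_zero
  have h2 := inner_comp_ne_zero_of_constituent (N.subgroupOf U).subtype
    (hθ.isCharacter.ind.restrict U) hθ h1 hφ.isCharacter h
  have h3 : classInner (indHom f φ) (fun n : N => indFun U θ n) ≠ 0 := by
    rw [inner_indHom_left f φ hN.isClassFunction, Ne, classInner_eq_zero_symm]
    exact h2
  have h4 := degree_le_of_constituent (isCharacter_indHom f hφ.isCharacter) hN h3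
  simp only [OneMemClass.coe_one] at h4
  rw [indHom_one_of_injective f hf, indFun_one, hr] at h4
  obtain ⟨a, ha0, ha⟩ := hθ.exists_degree
  obtain ⟨b, -, hb⟩ := hφ.exists_degree
  rw [ha, hb] at h4
  have h5 : U.index * a ≤ (U.subgroupOf N).index * b := by
    rw [← Nat.cast_mul, ← Nat.cast_mul, Complex.natCast_re, Complex.natCast_re] at h4
    exact_mod_cast h4
  have h6 : (U.subgroupOf N).index ≤ U.index := by
    rw [← Subgroup.relIndex_top_right U]
    exact Subgroup.relIndex_le_of_le_right (H := U) (K := N) le_top (by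
      rw [Subgroup.relIndex_top_right]; exact Subgroup.index_ne_zero_of_finite)
  have h7 : a ≤ b := Nat.le_of_mul_le_mul_left (h5.trans (Nat.mul_le_mul_right b h6))
    (Nat.pos_of_ne_zero Subgroup.index_ne_zero_of_finite)
  have h8 := eq_of_constituent_of_degree_le (hθ.isCharacter.restrict (N.subgroupOf U)) hφ h (by
    simp only [OneMemClass.coe_one]
    rw [ha, hb, Complex.natCast_re, Complex.natCast_re]
    exact_mod_cast h7)
  rw [h8]; exact hφ

end Cfsg.Agent.H6
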