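import Mathlib

/-! Scott's lemma for permutation modules (Ree's inequality). -/

set_option autoImplicit false

namespace Cfsg.Agent.H6.ReeI

open MulAction Module

variable {G Ω : Type*} [Group G] [MulAction G Ω]

/-- the operator `f ↦ f (g⁻¹ • ·)` -/
def op (g : G) : (Ω → ℚ) →ₗ[ℚ] (Ω → ℚ) := LinearMap.funLeft ℚ ℚ (fun x => g⁻¹ • x)

theorem op_apply (g : G) (f : Ω → ℚ) (x : Ω) : op g f x = f (g⁻¹ • x) := rfl

theorem op_mul (g h : G) (f : Ω → ℚ) : op (g * h) f = op g (op h f) := by
  funext x; simp [op_apply, mul_smul]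

theorem op_one (f : Ω → ℚ) : op (1 : G) f = f := by funext x; simp [op_apply]

/-- `1 - g` -/
def dl (g : G) : (Ω → ℚ) →ₗ[ℚ] (Ω → ℚ) := LinearMap.id - op g

theorem dl_apply (g : G) (f : Ω → ℚ) : dl g f = f - op g f := rfl

theorem mem_ker_dl {g : G} {f : Ω → ℚ} : f ∈ LinearMap.ker (dl g : (Ω → ℚ) →ₗ[ℚ] (Ω → ℚ)) ↔ op g f = f := by
  rw [LinearMap.mem_ker, dl_apply, sub_eq_zero, eq_comm]

theorem range_le {x y : G} (h : Subgroup.closure {x, y} = ⊤) (g : G) (f : Ω → ℚ) :
    dl g f ∈ LinearMap.range (dl x : (Ω → ℚ) →ₗ[ℚ] (Ω → ℚ)) ⊔ LinearMap.range (dl y) := by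
  have hg : g ∈ Subgroup.closure {x, y} := h ▸ Subgroup.mem_top g
  induction hg using Subgroup.closure_induction generalizing f with
  | mem a ha =>
    rcases ha with rfl | rfl
    · exact Submodule.mem_sup_left ⟨f, rfl⟩
    · exact Submodule.mem_sup_right ⟨f, rfl⟩
  | one => rw [dl_apply, op_one, sub_self]; exact zero_mem _
  | mul a b _ _ ha hb =>
    have : dl (a * b) f = dl b f + dl a (op b f) := by rw [dl_apply, dl_apply, dl_apply, op_mul]; abel
    rw [this]; exact add_mem (hb _) (ha _)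
  | inv a _ ha =>
    have : dl a⁻¹ f = - dl a (op a⁻¹ f) := by
      rw [dl_apply, dl_apply, ← op_mul, mul_inv_cancel, op_one]; abel
    rw [this]; exact neg_mem (ha _)

theorem fix_all {x y : G} (h : Subgroup.closure {x, y} = ⊤) {f : Ω → ℚ} (hx : op x f = f) (hy : op y f = f) (g : G) :
    op g f = f := by
  have hg : g ∈ Subgroup.closure {x, y} := h ▸ Subgroup.mem_top g
  induction hg using Subgroup.closure_induction with
  | mem a ha => rcases ha with rfl | rfl <;> assumption
  | one => exact op_one f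
  | mul a b _ _ ha hb => rw [op_mul, hb, ha]
  | inv a _ ha => conv_lhs => rw [← ha]
                  rw [← op_mul, inv_mul_cancel, op_one]

variable [Fintype Ω] [DecidableEq Ω]

/-- dimension of the fixed space -/
noncomputable def fx (Ω : Type*) [MulAction G Ω] (g : G) : ℕ := finrank ℚ (LinearMap.ker (dl g : (Ω → ℚ) →ₗ[ℚ] (Ω → ℚ)))

theorem scott {x y : G} (h : Subgroup.closure {x, y} = ⊤) (T : Finset Ω) (hT : ∀ p : Ω, ∃ t ∈ T, ∃ g : G, g • t = p) :
    fx Ω x + fx Ω y + fx Ω (x * y) ≤ Fintype.card Ω + 2 * T.card := by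
  set X := LinearMap.range (dl x : (Ω → ℚ) →ₗ[ℚ] (Ω → ℚ))
  set Y := LinearMap.range (dl y : (Ω → ℚ) →ₗ[ℚ] (Ω → ℚ))
  have h1 : finrank ℚ X + fx Ω x = Fintype.card Ω := by
    rw [fx, LinearMap.finrank_range_add_finrank_ker]; simp
  have h2 : finrank ℚ Y + fx Ω y = Fintype.card Ω := by
    rw [fx, LinearMap.finrank_range_add_finrank_ker]; simp
  have h3 := Submodule.finrank_sup_add_finrank_inf_eq X Y
  -- the sum has codimension at most `|T|`
  have h4 : Fintype.card Ω ≤ finrank ℚ (X ⊔ Y : Submodule ℚ _) + T.card := by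
    set S : Submodule ℚ (Ω → ℚ) := Submodule.span ℚ ((T.image fun t => (Pi.single t 1 : Ω → ℚ) : Finset _) : Set _)
    have hS : finrank ℚ S ≤ T.card := (finrank_span_finset_le_card _).trans Finset.card_image_le
    have htop : (X ⊔ Y) ⊔ S = ⊤ := by
      rw [eq_top_iff, ← (Pi.basisFun ℚ Ω).span_eq, Submodule.span_le]
      rintro _ ⟨p, rfl⟩
      obtain ⟨t, ht, g, rfl⟩ := hT p
      have e : (Pi.basisFun ℚ Ω) (g • t) = - dl g (Pi.single t 1) + Pi.single t 1 := by
        funext z
        simp only [Pi.basisFun_apply, dl_apply, Pi.add_apply, Pi.neg_apply, Pi.sub_apply, op_apply, Pi.single_apply,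
          inv_smul_eq_iff]
        ring
      rw [SetLike.mem_coe, e]
      exact add_mem (Submodule.mem_sup_left (neg_mem (range_le h g _)))
        (Submodule.mem_sup_right (Submodule.subset_span (by simpa using ⟨t, ht, rfl⟩)))
    have := Submodule.finrank_sup_add_finrank_inf_eq (X ⊔ Y) S
    rw [htop, finrank_top] at this
    simp only [finrank_fintype_fun_eq_card] at this
    omega
  -- the fixed space of `x * y`
  set F := LinearMap.ker (dl (x * y) : (Ω → ℚ) →ₗ[ℚ] (Ω → ℚ))
  have h5 : fx Ω (x * y) ≤ finrank ℚ (X ⊓ Y : Submodule ℚ _) + T.card := by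
    let φ : F →ₗ[ℚ] (X ⊓ Y : Submodule ℚ _) × (T → ℚ) :=
      LinearMap.prod (LinearMap.codRestrict _ ((dl y).comp F.subtype) (by
        rintro ⟨f, hf⟩
        refine ⟨⟨- op y f, ?_⟩, ⟨f, rfl⟩⟩
        have := mem_ker_dl.mp hf
        rw [op_mul] at this
        simp only [map_neg, dl_apply, this, LinearMap.comp_apply, Submodule.subtype_apply]; abel))
        ((LinearMap.funLeft ℚ ℚ (fun t : T => (t : Ω))).comp F.subtype)
    have hφ : Function.Injective φ := by
      rw [injective_iff_map_eq_zero]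
      rintro ⟨f, hf⟩ e
      have e1 : dl y f = 0 := congrArg (fun z => (z.1 : Ω → ℚ)) e
      have e2 : ∀ t : T, f t = 0 := fun t => congrFun (congrArg Prod.snd e) t
      have hy : op y f = f := mem_ker_dl.mp e1
      have hx : op x f = f := by have := mem_ker_dl.mp hf; rwa [op_mul, hy] at this
      apply Subtype.ext; funext p
      obtain ⟨t, ht, g, rfl⟩ := hT p
      have := congrFun (fix_all h hx hy g⁻¹) t
      rw [op_apply, inv_inv] at this
      exact this.trans (e2 ⟨t, ht⟩)
    have := LinearMap.finrank_le_finrank_of_injective hφ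
    rw [finrank_prod] at this
    change finrank ℚ F ≤ _
    simpa using this
  omega

theorem orbits_le (g : G) : Nat.card (orbitRel.Quotient (Subgroup.zpowers g) Ω) ≤ fx Ω g := by
  classical
  let Q := orbitRel.Quotient (Subgroup.zpowers g) Ω
  let φ : (Q → ℚ) →ₗ[ℚ] LinearMap.ker (dl g : (Ω → ℚ) →ₗ[ℚ] (Ω → ℚ)) :=
    LinearMap.codRestrict _ (LinearMap.funLeft ℚ ℚ (fun p : Ω => (Quotient.mk _ p : Q))) (by
      intro f
      rw [mem_ker_dl]; funext p
      simp only [op_apply, LinearMap.funLeft_apply]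
      congr 1
      exact Quotient.sound ⟨⟨g⁻¹, Subgroup.inv_mem _ (Subgroup.mem_zpowers g)⟩, rfl⟩)
  have hφ : Function.Injective φ := by
    intro a b e
    funext q
    obtain ⟨p, rfl⟩ := Quotient.exists_rep q
    exact congrFun (congrArg Subtype.val e) p
  have := LinearMap.finrank_le_finrank_of_injective hφ
  have : Fintype Q := Fintype.ofFinite Q
  rw [Nat.card_eq_fintype_card]
  simpa using ‹finrank ℚ (Q → ℚ) ≤ _›

theorem fx_ge [Finite G] (g : G) {f : ℕ} (hf : f ≤ Nat.card (fixedBy Ω g)) :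
    Fintype.card Ω + (orderOf g - 1) * f ≤ orderOf g * fx Ω g := by
  classical
  let H := Subgroup.zpowers g
  have : Fintype H := Fintype.ofFinite H
  have : Fintype (orbitRel.Quotient H Ω) := Fintype.ofFinite _
  have hb := MulAction.sum_card_fixedBy_eq_card_orbits_mul_card_group H Ω
  have ho := orbits_le (Ω := Ω) g
  have hc : Fintype.card H = orderOf g := by rw [← Nat.card_eq_fintype_card, Nat.card_zpowers]
  rw [← Finset.add_sum_erase _ _ (Finset.mem_univ (1 : H))] at hb
  have h1 : Fintype.card (fixedBy Ω (1 : H)) = Fintype.card Ω := by simp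
  have h2 : (Finset.univ.erase (1 : H)).card • f ≤ ∑ a ∈ Finset.univ.erase (1 : H), Fintype.card (fixedBy Ω a) := by
    refine Finset.card_nsmul_le_sum _ _ _ fun a _ => hf.trans ?_
    rw [← Nat.card_eq_fintype_card]
    refine Nat.card_mono (Set.toFinite _) fun p hp => ?_
    obtain ⟨a, k, rfl⟩ := a
    exact MulAction.fixedBy_subset_fixedBy_zpow Ω g k hp
  rw [Finset.card_erase_of_mem (Finset.mem_univ _), Finset.card_univ, hc, smul_eq_mul] at h2
  rw [h1, hc] at hb
  rw [Nat.card_eq_fintype_card] at ho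
  calc _ ≤ _ := Nat.add_le_add_left h2 _
    _ = _ := hb
    _ ≤ orderOf g * fx Ω g := by rw [mul_comm]; exact Nat.mul_le_mul_left _ ho

end Cfsg.Agent.H6.ReeI
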