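import Mathlib

/-! General lemmas for two-element generation. -/

set_option autoImplicit false

namespace Cfsg.Agent.H6.Two

open Subgroup

variable {G G' : Type*} [Group G] [Group G']

/-- generated by two elements -/
def Gen2 (G : Type*) [Group G] : Prop := ∃ a b : G, closure {a, b} = ⊤

theorem Gen2.map (h : Gen2 G) (f : G →* G') (hf : Function.Surjective f) : Gen2 G' := by
  obtain ⟨a, b, h⟩ := h
  have := congrArg (Subgroup.map f) h
  rw [MonoidHom.map_closure, Set.image_pair, map_top_of_surjective f hf] at this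
  exact ⟨_, _, this⟩

theorem Gen2.equiv (h : Gen2 G) (e : G ≃* G') : Gen2 G' := h.map e.toMonoidHom e.surjective

theorem Gen2.quot (h : Gen2 G) (N : Subgroup G) [N.Normal] : Gen2 (G ⧸ N) :=
  h.map (QuotientGroup.mk' N) (QuotientGroup.mk'_surjective N)

theorem gen2_of {H : Subgroup G} {a b : G} (ha : a ∈ H) (hb : b ∈ H) (h : ∀ M : Subgroup G, a ∈ M → b ∈ M → H ≤ M) :
    Gen2 H := by
  refine ⟨⟨a, ha⟩, ⟨b, hb⟩, map_injective H.subtype_injective ?_⟩
  rw [← MonoidHom.range_eq_map, range_subtype]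
  exact le_antisymm (map_subtype_le _) (h _ ⟨_, subset_closure (Set.mem_insert _ _), rfl⟩
    ⟨_, subset_closure (Set.mem_insert_of_mem _ rfl), rfl⟩)

theorem split {M : Subgroup G} {u s : G} (c : Commute u s) {p N : ℕ} (hu : u ^ p = 1) (hs : s ^ N = 1) (h : N.Coprime p)
    (m : u * s ∈ M) : u ∈ M ∧ s ∈ M := by
  have : u ∈ M := by
    have h1 := pow_mem m N
    rw [c.mul_pow, hs, mul_one] at h1
    obtain ⟨k, hk⟩ := exists_pow_eq_self_of_coprime (h.coprime_dvd_right (orderOf_dvd_of_pow_eq_one hu))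
    exact hk ▸ pow_mem h1 k
  exact ⟨this, (M.mul_mem_cancel_left this).1 m⟩

theorem cj {M : Subgroup G} {g x : G} (hg : g ∈ M) (hx : x ∈ M) : g * x * g⁻¹ ∈ M := mul_mem (mul_mem hg hx) (inv_mem hg)

theorem cyc {n : ℕ} {P Q : Fin (n + 1) → Prop} (hP : ∀ i : Fin n, P i.castSucc → P i.succ)
    (hQ : ∀ i : Fin n, Q i.castSucc → Q i.succ) (h1 : P (Fin.last n) → Q 0) (h2 : Q (Fin.last n) → P 0) {i : Fin (n + 1)}
    (hi : P i) : (∀ j, P j) ∧ ∀ j, Q j := by
  have up : ∀ j, i ≤ j → P j := fun j hj => by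
    induction j using Fin.induction with
    | zero => rwa [← le_antisymm hj (Fin.zero_le _)]
    | succ j ih =>
      rcases hj.eq_or_lt with rfl | hj
      · exact hi
      · exact hP _ (ih (Fin.le_castSucc_iff.2 hj))
  have a : ∀ j, Q j := Fin.induction (h1 (up _ (Fin.le_last _))) hQ
  exact ⟨Fin.induction (h2 (a _)) hP, a⟩

/-- an additive subgroup containing `1` and stable under an element outside all proper subfields -/
theorem field_ind {F : Type*} [Field F] [Finite F] {P : F → Prop} (h0 : P 0) (h1 : P 1) (ha : ∀ a b, P a → P b → P (a + b))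
    {ζ : Fˣ} (hζ : ∀ u, u ∈ zpowers ζ) (h2 : ∀ a, P a → P (ζ ^ 2 * a)) (a : F) : P a := by
  have sq : ∀ e : F, P (e ^ 2) := fun e => by
    by_cases h : e = 0
    · simpa [h] using h0
    obtain ⟨m, hm⟩ := mem_powers_iff_mem_zpowers.2 (hζ (Units.mk0 e h))
    rw [show e = ζ ^ m by simpa using congrArg Units.val hm.symm]
    clear hm
    induction m with
    | zero => simpa using h1
    | succ m ih => convert h2 _ ih using 1; ring
  haveI := Fintype.ofFinite F
  obtain ⟨p, hp⟩ := CharP.exists F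
  by_cases h : ringChar F = 2
  · obtain ⟨b, rfl⟩ := FiniteField.isSquare_of_char_two h a
    simpa [pow_two] using sq b
  obtain ⟨x, y, e⟩ := FiniteField.exists_root_sum_quadratic (f := Polynomial.X ^ 2) (g := Polynomial.X ^ 2 - Polynomial.C a)
    (Polynomial.degree_X_pow 2) (Polynomial.degree_X_pow_sub_C (by norm_num) _) (FiniteField.odd_card_of_char_ne_two h)
  rw [show a = x ^ 2 + y ^ 2 by simp at e; linear_combination -e]
  exact ha _ _ (sq x) (sq y)

end Cfsg.Agent.H6.Two
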