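import Cfsg.Agent.H6.TwoA
import Cfsg.Agent.H13.Low6
import Cfsg.Agent.H13.SylO
import Cfsg.Agent.H6.SpT

/-! The finite orthogonal groups `Ω` are generated by two elements. -/

set_option autoImplicit false

namespace Cfsg.Agent.H6.Two

open Cfsg.Agent.H13 Subgroup Module QuadraticMap

variable {F V : Type*} [Field F] [AddCommGroup V] [Module F V] {Q : QuadraticForm F V} {M : Subgroup (OG Q)}

theorem le_of_rad [FiniteDimensional F V] [Finite F] (hQ : ND Q) (hn : 5 ≤ finrank F V) {e f : V} (h : HP Q e f)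
    (he : ∀ a, polar Q e a = 0 → sieg Q e a ∈ M) (hf : ∀ a, polar Q f a = 0 → sieg Q f a ∈ M) : Om Q ≤ M := by
  let R : V → Prop := fun y => ∀ a, polar Q y a = 0 → sieg Q y a ∈ M
  have r1 : ∀ g ∈ M, ∀ y, R y → R (g.1 y) := fun g hg y hy a ha => by
    have := cj hg (hy ((g⁻¹).1 a) (by rwa [← OG_polar_left]))
    rwa [conj_sieg, OG_apply_inv] at this
  have r2 : ∀ e f, HP Q e f → R e → R f → ∀ y, Q y = 0 → polar Q e y ≠ 0 → R y := fun e f h he hf y hy h0 => by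
    obtain ⟨a, ha, e1⟩ := exists_sieg_map (x := polar Q e y • f) h.Qu (y := y) (by simp [Q_smul, h.Qv, hy]) (by simp [h.uv])
      (by simpa [h.uv])
    refine e1 ▸ r1 _ (he a ha) _ fun b hb => ?_
    have hb' : polar Q f b = 0 := by simpa [h0] using hb
    rw [sieg_smul_left h.Qv hb']
    exact hf _ (by simp [hb'])
  rw [← hQ.closure_Root hn, closure_le]
  rintro _ ⟨y, a, hy, -, ha, rfl⟩
  by_cases h1 : polar Q e y = 0
  swap
  · exact r2 e f h he hf y hy h1 a ha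
  by_cases h2 : polar Q f y = 0
  swap
  · exact r2 f e h.symm hf he y hy h2 a ha
  by_cases h3 : y = 0
  · rw [h3, sieg_zero_left]; exact one_mem _
  obtain ⟨b, hb⟩ := (h.nd_pp hQ).exists_ne (x := ⟨y, mem_perp_pair.2 ⟨h1, h2⟩⟩) (by simpa using h3)
  rw [polar_restrict] at hb
  have := r1 _ (inv_mem (he b (pp_left b))) _ (r2 f e h.symm hf he ((sieg Q e b).1 y) (by simpa) (by
    rw [sieg_apply_of_perp h.Qu (pp_left b) h1]; simpa [h2, h.vu, polar_comm Q b]))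
  rw [OG_inv_apply_apply] at this
  exact this a ha

variable {ι : Type*} [DecidableEq ι] {e f : ι → V}

theorem hypPerp_symm {x : V} (h : x ∈ hypPerp Q e f) : x ∈ hypPerp Q f e := mem_hypPerp.2 (mem_hypPerp.1 h).symm

theorem long_mem {u x a b : V} (hu : Q u = 0) (hx : Q x = 0) (h1 : polar Q x u = 0) (h2 : polar Q a u = 0) (h3 : polar Q x a = 0)
    (h4 : polar Q u b = 0) (h5 : polar Q x b = 0) (m1 : sieg Q x a ∈ M) (m2 : sieg Q u b ∈ M) :
    sieg Q u (polar Q a b • x) ∈ M := by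
  have := cj m1 m2
  rwa [conj_sieg, sieg_apply_of_perp_perp h1 h2, sieg_apply_of_perp hx h3 h5, sieg_add hu h4 (by simp [polar_comm Q u, h1]),
    M.mul_mem_cancel_left m2] at this

theorem rad_mem [Fintype ι] (h : HypFam Q e f) {w w' : V} (hw : w ∈ hypPerp Q e f) (hw' : w' ∈ hypPerp Q e f)
    (h0 : polar Q w w' ≠ 0) (h1 : ∀ i, ∀ x ∈ hypPerp Q e f, sieg Q (e i) x ∈ M) (h2 : ∀ i, ∀ x ∈ hypPerp Q e f, sieg Q (f i) x ∈ M)
    (i : ι) (a : V) (ha : polar Q (e i) a = 0) : sieg Q (e i) a ∈ M := by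
  let A : AddSubgroup V :=
    { carrier := {a | polar Q (e i) a = 0 ∧ sieg Q (e i) a ∈ M}
      add_mem' := fun ha hb => ⟨by simp [ha.1, hb.1], by rw [sieg_add (h.Qe i) ha.1 hb.1]; exact mul_mem ha.2 hb.2⟩
      zero_mem' := ⟨by simp, by rw [sieg_zero]; exact one_mem _⟩
      neg_mem' := fun ha => ⟨by simp [ha.1], by rw [sieg_neg (h.Qe i) ha.1]; exact inv_mem ha.2⟩ }
  obtain ⟨a1, a2⟩ := mem_hypPerp.1 hw
  obtain ⟨b1, b2⟩ := mem_hypPerp.1 hw'
  have key : ∀ x, Q x = 0 → polar Q x (e i) = 0 → polar Q x w = 0 → polar Q x w' = 0 → (∀ y ∈ hypPerp Q e f, sieg Q x y ∈ M) →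
      ∀ t : F, t • x ∈ A := fun x x1 x2 x3 x4 x5 t => ⟨by simp [polar_comm Q (e i), x2], by
    have := long_mem (a := (t / polar Q w w') • w) (h.Qe i) x1 x2 (by simp [polar_comm Q w, a1]) (by simp [x3]) (b1 i) x4
      (x5 _ (Submodule.smul_mem _ _ hw)) (h1 i _ hw')
    simpa [h0] using this⟩
  have := add_mem (show _ ∈ A from ⟨(mem_hypPerp.1 (h.proj_mem a)).1 i, h1 i _ (h.proj_mem a)⟩)
    (add_mem (A.sum_mem (t := Finset.univ) fun j _ => key _ (h.Qe j) (h.ee j i) (a1 j) (b1 j) (h1 j) (polar Q (f j) a))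
      (A.sum_mem (t := Finset.univ) (f := fun j => polar Q (e j) a • f j) fun j _ => by
        by_cases c : j = i
        · simp [c, ha]
        · exact key _ (h.Qf j) (by simp [h.fe, c]) (a2 j) (b2 j) (h2 j) _))
  rw [sub_add_cancel] at this
  exact this.2

/-- an element of `SL₂` -/
noncomputable def sl (Q : QuadraticForm F V) (e f : ι → V) (i j : ι) (α c : F) : OG Q :=
  sieg Q (e i) (α • f j) * sieg Q (e j) (-c⁻¹ • f i) * sieg Q (e i) (c • f j)

theorem sl_apply (h : HypFam Q e f) {i j : ι} (hij : i ≠ j) (α : F) {c : F} (hc : c ≠ 0) (x : V) : (sl Q e f i j α c).1 x =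
    x + (c * polar Q (f j) x - α / c * polar Q (f i) x) • e i - (polar Q (f i) x / c + polar Q (f j) x) • e j
      + (polar Q (e j) x / c - polar Q (e i) x) • f i - (c * polar Q (e i) x + α / c * polar Q (e j) x) • f j := by
  simp only [sl, OG_mul_apply]
  rw [sieg_apply (h.Qe i) (by simp [h.ef, hij]), sieg_apply (h.Qe j) (by simp [h.ef, hij.symm]),
    sieg_apply (h.Qe i) (by simp [h.ef, hij])]
  simp [Q_smul, h.Qf, h.ee, h.ff, h.ef, h.fe, hij, hij.symm]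
  match_scalars <;> field_simp <;> ring

theorem sl_e (h : HypFam Q e f) {i j : ι} (hij : i ≠ j) (α : F) {c : F} (hc : c ≠ 0) (k : ι) : (sl Q e f i j α c).1 (e k) =
    if k = i then (1 - α / c) • e i - c⁻¹ • e j else if k = j then c • e i else e k := by
  rw [sl_apply h hij α hc]
  by_cases a : k = i
  · simp [a, h.ee, h.fe, hij.symm, h.Qe]; module
  by_cases b : k = j
  · simp [b, h.ee, h.fe, hij, hij.symm, h.Qe]
  simp [a, b, Ne.symm a, Ne.symm b, h.ee, h.fe]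

theorem sl_f (h : HypFam Q e f) {i j : ι} (hij : i ≠ j) (α : F) {c : F} (hc : c ≠ 0) (k : ι) : (sl Q e f i j α c).1 (f k) =
    if k = i then -c • f j else if k = j then c⁻¹ • f i + (1 - α / c) • f j else f k := by
  rw [sl_apply h hij α hc]
  by_cases a : k = i
  · simp [a, h.ff, h.ef, hij.symm, h.Qf]
  by_cases b : k = j
  · simp [b, h.ff, h.ef, hij, hij.symm, h.Qf]; module
  simp [a, b, Ne.symm a, Ne.symm b, h.ff, h.ef]

theorem sl_w (h : HypFam Q e f) {i j : ι} (hij : i ≠ j) (α : F) {c : F} (hc : c ≠ 0) {w : V} (hw : w ∈ hypPerp Q e f) :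
    (sl Q e f i j α c).1 w = w := by
  simp [sl_apply h hij α hc, mem_hypPerp.1 hw]

theorem og_ext [Fintype ι] (h : HypFam Q e f) {g : OG Q} (h1 : ∀ i, g.1 (e i) = e i) (h2 : ∀ i, g.1 (f i) = f i)
    (h3 : ∀ w ∈ hypPerp Q e f, g.1 w = w) : g = 1 := OG_ext fun x => by
  have := h3 _ (h.proj_mem x)
  simp only [map_sub, map_add, map_sum, map_smul, h1, h2] at this
  exact sub_left_injective this

theorem exists_perm [Fintype ι] [FiniteDimensional F V] [Finite F] (hQ : ND Q) (hG : Good Q) (h : HypFam Q e f)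
    (σ : Equiv.Perm ι) : ∃ g ∈ Om Q, (∀ i, ∃ c : F, c ≠ 0 ∧ g.1 (e i) = c • e (σ i) ∧ g.1 (f i) = c • f (σ i)) ∧
      ∀ w ∈ hypPerp Q e f, g.1 w = w := by
  induction σ using Equiv.Perm.swap_induction_on with
  | one => exact ⟨1, one_mem _, fun i => ⟨1, one_ne_zero, by simp, by simp⟩, fun _ _ => rfl⟩
  | swap_mul σ i j hij ih =>
    obtain ⟨g, m, h1, h2⟩ := ih
    have s := hQ.sieg_mem_commutator hG
    refine ⟨sl Q e f i j 1 1 * g, mul_mem (mul_mem (mul_mem (s _ _) (s _ _)) (s _ _)) m, fun k => ?_, fun w hw => ?_⟩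
    · obtain ⟨c, c0, c1, c2⟩ := h1 k
      simp only [OG_mul_apply, c1, c2, map_smul, sl_e h hij 1 one_ne_zero, sl_f h hij 1 one_ne_zero, Equiv.Perm.mul_apply]
      by_cases a : σ k = i
      · exact ⟨-c, neg_ne_zero.2 c0, by simp [a], by simp [a]⟩
      by_cases b : σ k = j
      · exact ⟨c, c0, by simp [b, hij.symm], by simp [b, hij.symm]⟩
      exact ⟨c, c0, by simp [Equiv.swap_apply_of_ne_of_ne a b, a, b], by simp [Equiv.swap_apply_of_ne_of_ne a b, a, b]⟩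
    · rw [OG_mul_apply, h2 w hw, sl_w h hij 1 one_ne_zero hw]

theorem om_two [FiniteDimensional F V] [Finite F] (hQ : ND Q) {k : ℕ} {e f : Fin (k + 3) → V} (h : HypFam Q e f) {v w : V}
    (hv : v ∈ hypPerp Q e f) (hw : w ∈ hypPerp Q e f) (h0 : Q v ≠ 0)
    (hs : ∀ x ∈ hypPerp Q e f, ∃ a b : F, x = a • w + b • (refl Q v).1 w) : Gen2 (Om Q) := by
  have hn : 5 ≤ finrank F V := by have := h.finrank_eq; simp at this; omega
  have s := hQ.sieg_mem_commutator (good_of_five hn)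
  obtain ⟨g, gm, g1, g2⟩ := exists_perm hQ (good_of_five hn) h (finRotate (k + 3))
  obtain ⟨v1, v2⟩ := mem_hypPerp.1 hv
  have hx : Q (e 0 + Q v • f 0) = Q v := by simp [Q_add, Q_smul, h.Qe, h.Qf, h.ef]
  have ρ : ∀ x ∈ hypPerp Q e f, (refl Q v).1 x ∈ hypPerp Q e f := fun x hx => by
    rw [refl_apply]; exact sub_mem hx (Submodule.smul_mem _ _ hv)
  have ρ2 : ∀ x, (refl Q v).1 ((refl Q v).1 x) = x := reflL_reflL v
  set b := refl Q (e 0 + Q v • f 0) * refl Q v * g with hb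
  have b1 : ∀ x ∈ hypPerp Q e f, b.1 x = (refl Q v).1 x := fun x hx => by
    rw [hb, OG_mul_apply, OG_mul_apply, g2 x hx, refl_apply_of_perp (by simp [mem_hypPerp.1 (ρ x hx)])]
  have b2 : ∀ i : Fin (k + 2), ∃ c : F, c ≠ 0 ∧ b.1 (e i.castSucc) = c • e i.succ ∧ b.1 (f i.castSucc) = c • f i.succ := fun i => by
    obtain ⟨c, c0, c1, c2⟩ := g1 i.castSucc
    refine ⟨c, c0, ?_, ?_⟩ <;>
      simp [hb, OG_mul_apply, c1, c2, refl_apply, polar_comm Q v, v1, v2, h.ee, h.ef, h.fe, h.ff, (Fin.succ_ne_zero i).symm]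
  have b3 : ∃ c d : F, c ≠ 0 ∧ d ≠ 0 ∧ b.1 (e (Fin.last _)) = c • f 0 ∧ b.1 (f (Fin.last _)) = d • e 0 := by
    obtain ⟨c, c0, c1, c2⟩ := g1 (Fin.last _)
    refine ⟨-(c * Q v), -(c / Q v), by simp [c0, h0], by simp [c0, h0], ?_, ?_⟩ <;>
      simp [hb, OG_mul_apply, c1, c2, refl_apply, polar_comm Q v, v1, v2, h.ee, h.ef, h.fe, h.ff, hx, h0, h.Qe, h.Qf] <;>
      match_scalars <;> field_simp <;> ring
  obtain ⟨c, c0, c1, -⟩ := b2 1
  obtain ⟨d, d0, d1, -⟩ := b2 0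
  obtain ⟨ζ, hζ⟩ := IsCyclic.exists_generator (α := Fˣ)
  obtain ⟨p, hp⟩ := CharP.exists F
  have pp := CharP.char_is_prime F p
  have n12 : (1 : Fin (k + 3)) ≠ 2 := fun e => by have := congrArg Fin.val e; rw [Fin.val_two] at this; simp at this
  have n02 : (0 : Fin (k + 3)) ≠ 2 := fun e => by have := congrArg Fin.val e; rw [Fin.val_two] at this; simp at this
  have z0 : (ζ : F) / c ≠ 0 := by simp [c0]
  obtain ⟨α, N, hN, sN⟩ : ∃ (α : F) (N : ℕ), N.Coprime p ∧ sl Q e f 1 2 α (ζ / c) ^ N = 1 := by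
    by_cases p2 : p = 2
    · subst p2
      have : (2 : F) = 0 := CharP.cast_eq_zero F 2
      refine ⟨0, 3, by decide, og_ext h (fun i => ?_) (fun i => ?_) fun x hx => ?_⟩
      · by_cases a : i = 1 <;> by_cases b : i = 2 <;> simp [pow_succ, OG_mul_apply, sl_e h n12 _ z0, a, b, n12, n12.symm] <;>
          match_scalars <;> field_simp <;> grind
      · by_cases a : i = 1 <;> by_cases b : i = 2 <;> simp [pow_succ, OG_mul_apply, sl_f h n12 _ z0, a, b, n12, n12.symm] <;>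
          match_scalars <;> field_simp <;> grind
      · simp [pow_succ, OG_mul_apply, sl_w h n12 _ z0 hx]
    · refine ⟨ζ / c, 2 ^ 2, ((Nat.coprime_primes Nat.prime_two pp).2 (Ne.symm p2)).pow_left 2,
        og_ext h (fun i => ?_) (fun i => ?_) fun x hx => ?_⟩
      · by_cases a : i = 1 <;> by_cases b : i = 2 <;> simp [pow_succ, OG_mul_apply, sl_e h n12 _ z0, a, b, n12, n12.symm] <;>
          match_scalars <;> field_simp <;> grind
      · by_cases a : i = 1 <;> by_cases b : i = 2 <;> simp [pow_succ, OG_mul_apply, sl_f h n12 _ z0, a, b, n12, n12.symm] <;>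
          match_scalars <;> field_simp <;> grind
      · simp [pow_succ, OG_mul_apply, sl_w h n12 _ z0 hx]
  have w1 := (mem_hypPerp.1 hw).1
  refine gen2_of (a := sieg Q (e 0) w * sl Q e f 1 2 α (ζ / c)) (b := b) (mul_mem (s _ _) (mul_mem (mul_mem (s _ _) (s _ _)) (s _ _)))
    (mul_mem (hQ.refl_mul_refl_mem_commutator (by rwa [hx]) hx) gm) fun M m1 m2 => ?_
  obtain ⟨m1, m3⟩ := split (p := p) (Commute.symm (mul_inv_eq_iff_eq_mul.1 (by
    rw [conj_sieg, sl_w h n12 _ z0 hw, sl_e h n12 _ z0]; simp [n02])))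
    (by rw [sieg_nsmul (h.Qe 0) (w1 0), CharP.cast_eq_zero, zero_smul, sieg_zero]) sN hN m1
  have st : ∀ g ∈ M, ∀ {x y a : V} {c : F}, g.1 x = c • y → (∀ z ∈ hypPerp Q e f, g.1 z = (refl Q v).1 z) → Q y = 0 →
      (∀ z ∈ hypPerp Q e f, polar Q y z = 0) → a ∈ hypPerp Q e f → sieg Q x a ∈ M → sieg Q y (c • (refl Q v).1 a) ∈ M :=
    fun g hg x y a c e1 e2 e3 e4 ha m => by
      have := cj hg m
      rwa [conj_sieg, e1, e2 a ha, sieg_smul_left e3 (e4 _ (ρ a ha))] at this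
  have st' : ∀ {x y : V} {c : F}, c ≠ 0 → b.1 x = c • y → Q y = 0 → (∀ z ∈ hypPerp Q e f, polar Q y z = 0) →
      (∀ a ∈ hypPerp Q e f, sieg Q x a ∈ M) → ∀ a ∈ hypPerp Q e f, sieg Q y a ∈ M := fun {x y c} c0 e1 e3 e4 m a ha => by
    have ha' := ρ _ (Submodule.smul_mem _ c⁻¹ ha)
    simpa [ρ2, c0] using st b m2 e1 b1 e3 e4 ha' (m _ ha')
  have pe : ∀ i, ∀ z ∈ hypPerp Q e f, polar Q (e i) z = 0 := fun i z hz => (mem_hypPerp.1 hz).1 i
  have pf : ∀ i, ∀ z ∈ hypPerp Q e f, polar Q (f i) z = 0 := fun i z hz => (mem_hypPerp.1 hz).2 i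
  have a1 : ∀ a ∈ hypPerp Q e f, sieg Q (e 1) a ∈ M → sieg Q (e 1) ((ζ : F) • (refl Q v).1 a) ∈ M := fun a ha =>
    st _ (mul_mem m3 m2) (by
      rw [OG_mul_apply, show b.1 (e 1) = c • e 2 from c1, map_smul, sl_e h n12 _ z0]
      simp [n12.symm, smul_smul, mul_div_cancel₀ _ c0])
      (fun z hz => by rw [OG_mul_apply, b1 z hz, sl_w h n12 _ z0 (ρ z hz)]) (h.Qe 1) (pe 1) ha
  have a2 : ∀ t : F, sieg Q (e 1) (t • d • (refl Q v).1 w) ∈ M := fun t => by
    have m := Submodule.smul_mem _ d (ρ w hw)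
    refine field_ind (P := fun t => sieg Q (e 1) (t • d • (refl Q v).1 w) ∈ M) (by simp [sieg_zero]) ?_ (fun a b ha hb => ?_) hζ
      (fun t ht => ?_) t
    · simpa using st b m2 d1 b1 (h.Qe _) (pe _) hw m1
    · rw [add_smul, sieg_add (h.Qe 1) (pe 1 _ (Submodule.smul_mem _ _ m)) (pe 1 _ (Submodule.smul_mem _ _ m))]
      exact mul_mem ha hb
    · have := a1 _ (Submodule.smul_mem _ _ (ρ _ (Submodule.smul_mem _ _ m))) (a1 _ (Submodule.smul_mem _ _ m) ht)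
      simpa [ρ2, smul_smul, pow_two, mul_assoc] using this
  have a3 : ∀ a ∈ hypPerp Q e f, sieg Q (e 1) a ∈ M := fun a ha => by
    obtain ⟨x, y, rfl⟩ := hs a ha
    rw [sieg_add (h.Qe 1) (pe 1 _ (Submodule.smul_mem _ _ hw)) (pe 1 _ (Submodule.smul_mem _ _ (ρ w hw)))]
    refine mul_mem ?_ (by simpa [smul_smul, d0] using a2 (y / d))
    simpa [ρ2, smul_smul, d0, mul_assoc] using
      a1 _ (Submodule.smul_mem _ _ (Submodule.smul_mem _ d (ρ w hw))) (a2 ((ζ⁻¹ : Fˣ) * (x / d)))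
  obtain ⟨x, y, x0, y0, x1, y1⟩ := b3
  obtain ⟨a4, a5⟩ := cyc (P := fun i => ∀ a ∈ hypPerp Q e f, sieg Q (e i) a ∈ M) (Q := fun i => ∀ a ∈ hypPerp Q e f, sieg Q (f i) a ∈ M)
    (fun i => (b2 i).elim fun c hc => st' hc.1 hc.2.1 (h.Qe _) (pe _)) (fun i => (b2 i).elim fun c hc => st' hc.1 hc.2.2 (h.Qf _) (pf _))
    (st' x0 x1 (h.Qf _) (pf _)) (st' y0 y1 (h.Qe _) (pe _)) a3
  obtain ⟨u, hu⟩ := (h.nd_restrict hQ).exists_ne (x := ⟨v, hv⟩) (by rintro ⟨⟩; simp at h0)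
  exact le_of_rad hQ hn ⟨h.Qe 0, h.Qf 0, by simp [h.ef]⟩ (rad_mem h hv u.2 hu a4 a5 0)
    (rad_mem h.symm (hypPerp_symm hv) (hypPerp_symm u.2) hu (fun i x hx => a5 i x (hypPerp_symm hx))
      (fun i x hx => a4 i x (hypPerp_symm hx)) 0)

theorem pom_odd [Fintype F] (h2 : (2 : F) ≠ 0) (m : ℕ) (hm : 2 ≤ m) : Gen2 (POm (QOdd m F)) := by
  rcases hm.eq_or_lt with rfl | hm
  · obtain ⟨e⟩ := exists_form_equiv_PSp4 h2 (nd_QOdd (m := 2) h2) (by simp)
    exact Gen2.equiv (Sp.psp_two_gen 2 le_rfl) e.symm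
  obtain ⟨k, rfl⟩ := Nat.exists_eq_add_of_le' (show 3 ≤ m from hm)
  refine (om_two (nd_QOdd h2) (hypFam_QOdd _) (v := Pi.single (.inl ()) 1) (w := Pi.single (.inl ()) 1)
    (by simp [mem_hypPerp, polar_QOdd]) (by simp [mem_hypPerp, polar_QOdd]) (by simp [QOdd_apply])
    fun x hx => ⟨x (.inl ()), 0, ?_⟩).quot _
  simp [mem_hypPerp, polar_QOdd, Pi.single_apply] at hx
  ext (i | i | i) <;> simp [hx]

theorem pom_plus [Finite F] (m : ℕ) (hm : 4 ≤ m) : Gen2 (POm (QPlus m F)) := by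
  obtain ⟨k, rfl⟩ := Nat.exists_eq_add_of_le' hm
  have H := hypFam_QPlus (F := F) (k + 4)
  have h : HypFam (QPlus (k + 4) F) (fun i : Fin (k + 3) => Pi.single (.inl i.succ) 1) fun i => Pi.single (.inr i.succ) 1 :=
    ⟨fun _ => H.Qe _, fun _ => H.Qf _, fun _ _ => H.ee _ _, fun _ _ => H.ff _ _, fun i j => by simpa using H.ef i.succ j.succ⟩
  have q : QPlus (k + 4) F (Pi.single (.inl 0) 1 + Pi.single (.inr 0) 1) = 1 := by
    rw [Q_add, H.Qe, H.Qf, H.ef]; simp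
  have n : ∀ i : Fin (k + 3), 0 ≠ i.succ := fun i => (Fin.succ_ne_zero i).symm
  refine (om_two nd_QPlus h (v := Pi.single (.inl 0) 1 + Pi.single (.inr 0) 1) (w := Pi.single (.inl 0) 1)
    (by simp [mem_hypPerp, polar_QPlus, Pi.single_apply, n]) (by simp [mem_hypPerp, polar_QPlus, Pi.single_apply, n])
    (by simp [q]) fun x hx => ⟨x (.inl 0), -x (.inr 0), ?_⟩).quot _
  simp [mem_hypPerp, polar_QPlus, Pi.single_apply] at hx
  ext (i | i) <;> induction i using Fin.cases <;> simp [refl_apply, q, polar_QPlus, Pi.single_apply, hx, H.Qe]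

theorem pom_minus [Finite F] (m : ℕ) (hm : 3 ≤ m) {a b : F}
    (hab : ∀ z₁ z₂ : F, z₁ ^ 2 + a * z₁ * z₂ + b * z₂ ^ 2 = 0 → z₁ = 0 ∧ z₂ = 0) : Gen2 (POm (QMinus m F a b)) := by
  obtain ⟨k, rfl⟩ := Nat.exists_eq_add_of_le' hm
  have hd := disc_ne_zero_of_anisotropic hab
  obtain ⟨t, ht⟩ : ∃ t, a + 2 * t ≠ 0 := by
    by_contra! h
    exact hd (by linear_combination (a + 2 * b) * h 0 - 2 * b * h 1)
  refine (om_two (nd_QMinus' hd) (hypFam_QMinus _ a b) (v := Pi.single (.inr 0) 1)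
    (w := Pi.single (.inr 1) 1 + t • Pi.single (.inr 0) 1)
    (by simp [mem_hypPerp, polar_QMinus]) (by simp [mem_hypPerp, polar_QMinus]) (by simp [QMinus_apply])
    fun x hx => ⟨x (.inr 1) - (t * x (.inr 1) - x (.inr 0)) / (a + 2 * t), (t * x (.inr 1) - x (.inr 0)) / (a + 2 * t), ?_⟩).quot _
  simp [mem_hypPerp, polar_QMinus, Pi.single_apply] at hx
  ext ((i | i) | i)
  · simp [refl_apply, hx]
  · simp [refl_apply, hx]
  · fin_cases i <;> simp [refl_apply, QMinus_apply, polar_QMinus]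
    linear_combination div_mul_cancel₀ (t * x (.inr 1) - x (.inr 0)) ht

end Cfsg.Agent.H6.Two
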